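import Mathlib
import Cfsg.Agent.Lib.H01.Frobenius
import Cfsg.Agent.Lib.H20.Frob
import Cfsg.Agent.Lib.H20.FrobSemi

/-!
Frobenius groups with a quaternion subgroup in the complement: the kernel has odd square order.
-/

set_option autoImplicit false
set_option linter.unusedSectionVars false
set_option linter.style.haveILetI false

namespace Cfsg.Agent.H18

open scoped Pointwise

universe u

section quat

/-- On an elementary abelian `r`-group (`r` odd) with the relations of `Q₈`, the rank is even. -/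
theorem even_finrank_of_quat {r : ℕ} [Fact r.Prime] (hr : r ≠ 2) {V : Type*} [AddCommGroup V]
    [Module (ZMod r) V] [Module.Finite (ZMod r) V] (I J : V →ₗ[ZMod r] V)
    (hI : ∀ x, I (I x) = -x) (hJ : ∀ x, J (J x) = -x) (hIJ : ∀ x, J (I x) = - I (J x)) :
    Even (Module.finrank (ZMod r) V) := by
  classical
  have h1 : J ∘ₗ I = (-1 : ZMod r) • (I ∘ₗ J) := by
    ext x
    simp [hIJ]
  have h2 := congrArg LinearMap.det h1
  rw [LinearMap.det_comp, LinearMap.det_smul, LinearMap.det_comp] at h2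
  have h3 : LinearMap.det (I ∘ₗ I) = LinearMap.det ((-1 : ZMod r) • (LinearMap.id : V →ₗ[ZMod r] V)) := by
    congr 1
    ext x
    simp [hI]
  have h4 : LinearMap.det (J ∘ₗ J) = LinearMap.det ((-1 : ZMod r) • (LinearMap.id : V →ₗ[ZMod r] V)) := by
    congr 1
    ext x
    simp [hJ]
  rw [LinearMap.det_comp, LinearMap.det_smul, LinearMap.det_id, mul_one] at h3 h4
  have h5 : ((-1 : ZMod r) ^ Module.finrank (ZMod r) V) ≠ 0 := pow_ne_zero _ (by simp)
  have hIu : LinearMap.det I ≠ 0 := by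
    intro h
    rw [h, mul_zero] at h3
    exact h5 h3.symm
  have hJu : LinearMap.det J ≠ 0 := by
    intro h
    rw [h, mul_zero] at h4
    exact h5 h4.symm
  have h6 : (-1 : ZMod r) ^ Module.finrank (ZMod r) V = 1 := by
    have h7 : LinearMap.det J * LinearMap.det I =
        (-1 : ZMod r) ^ Module.finrank (ZMod r) V * (LinearMap.det J * LinearMap.det I) := by
      calc LinearMap.det J * LinearMap.det I
          = (-1 : ZMod r) ^ Module.finrank (ZMod r) V * (LinearMap.det I * LinearMap.det J) := h2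
        _ = _ := by ring
    have h8 : LinearMap.det J * LinearMap.det I ≠ 0 := mul_ne_zero hJu hIu
    have h9 : ((-1 : ZMod r) ^ Module.finrank (ZMod r) V - 1) * (LinearMap.det J * LinearMap.det I) = 0 := by
      rw [sub_mul, one_mul, ← h7, sub_self]
    rcases mul_eq_zero.1 h9 with h10 | h10
    · exact sub_eq_zero.1 h10
    · exact absurd h10 h8
  rcases Nat.even_or_odd (Module.finrank (ZMod r) V) with h | h
  · exact h
  · exfalso
    rw [h.neg_one_pow] at h6
    have h7 : (2 : ZMod r) = 0 := by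
      have : (2 : ZMod r) = 1 - (-1) := by ring
      rw [this, h6]
      ring
    have h8 : ((2 : ℕ) : ZMod r) = 0 := by exact_mod_cast h7
    rw [ZMod.natCast_eq_zero_iff] at h8
    have hp : r.Prime := Fact.out
    exact hr ((Nat.prime_dvd_prime_iff_eq hp Nat.prime_two).1 h8)

/-- A finite abelian group of odd order with `Q₈` relations has square order. -/
theorem isSquare_card_of_quat : ∀ (n : ℕ) (A : Type u) [AddCommGroup A] [Finite A], Nat.card A = n →
    Odd n → ∀ (I J : A →+ A), (∀ x, I (I x) = -x) → (∀ x, J (J x) = -x) →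
    (∀ x, J (I x) = - I (J x)) → IsSquare n := by
  intro n
  induction n using Nat.strong_induction_on with
  | _ n ih =>
  intro A _ _ hA hodd I J hI hJ hIJ
  rcases eq_or_ne n 1 with rfl | hn1
  · exact ⟨1, rfl⟩
  obtain ⟨r, hr, hrn⟩ := Nat.exists_prime_and_dvd hn1
  haveI : Fact r.Prime := ⟨hr⟩
  have hr2 : r ≠ 2 := by
    rintro rfl
    exact (Nat.not_even_iff_odd.2 hodd) (even_iff_two_dvd.2 hrn)
  -- the `r`-torsion
  let V : AddSubgroup A := (nsmulAddMonoidHom (α := A) r).ker
  have hVmem : ∀ x, x ∈ V ↔ r • x = 0 := fun x => AddMonoidHom.mem_ker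
  have hVI : ∀ x ∈ V, I x ∈ V := by
    intro x hx
    rw [hVmem] at hx ⊢
    rw [← map_nsmul, hx, map_zero]
  have hVJ : ∀ x ∈ V, J x ∈ V := by
    intro x hx
    rw [hVmem] at hx ⊢
    rw [← map_nsmul, hx, map_zero]
  have hVr : ∀ x : V, r • x = 0 := by
    intro x
    apply Subtype.ext
    exact (hVmem x).1 x.2
  letI hM : Module (ZMod r) V := AddCommGroup.zmodModule hVr
  haveI : Finite V := inferInstance
  haveI hMF : Module.Finite (ZMod r) V := Module.Finite.of_finite
  let I₀ : V →+ V := (I.comp V.subtype).codRestrict V (fun x => hVI x x.2)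
  let J₀ : V →+ V := (J.comp V.subtype).codRestrict V (fun x => hVJ x x.2)
  have hev : Even (Module.finrank (ZMod r) V) :=
    @even_finrank_of_quat r _ hr2 V _ hM hMF (I₀.toZModLinearMap r) (J₀.toZModLinearMap r)
      (fun x => Subtype.ext (hI x)) (fun x => Subtype.ext (hJ x)) (fun x => Subtype.ext (hIJ x))
  have hVcard : Nat.card V = r ^ Module.finrank (ZMod r) V := by
    have h7 := @Module.natCard_eq_pow_finrank (ZMod r) V _ _ hM hMF
    rw [h7, Nat.card_zmod]
  -- `V` is nontrivial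
  have hVnt : 1 < Nat.card V := by
    obtain ⟨x, hx⟩ : ∃ x : A, addOrderOf x = r := by
      haveI : Fact r.Prime := ⟨hr⟩
      exact exists_prime_addOrderOf_dvd_card' r (by rw [hA]; exact hrn)
    have hxV : x ∈ V := by
      rw [hVmem, ← hx]
      exact addOrderOf_nsmul_eq_zero x
    have hx0 : x ≠ 0 := by
      rintro rfl
      rw [addOrderOf_zero] at hx
      exact hr.one_lt.ne hx
    have : Nontrivial V := ⟨⟨⟨x, hxV⟩, 0, fun h => hx0 (congrArg Subtype.val h)⟩⟩
    exact Finite.one_lt_card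
  -- the quotient
  have hcard : Nat.card A = Nat.card (A ⧸ V) * Nat.card V :=
    AddSubgroup.card_eq_card_quotient_mul_card_addSubgroup V
  have hqlt : Nat.card (A ⧸ V) < n := by
    rw [← hA, hcard]
    exact lt_mul_of_one_lt_right Nat.card_pos hVnt
  have hqodd : Odd (Nat.card (A ⧸ V)) := by
    rw [hA] at hcard
    rw [hcard] at hodd
    exact (Nat.odd_mul.1 hodd).1
  let Iq : A ⧸ V →+ A ⧸ V := QuotientAddGroup.map V V I (fun x hx => hVI x hx)
  let Jq : A ⧸ V →+ A ⧸ V := QuotientAddGroup.map V V J (fun x hx => hVJ x hx)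
  have hq := ih _ hqlt (A ⧸ V) rfl hqodd Iq Jq
    (by
      intro x
      induction x using QuotientAddGroup.induction_on with
      | H x =>
        show ((I (I x) : A) : A ⧸ V) = _
        rw [hI]; rfl)
    (by
      intro x
      induction x using QuotientAddGroup.induction_on with
      | H x =>
        show ((J (J x) : A) : A ⧸ V) = _
        rw [hJ]; rfl)
    (by
      intro x
      induction x using QuotientAddGroup.induction_on with
      | H x =>
        show ((J (I x) : A) : A ⧸ V) = _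
        rw [hIJ]; rfl)
  rw [← hA, hcard]
  apply hq.mul
  rw [hVcard]
  obtain ⟨d, hd⟩ := hev
  rw [hd, pow_add]
  exact ⟨_, rfl⟩

end quat

section main

variable {L : Type*} [Group L] [Finite L]

/-- A normal subgroup with a fixed-point-free involution `z` and elements `i`, `j` with the
relations of `Q₈`: the order is odd and a square. -/
theorem odd_square_of_quat (N : Subgroup L) [hN : N.Normal] (i j : L)
    (hz2 : (i ^ 2) ^ 2 = 1) (hj : j ^ 2 = i ^ 2) (hji : j * i = i⁻¹ * j)
    (hfix : ∀ n ∈ N, i ^ 2 * n = n * i ^ 2 → n = 1) :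
    Odd (Nat.card N) ∧ IsSquare (Nat.card N) := by
  classical
  set z := i ^ 2 with hz
  have hzinv : z⁻¹ = z := by
    rw [inv_eq_iff_mul_eq_one]
    rw [← pow_two]
    exact hz2
  -- `z` inverts `N`
  let f : N → N := fun n => ⟨n⁻¹ * (z * n * z⁻¹), N.mul_mem (N.inv_mem n.2) (hN.conj_mem _ n.2 z)⟩
  have hfinj : Function.Injective f := by
    intro a b hab
    have h1 : (a : L)⁻¹ * (z * a * z⁻¹) = (b : L)⁻¹ * (z * b * z⁻¹) := congrArg Subtype.val hab
    have h2 : (b : L) * (a : L)⁻¹ ∈ N := N.mul_mem b.2 (N.inv_mem a.2)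
    have h3 := hfix _ h2 (by
      have : z * ((b : L) * (a : L)⁻¹) * z⁻¹ = (b : L) * (a : L)⁻¹ := by
        have h4 : z * (a : L) * z⁻¹ = a * ((b : L)⁻¹ * (z * b * z⁻¹)) := by
          rw [← h1]; group
        calc z * ((b : L) * (a : L)⁻¹) * z⁻¹ = (z * b * z⁻¹) * (z * (a : L) * z⁻¹)⁻¹ := by group
          _ = _ := by rw [h4]; group
      calc z * ((b : L) * (a : L)⁻¹) = (z * ((b : L) * (a : L)⁻¹) * z⁻¹) * z := by group
        _ = _ := by rw [this])
    have h5 : (b : L) = a := by
      rw [mul_inv_eq_one] at h3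
      exact h3
    exact (Subtype.ext h5).symm
  have hfsurj : Function.Surjective f := Finite.surjective_of_injective hfinj
  have hinv : ∀ n ∈ N, z * n * z⁻¹ = n⁻¹ := by
    intro n hn
    obtain ⟨m, hm⟩ := hfsurj ⟨n, hn⟩
    have h1 : (m : L)⁻¹ * (z * m * z⁻¹) = n := congrArg Subtype.val hm
    rw [← h1]
    have h3 : z * (z * (m : L) * z⁻¹) * z⁻¹ = m := by
      calc z * (z * (m : L) * z⁻¹) * z⁻¹ = (z * z) * (m : L) * (z⁻¹ * z⁻¹) := by group
        _ = m := by
          have hzz : z * z = 1 := by rw [← pow_two]; exact hz2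
          have hzz' : z⁻¹ * z⁻¹ = 1 := by rw [hzinv]; exact hzz
          rw [hzz, hzz']; group
    calc z * ((m : L)⁻¹ * (z * m * z⁻¹)) * z⁻¹
        = (z * (m : L)⁻¹ * z⁻¹) * (z * (z * (m : L) * z⁻¹) * z⁻¹) := by group
      _ = (z * (m : L) * z⁻¹)⁻¹ * m := by rw [h3]; group
      _ = ((m : L)⁻¹ * (z * m * z⁻¹))⁻¹ := by group
  have hcomm : ∀ a b : N, a * b = b * a := by
    intro a b
    have h1 := hinv _ (a * b).2
    have h2 := hinv _ a.2
    have h3 := hinv _ b.2
    apply Subtype.ext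
    show (a : L) * b = b * a
    have h4 : z * ((a : L) * b) * z⁻¹ = (z * a * z⁻¹) * (z * b * z⁻¹) := by group
    have h5 : ((a : L) * b)⁻¹ = (a : L)⁻¹ * (b : L)⁻¹ := by
      have : z * (((a * b : N) : L)) * z⁻¹ = ((a * b : N) : L)⁻¹ := h1
      rw [show ((a * b : N) : L) = (a : L) * b from rfl, h4, h2, h3] at this
      exact this.symm
    rw [mul_inv_rev] at h5
    have h6 : (b : L)⁻¹ * (a : L)⁻¹ = (a : L)⁻¹ * (b : L)⁻¹ := h5
    have h7 := congrArg (fun t => t⁻¹) h6
    simp only [mul_inv_rev, inv_inv] at h7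
    exact h7
  -- odd order
  have hodd : Odd (Nat.card N) := by
    rw [← Nat.not_even_iff_odd, even_iff_two_dvd]
    intro h2
    haveI : Fact (Nat.Prime 2) := ⟨Nat.prime_two⟩
    obtain ⟨x, hx⟩ := exists_prime_orderOf_dvd_card' 2 h2
    have hx1 : x ≠ 1 := by
      rintro rfl
      rw [orderOf_one] at hx
      omega
    have hx2 : (x : L)⁻¹ = x := by
      have : x ^ 2 = 1 := by rw [← hx]; exact pow_orderOf_eq_one x
      have h3 : (x : L) ^ 2 = 1 := by exact_mod_cast congrArg Subtype.val this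
      rw [inv_eq_iff_mul_eq_one, ← pow_two]
      exact h3
    have h3 := hinv _ x.2
    rw [hx2] at h3
    have h4 := hfix _ x.2 (by
      calc z * (x : L) = (z * (x : L) * z⁻¹) * z := by group
        _ = _ := by rw [h3])
    exact hx1 (Subtype.ext h4)
  refine ⟨hodd, ?_⟩
  -- additive structure
  letI cg : CommGroup N := { (inferInstance : Group N) with mul_comm := hcomm }
  let c : L → (Additive N →+ Additive N) := fun g =>
    { toFun := fun x => Additive.ofMul ⟨g * (x.toMul : L) * g⁻¹, hN.conj_mem _ x.toMul.2 g⟩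
      map_zero' := by
        apply Additive.toMul.injective
        apply Subtype.ext
        show g * (1 : L) * g⁻¹ = 1
        simp
      map_add' := fun x y => by
        apply Additive.toMul.injective
        apply Subtype.ext
        show g * ((x.toMul : L) * (y.toMul : L)) * g⁻¹ =
          (g * (x.toMul : L) * g⁻¹) * (g * (y.toMul : L) * g⁻¹)
        group }
  have hcval : ∀ g x, ((c g x).toMul : L) = g * (x.toMul : L) * g⁻¹ := fun _ _ => rfl
  have hnegval : ∀ x : Additive N, (((-x).toMul : N) : L) = ((x.toMul : N) : L)⁻¹ := fun _ => rfl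
  have hzi : i * (i * (1 : L)) = z := by rw [mul_one, hz, pow_two]
  have hI : ∀ x, c i (c i x) = -x := by
    intro x
    apply Additive.toMul.injective
    apply Subtype.ext
    rw [hcval, hcval, hnegval, ← hinv _ x.toMul.2, hz, pow_two]
    group
  have hJ : ∀ x, c j (c j x) = -x := by
    intro x
    apply Additive.toMul.injective
    apply Subtype.ext
    rw [hcval, hcval, hnegval, ← hinv _ x.toMul.2, ← hj, pow_two]
    group
  have hIJ : ∀ x, c j (c i x) = - c i (c j x) := by
    intro x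
    apply Additive.toMul.injective
    apply Subtype.ext
    rw [hcval, hcval, hnegval, hcval, hcval]
    set y := (x.toMul : L) with hy
    have hyN : y ∈ N := x.toMul.2
    set w := j * y * j⁻¹ with hw
    have hwN : w ∈ N := hN.conj_mem _ hyN j
    -- `i⁻¹ w i = (i w i⁻¹)⁻¹`
    have h1 : j * i * j⁻¹ = i⁻¹ := by rw [hji]; group
    have h2 : j * (i * y * i⁻¹) * j⁻¹ = i⁻¹ * w * i := by
      calc j * (i * y * i⁻¹) * j⁻¹ = (j * i * j⁻¹) * (j * y * j⁻¹) * (j * i * j⁻¹)⁻¹ := by group
        _ = _ := by rw [h1, inv_inv]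
    rw [h2]
    have h3 : i * w⁻¹ * i⁻¹ = (i * w * i⁻¹)⁻¹ := by group
    rw [← h3, ← hinv w hwN]
    have hii : i * z = i⁻¹ := by
      have h4 : i ^ 4 = 1 := by
        calc i ^ 4 = (i ^ 2) ^ 2 := by rw [← pow_mul]
          _ = 1 := hz2
      calc i * z = i ^ 3 := by rw [hz]; group
        _ = i⁻¹ * i ^ 4 := by group
        _ = i⁻¹ := by rw [h4, mul_one]
    calc i⁻¹ * w * i = (i * z) * w * (i * z)⁻¹ := by rw [hii, inv_inv]
      _ = i * (z * w * z⁻¹) * i⁻¹ := by group
  have hcc : Nat.card (Additive N) = Nat.card N := Nat.card_congr Additive.toMul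
  have := isSquare_card_of_quat (Nat.card (Additive N)) (Additive N) rfl
    (by rw [hcc]; exact hodd) (c i) (c j) hI hJ hIJ
  rw [hcc] at this
  exact this

/-- The element structure of generalized quaternion groups. -/
theorem quat_elements (k : ℕ) (hk : 1 ≤ k) : ∃ u v : QuaternionGroup (2 ^ k),
    (u ^ 2) ^ 2 = 1 ∧ u ^ 2 ≠ 1 ∧ v ^ 2 = u ^ 2 ∧ v * u = u⁻¹ * v := by
  obtain ⟨t, rfl⟩ : ∃ t, k = t + 1 := ⟨k - 1, by omega⟩
  have hNe : NeZero (2 * 2 ^ (t + 1)) := ⟨by positivity⟩
  have hs : ((2 ^ t : ℕ) : ZMod (2 * 2 ^ (t + 1))) + ((2 ^ t : ℕ) : ZMod (2 * 2 ^ (t + 1))) =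
      ((2 ^ (t + 1) : ℕ) : ZMod (2 * 2 ^ (t + 1))) := by
    rw [← Nat.cast_add]
    congr 1
    ring
  have hu2 : (QuaternionGroup.a ((2 ^ t : ℕ) : ZMod (2 * 2 ^ (t + 1))) : QuaternionGroup (2 ^ (t + 1))) ^ 2 =
      QuaternionGroup.a ((2 ^ (t + 1) : ℕ) : ZMod (2 * 2 ^ (t + 1))) := by
    rw [pow_two, QuaternionGroup.a_mul_a, hs]
  refine ⟨QuaternionGroup.a ((2 ^ t : ℕ) : ZMod (2 * 2 ^ (t + 1))), QuaternionGroup.xa 0, ?_, ?_, ?_, ?_⟩
  · rw [hu2, pow_two, QuaternionGroup.a_mul_a, ← Nat.cast_add, ← two_mul]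
    have : (((2 * 2 ^ (t + 1) : ℕ)) : ZMod (2 * 2 ^ (t + 1))) = 0 := ZMod.natCast_self _
    rw [this]
    rfl
  · rw [pow_two, QuaternionGroup.a_mul_a, hs]
    intro h
    have h1 : (((2 ^ (t + 1) : ℕ)) : ZMod (2 * 2 ^ (t + 1))) = 0 := by
      have := congrArg (fun g => match g with | QuaternionGroup.a i => i | QuaternionGroup.xa i => i) h
      exact this
    rw [ZMod.natCast_eq_zero_iff] at h1
    have h2 := Nat.le_of_dvd (by positivity) h1
    have h3 : 0 < 2 ^ (t + 1) := by positivity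
    omega
  · rw [pow_two, pow_two, QuaternionGroup.xa_mul_xa, QuaternionGroup.a_mul_a, hs]
    simp
  · show _ = QuaternionGroup.a (-_) * _
    rw [QuaternionGroup.xa_mul_a, QuaternionGroup.a_mul_xa]
    simp

/-- A Frobenius complement containing (a homomorphic injective image of) a group with `Q₈`
relations has a kernel of odd square order. -/
theorem odd_square_of_complement (H : Subgroup L) (hF : Cfsg.IsFrobeniusComplement H)
    {Q : Type*} [Group Q] (φ : Q →* L) (hφ : ∀ q, φ q ∈ H) (hinj : Function.Injective φ) (u v : Q)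
    (h1 : (u ^ 2) ^ 2 = 1) (h2 : u ^ 2 ≠ 1) (h3 : v ^ 2 = u ^ 2) (h4 : v * u = u⁻¹ * v) :
    Odd (Nat.card (Cfsg.frobeniusKernel H)) ∧ IsSquare (Nat.card (Cfsg.frobeniusKernel H)) := by
  classical
  obtain ⟨N, hNset, hNn, hc⟩ := H01.frobenius_theorem H hF
  have hcard : Nat.card (Cfsg.frobeniusKernel H) = Nat.card N := by
    rw [← hNset]
    rfl
  rw [hcard]
  refine odd_square_of_quat N (φ u) (φ v) (by rw [← map_pow, ← map_pow, h1, map_one])
    (by rw [← map_pow, ← map_pow, h3]) (by rw [← map_mul, h4, map_mul, map_inv]) ?_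
  intro n hn hcomm
  rw [← map_pow] at hcomm
  set z := φ (u ^ 2) with hz
  have hzH : z ∈ H := hφ _
  have hz1 : z ≠ 1 := by
    intro h
    exact h2 (hinj (by rw [map_one]; exact h))
  by_contra hn1
  by_cases hnH : n ∈ H
  · exact hn1 (Subgroup.disjoint_def.1 hc.disjoint hn hnH)
  · have h5 := hF.2.2 n hnH
    have h6 : z ∈ MulAut.conj n • H := by
      have h7 := Subgroup.smul_mem_pointwise_smul z (MulAut.conj n) H hzH
      have h8 : MulAut.conj n • z = z := by
        rw [MulAut.smul_def, MulAut.conj_apply, ← hcomm]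
        group
      rwa [h8] at h7
    have h9 : z ∈ H ⊓ (MulAut.conj n • H) := ⟨hzH, h6⟩
    rw [h5, Subgroup.mem_bot] at h9
    exact hz1 h9

end main

end Cfsg.Agent.H18
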