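import Mathlib
import Cfsg.Agent.Lib.H18.AbConj2
import Cfsg.Agent.S3911
import Cfsg.Agent.Lib.H01.Fitting
import Cfsg.Agent.Lib.H01.Solv2

/-! Groups in which abelian subgroups of equal order are conjugate: quaternion Sylow subgroups. -/

set_option autoImplicit false
set_option linter.unusedSectionVars false

namespace Cfsg.Agent.H18

universe u

section Quat
open QuaternionGroup
variable {n : ℕ} [NeZero n]

theorem quat_sq (x : QuaternionGroup n) (hx : x ^ 2 = 1) : x = 1 ∨ x = a (n : ZMod (2 * n)) := by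
  haveI : NeZero (2 * n) := ⟨by
    have := NeZero.ne n
    omega⟩
  have hnpos : 0 < n := Nat.pos_of_ne_zero (NeZero.ne n)
  rcases x with i | i
  · rw [sq, a_mul_a, one_def] at hx
    have h1 : i + i = 0 := a.inj hx
    have h2 : (((i.val + i.val : ℕ)) : ZMod (2 * n)) = 0 := by
      push_cast
      rw [ZMod.natCast_zmod_val]
      exact h1
    rw [ZMod.natCast_eq_zero_iff] at h2
    have h3 : i.val < 2 * n := ZMod.val_lt i
    obtain ⟨c, hc⟩ := h2
    have h4 : c = 0 ∨ c = 1 := by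
      have : c < 2 := by
        by_contra hlt
        push Not at hlt
        have : 2 * n * 2 ≤ 2 * n * c := Nat.mul_le_mul_left _ hlt
        omega
      omega
    rcases h4 with rfl | rfl
    · left
      have h5 : i.val = 0 := by omega
      have h6 : i = 0 := by
        rw [← ZMod.natCast_zmod_val i, h5]
        simp
      rw [h6, one_def]
    · right
      have h5 : i.val = n := by omega
      have h6 : i = (n : ZMod (2 * n)) := by
        rw [← ZMod.natCast_zmod_val i, h5]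
      rw [h6]
  · exfalso
    rw [xa_sq, one_def] at hx
    have h1 : (n : ZMod (2 * n)) = 0 := a.inj hx
    rw [ZMod.natCast_eq_zero_iff] at h1
    have := Nat.le_of_dvd hnpos h1
    omega

theorem quat_gen (L : Subgroup (QuaternionGroup n)) (h : ∀ y : QuaternionGroup n, orderOf y = 4 → y ∈ L) :
    L = ⊤ := by
  rw [eq_top_iff]
  rintro x -
  rcases x with i | i
  · have h1 := L.mul_mem (h (xa 0) (orderOf_xa 0)) (h (xa (i - (n : ZMod (2 * n)))) (orderOf_xa _))
    rw [xa_mul_xa] at h1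
    have h2 : (n : ZMod (2 * n)) + (i - (n : ZMod (2 * n))) - 0 = i := by ring
    rwa [h2] at h1
  · exact h _ (orderOf_xa i)

end Quat

section
variable {G : Type*} [Group G] [Finite G]
open QuaternionGroup

theorem le_of_order_four {n : ℕ} [NeZero n] (P : Subgroup G) (φ : ↥P ≃* QuaternionGroup n)
    (L : Subgroup G) (h : ∀ x ∈ P, orderOf x = 4 → x ∈ L) : P ≤ L := by
  have h1 : (L.subgroupOf P).map φ.toMonoidHom = ⊤ := by
    apply quat_gen
    intro y hy
    refine ⟨φ.symm y, ?_, by simp⟩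
    rw [SetLike.mem_coe, Subgroup.mem_subgroupOf]
    apply h _ (φ.symm y).2
    rw [Subgroup.orderOf_coe, MulEquiv.orderOf_eq, hy]
  intro x hx
  have h2 : φ ⟨x, hx⟩ ∈ (L.subgroupOf P).map φ.toMonoidHom := by
    rw [h1]
    exact Subgroup.mem_top _
  obtain ⟨y, hy, hyx⟩ := h2
  have h3 : y = ⟨x, hx⟩ := φ.injective hyx
  rw [SetLike.mem_coe, Subgroup.mem_subgroupOf, h3] at hy
  exact hy

/-- A `2`-group element of order at least `4` has a power of order `4`. -/
theorem exists_pow_order_four (x : G) (t : ℕ) (hx : orderOf x = 2 ^ t) (ht : 2 ≤ t) :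
    orderOf (x ^ (orderOf x / 4)) = 4 := by
  apply orderOf_pow_orderOf_div (orderOf_pos x).ne'
  rw [hx]
  exact pow_dvd_pow 2 ht

theorem orderOf_two_pow_of_mem_sylow (P : Sylow 2 G) (x : G) (hx : x ∈ (P : Subgroup G)) :
    ∃ t, orderOf x = 2 ^ t := by
  have := (IsPGroup.iff_orderOf.1 P.2) ⟨x, hx⟩
  simpa using this

theorem quat_k_le_one : ∀ (N : ℕ) (G : Type u) [Group G] [Finite G], Group.IsSolvable G → HProp G → Nat.card G = N →
    ∀ (P : Sylow 2 G) (k : ℕ), Nonempty (↥(P : Subgroup G) ≃* QuaternionGroup (2 ^ k)) → k ≤ 1 := by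
  intro N
  induction N using Nat.strong_induction_on with
  | _ N ih =>
  intro G _ _ hsol hH hN P k ⟨φ⟩
  by_contra hk
  push Not at hk
  by_cases hodd : ∃ K : Subgroup G, K.Normal ∧ K ≠ ⊥ ∧ Odd (Nat.card K)
  · obtain ⟨K, hKn, hK1, hKo⟩ := hodd
    haveI := hKn
    have hH' : HProp (G ⧸ K) := Cfsg.Agent.S3911.result hH K hKo
    have hsol' : Group.IsSolvable (G ⧸ K) := inferInstance
    have hlt : Nat.card (G ⧸ K) < N := by
      rw [← hN, Subgroup.card_eq_card_quotient_mul_card_subgroup K]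
      have h1 : 1 < Nat.card K := by
        have h2 : Nat.card K ≠ 1 := fun h => hK1 (Subgroup.card_eq_one.1 h)
        have h3 : 0 < Nat.card K := Nat.card_pos
        omega
      have h4 : 0 < Nat.card (G ⧸ K) := Nat.card_pos
      nlinarith
    let P' : Sylow 2 (G ⧸ K) := P.mapSurjective (QuotientGroup.mk'_surjective K)
    have hP' : (P' : Subgroup (G ⧸ K)) = (P : Subgroup G).map (QuotientGroup.mk' K) := rfl
    have hdisj : ∀ x ∈ (P : Subgroup G), x ∈ K → x = 1 := by
      intro x hxP hxK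
      by_contra hx1
      obtain ⟨t, ht⟩ := orderOf_two_pow_of_mem_sylow P x hxP
      have h1 : orderOf x ∣ Nat.card K := by
        have := Subgroup.orderOf_dvd_natCard K hxK
        exact this
      rcases t with _ | t
      · rw [pow_zero] at ht
        exact hx1 (orderOf_eq_one_iff.1 ht)
      · rw [ht] at h1
        have h2 : 2 ∣ Nat.card K := (dvd_pow_self 2 (Nat.succ_ne_zero t)).trans h1
        exact (Nat.not_even_iff_odd.2 hKo) (even_iff_two_dvd.2 h2)
    let f : ↥(P : Subgroup G) →* ↥(P' : Subgroup (G ⧸ K)) := (QuotientGroup.mk' K).subgroupMap (P : Subgroup G)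
    have hf : Function.Bijective f := by
      constructor
      · rw [injective_iff_map_eq_one]
        intro x hx
        have h1 : (QuotientGroup.mk' K) (x : G) = 1 := congrArg Subtype.val hx
        have h2 : (x : G) ∈ K := (QuotientGroup.eq_one_iff _).1 h1
        exact Subtype.ext (hdisj _ x.2 h2)
      · exact MonoidHom.subgroupMap_surjective _ _
    let φ' : ↥(P' : Subgroup (G ⧸ K)) ≃* QuaternionGroup (2 ^ k) := (MulEquiv.ofBijective f hf).symm.trans φ
    exact hk.not_ge (ih _ hlt (G ⧸ K) hsol' hH' rfl P' k ⟨φ'⟩)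
  · push Not at hodd
    -- no nontrivial normal subgroup of odd order
    have hcore : ∀ q : ℕ, q.Prime → q ≠ 2 → Cfsg.pCore q G = ⊥ := by
      intro q hq hq2
      haveI : Fact q.Prime := ⟨hq⟩
      by_contra hne
      have h1 := hodd _ (H01.pCore_normal q) hne
      obtain ⟨m, hm⟩ := IsPGroup.iff_card.1 (H01.pCore_isPGroup (G := G) q)
      rw [hm] at h1
      exact h1 ((hq.odd_of_ne_two hq2).pow)
    have hFP : Cfsg.fittingSubgroup G ≤ (P : Subgroup G) := by
      rw [H01.fitting_eq_iSup_pCore]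
      apply iSup_le
      rintro ⟨q, hq⟩
      by_cases hq2 : q = 2
      · subst hq2
        exact H01.pCore_le_sylow 2 P
      · rw [hcore q hq hq2]
        exact bot_le
    set F := Cfsg.fittingSubgroup G with hF
    have hFn : F.Normal := H01.fitting_normal
    have hne0 : (2 ^ k : ℕ) ≠ 0 := by positivity
    haveI : NeZero (2 ^ k : ℕ) := ⟨hne0⟩
    let s : G := (φ.symm (xa 0) : ↥(P : Subgroup G))
    have hsP : s ∈ (P : Subgroup G) := (φ.symm (xa 0)).2
    have hs4 : orderOf s = 4 := by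
      show orderOf ((φ.symm (xa 0) : ↥(P : Subgroup G)) : G) = 4
      rw [Subgroup.orderOf_coe, MulEquiv.orderOf_eq, orderOf_xa]
    let z : G := (φ.symm (a ((2 ^ k : ℕ) : ZMod (2 * 2 ^ k))) : ↥(P : Subgroup G))
    have hz : ∀ x ∈ (P : Subgroup G), x ^ 2 = 1 → x = 1 ∨ x = z := by
      intro x hx hx2
      have h1 : (φ ⟨x, hx⟩) ^ 2 = 1 := by
        rw [← map_pow]
        have : (⟨x, hx⟩ : ↥(P : Subgroup G)) ^ 2 = 1 := Subtype.ext hx2
        rw [this, map_one]
      rcases quat_sq _ h1 with h2 | h2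
      · left
        have h3 : (⟨x, hx⟩ : ↥(P : Subgroup G)) = 1 := by
          apply φ.injective
          rw [h2, map_one]
        exact congrArg Subtype.val h3
      · right
        have h3 : (⟨x, hx⟩ : ↥(P : Subgroup G)) = φ.symm (a ((2 ^ k : ℕ) : ZMod (2 * 2 ^ k))) := by
          apply φ.injective
          rw [h2, MulEquiv.apply_symm_apply]
        exact congrArg Subtype.val h3
    have hF4 : ∃ m ∈ F, orderOf m = 4 := by
      by_contra hno
      push Not at hno
      have hsq : ∀ x ∈ F, x ^ 2 = 1 := by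
        intro x hx
        obtain ⟨t, ht⟩ := orderOf_two_pow_of_mem_sylow P x (hFP hx)
        by_cases ht2 : 2 ≤ t
        · exact absurd (exists_pow_order_four x t ht ht2) (hno _ (F.pow_mem hx _))
        · apply orderOf_dvd_iff_pow_eq_one.1
          rw [ht]
          simpa using pow_dvd_pow 2 (show t ≤ 1 by omega)
      have hFz : ∀ x ∈ F, x = 1 ∨ x = z := fun x hx => hz x (hFP hx) (hsq x hx)
      have hcent : ∀ g : G, g ∈ Subgroup.centralizer (F : Set G) := by
        intro g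
        rw [Subgroup.mem_centralizer_iff]
        intro x hx
        rcases hFz x hx with h1 | h1
        · rw [h1, one_mul, mul_one]
        · rcases hFz _ (hFn.conj_mem x hx g) with h2 | h2
          · have h3 : x = 1 := by
              have h4 : x = g⁻¹ * (g * x * g⁻¹) * g := by group
              rw [h4, h2]
              group
            rw [h3, one_mul, mul_one]
          · have h3 : g * x * g⁻¹ = x := by rw [h2, h1]
            calc x * g = g * x * g⁻¹ * g := by rw [h3]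
              _ = g * x := by group
      have hsF : s ∈ F := H01.centralizer_fitting_le (hcent s)
      exact hno s hsF hs4
    obtain ⟨m, hmF, hm4⟩ := hF4
    have hPF : (P : Subgroup G) ≤ F := by
      apply le_of_order_four (n := 2 ^ k) (P : Subgroup G) φ F
      intro x _ hx4
      haveI := hFn
      exact (Cfsg.Agent.S3909.result hH F).1 x ⟨m, hmF, by rw [hm4, hx4]⟩
    have hPeq : (P : Subgroup G) = F := le_antisymm hPF hFP
    have hPn : (P : Subgroup G).Normal := by
      rw [hPeq]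
      exact hFn
    -- the cyclic part
    let r : G := (φ.symm (a 1) : ↥(P : Subgroup G))
    have hrP : r ∈ (P : Subgroup G) := (φ.symm (a 1)).2
    have hro : orderOf r = 2 * 2 ^ k := by
      show orderOf ((φ.symm (a 1) : ↥(P : Subgroup G)) : G) = 2 * 2 ^ k
      rw [Subgroup.orderOf_coe, MulEquiv.orderOf_eq, orderOf_a_one]
    have hk8 : 8 ≤ 2 * 2 ^ k := by
      have h1 : 2 ^ 2 ≤ 2 ^ k := Nat.pow_le_pow_right (by norm_num) hk
      omega
    have hconj : ∀ g : G, g * r * g⁻¹ ∈ Subgroup.zpowers r := by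
      intro g
      have h1 : g * r * g⁻¹ ∈ (P : Subgroup G) := hPn.conj_mem r hrP g
      have h2 : orderOf (g * r * g⁻¹) = 2 * 2 ^ k := by
        rw [← hro, ← MulAut.conj_apply, MulEquiv.orderOf_eq]
      rcases hw : φ ⟨g * r * g⁻¹, h1⟩ with j | j
      · have h3 : (⟨g * r * g⁻¹, h1⟩ : ↥(P : Subgroup G)) = φ.symm (a 1) ^ j.val := by
          apply φ.injective
          rw [hw, map_pow, MulEquiv.apply_symm_apply, a_one_pow, ZMod.natCast_zmod_val]
        have h4 : g * r * g⁻¹ = r ^ j.val := congrArg Subtype.val h3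
        rw [h4]
        exact Subgroup.pow_mem _ (Subgroup.mem_zpowers r) _
      · exfalso
        have h3 : orderOf (φ ⟨g * r * g⁻¹, h1⟩) = 4 := by
          rw [hw, orderOf_xa]
        rw [MulEquiv.orderOf_eq, ← Subgroup.orderOf_coe] at h3
        have h5 : orderOf (g * r * g⁻¹) = 4 := h3
        rw [h2] at h5
        omega
    have hRn : (Subgroup.zpowers r).Normal := by
      constructor
      rintro _ ⟨i, rfl⟩ g
      have h1 : g * ((fun x => r ^ x) i) * g⁻¹ = (g * r * g⁻¹) ^ i := by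
        show g * r ^ i * g⁻¹ = _
        rw [conj_zpow]
      rw [h1]
      exact Subgroup.zpow_mem _ (hconj g) i
    have hro4 : orderOf (r ^ (orderOf r / 4)) = 4 :=
      orderOf_pow_orderOf_div (orderOf_pos r).ne' (by
        rw [hro]
        have h1 : 2 ^ 1 ∣ 2 ^ k := pow_dvd_pow 2 (by omega)
        have h2 : 2 * 2 ^ 1 ∣ 2 * 2 ^ k := Nat.mul_dvd_mul_left 2 h1
        simpa using h2)
    have hsR : s ∈ Subgroup.zpowers r := by
      haveI := hRn
      exact (Cfsg.Agent.S3909.result hH (Subgroup.zpowers r)).1 s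
        ⟨r ^ (orderOf r / 4), Subgroup.pow_mem _ (Subgroup.mem_zpowers r) _, by rw [hro4, hs4]⟩
    rw [← mem_powers_iff_mem_zpowers, Submonoid.mem_powers_iff] at hsR
    obtain ⟨j, hj⟩ := hsR
    have h3 : (φ.symm (a 1) : ↥(P : Subgroup G)) ^ j = φ.symm (xa 0) := Subtype.ext hj
    have h4 := congrArg φ h3
    rw [map_pow, MulEquiv.apply_symm_apply, MulEquiv.apply_symm_apply, a_one_pow] at h4
    cases h4

end

section Split2
variable {Q : Type*} [Group Q] [Finite Q]

theorem card_of_split (B : Subgroup Q) (hB : ∀ a ∈ B, ∀ b ∈ B, a * b = b * a) (r : ℕ) :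
    Nat.card B = Nat.card (abPart₁ B hB r) * Nat.card (abPart₂ B hB r) := by
  rw [← Nat.card_prod]
  symm
  let f : (abPart₁ B hB r) × (abPart₂ B hB r) → B := fun x =>
    ⟨(x.1 : Q) * (x.2 : Q), B.mul_mem x.1.2.1 x.2.2.1⟩
  apply Nat.card_eq_of_bijective f
  constructor
  · rintro ⟨⟨o₁, ho₁⟩, ⟨v₁, hv₁⟩⟩ ⟨⟨o₂, ho₂⟩, ⟨v₂, hv₂⟩⟩ h
    have h1 : o₁ * v₁ = o₂ * v₂ := congrArg Subtype.val h
    have h2 : o₂⁻¹ * o₁ = v₂ * v₁⁻¹ := by
      calc o₂⁻¹ * o₁ = o₂⁻¹ * (o₁ * v₁) * v₁⁻¹ := by group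
        _ = o₂⁻¹ * (o₂ * v₂) * v₁⁻¹ := by rw [h1]
        _ = v₂ * v₁⁻¹ := by group
    have h3 : o₂⁻¹ * o₁ ∈ abPart₁ B hB r ⊓ abPart₂ B hB r :=
      ⟨(abPart₁ B hB r).mul_mem ((abPart₁ B hB r).inv_mem ho₂) ho₁, by
        rw [h2]
        exact (abPart₂ B hB r).mul_mem hv₂ ((abPart₂ B hB r).inv_mem hv₁)⟩
    rw [abPart_inf, Subgroup.mem_bot] at h3
    have h4 : o₁ = o₂ := by
      rw [← mul_one o₂, ← h3]
      group
    subst h4
    have h5 : v₁ = v₂ := mul_left_cancel h1
    subst h5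
    rfl
  · rintro ⟨x, hx⟩
    have hx' : x ∈ abPart₁ B hB r ⊔ abPart₂ B hB r := by
      rw [abPart_sup]
      exact hx
    obtain ⟨o, ho, v, hv, hxe⟩ := H01.exists_mul_of_mem_sup (N := abPart₁ B hB r) (A := abPart₂ B hB r) (by
      intro v hv
      rw [mem_normalizer_of_map_conj_eq_iff_le]
      rintro _ ⟨y, hy, rfl⟩
      have h1 : v * y = y * v := hB _ hv.1 _ hy.1
      have h2 : (MulAut.conj v).toMonoidHom y = y := by
        show v * y * v⁻¹ = y
        rw [h1]
        group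
      rw [h2]
      exact hy) hx'
    exact ⟨(⟨o, ho⟩, ⟨v, hv⟩), Subtype.ext hxe.symm⟩

theorem conj_of_split (B₁ B₂ : Subgroup Q) (hab₁ : ∀ a ∈ B₁, ∀ b ∈ B₁, a * b = b * a)
    (hab₂ : ∀ a ∈ B₂, ∀ b ∈ B₂, a * b = b * a) (hcard : Nat.card B₁ = Nat.card B₂)
    (hoddc : ∀ O₁ O₂ : Subgroup Q, O₁ ≤ B₁ → O₂ ≤ B₂ → ¬ 2 ∣ Nat.card O₁ → ¬ 2 ∣ Nat.card O₂ →
      Nat.card O₁ = Nat.card O₂ → ∃ g : Q, O₂ = O₁.map (MulAut.conj g).toMonoidHom)
    (hSyl : ∀ R : Sylow 2 Q, Nat.card R = 4) (h4 : 4 ∣ Nat.card B₁) :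
    ∃ g : Q, B₂ = B₁.map (MulAut.conj g).toMonoidHom := by
  classical
  have key : ∀ (B : Subgroup Q) (hB : ∀ a ∈ B, ∀ b ∈ B, a * b = b * a), 4 ∣ Nat.card B →
      ¬ 2 ∣ Nat.card (abPart₁ B hB 2) ∧ ∃ R : Sylow 2 Q, (R : Subgroup Q) = abPart₂ B hB 2 := by
    intro B hB h4B
    have hodd : ¬ 2 ∣ Nat.card (abPart₁ B hB 2) := by
      intro h2
      obtain ⟨x, hx⟩ := exists_prime_orderOf_dvd_card' 2 h2
      have h3 : Nat.Coprime (orderOf (x : Q)) 2 := x.2.2
      rw [Subgroup.orderOf_coe, hx] at h3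
      exact absurd h3 (by norm_num)
    refine ⟨hodd, ?_⟩
    have hV : IsPGroup 2 (abPart₂ B hB 2) := by
      rw [IsPGroup.iff_orderOf]
      intro v
      refine ⟨_, Nat.eq_prime_pow_of_unique_prime_dvd (orderOf_pos v).ne' ?_⟩
      intro d hd hdv
      have h5 := v.2.2 d hd (by rwa [Subgroup.orderOf_coe])
      exact (Nat.prime_dvd_prime_iff_eq hd Nat.prime_two).1 h5
    obtain ⟨R, hR⟩ := hV.exists_le_sylow
    refine ⟨R, ?_⟩
    have h5 := card_of_split B hB 2
    have h6 : (4 : ℕ) ∣ Nat.card (abPart₂ B hB 2) := by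
      rw [h5] at h4B
      have h7 : Nat.Coprime (2 ^ 2) (Nat.card (abPart₁ B hB 2)) :=
        Nat.Coprime.pow_left 2 ((Nat.Prime.coprime_iff_not_dvd Nat.prime_two).2 hodd)
      exact h7.dvd_of_dvd_mul_left h4B
    have h8 := Subgroup.card_dvd_of_le hR
    rw [hSyl R] at h8
    have h9 : Nat.card (abPart₂ B hB 2) = 4 := Nat.dvd_antisymm h8 h6
    symm
    apply Subgroup.eq_of_le_of_card_ge hR
    rw [hSyl R, h9]
  obtain ⟨hO₁, R₁, hR₁⟩ := key B₁ hab₁ h4
  obtain ⟨hO₂, R₂, hR₂⟩ := key B₂ hab₂ (hcard ▸ h4)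
  have hc₁ := card_of_split B₁ hab₁ 2
  have hc₂ := card_of_split B₂ hab₂ 2
  rw [← hR₁, hSyl R₁] at hc₁
  rw [← hR₂, hSyl R₂] at hc₂
  have hO : Nat.card (abPart₁ B₁ hab₁ 2) = Nat.card (abPart₁ B₂ hab₂ 2) := by
    have : Nat.card (abPart₁ B₁ hab₁ 2) * 4 = Nat.card (abPart₁ B₂ hab₂ 2) * 4 := by
      rw [← hc₁, ← hc₂, hcard]
    exact Nat.eq_of_mul_eq_mul_right (by norm_num) this
  obtain ⟨g, hg⟩ := hoddc _ _ (fun a (h : a ∈ abPart₁ B₁ hab₁ 2) => h.1) (fun a (h : a ∈ abPart₁ B₂ hab₂ 2) => h.1) hO₁ hO₂ hO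
  set O₁ := abPart₁ B₁ hab₁ 2 with hO₁d
  set O₂ := abPart₁ B₂ hab₂ 2 with hO₂d
  set C := Subgroup.centralizer (O₂ : Set Q) with hC
  have h1 : ((sylowConj R₁ g : Sylow 2 Q) : Subgroup Q) ≤ C := by
    rw [coe_sylowConj, hR₁]
    rintro _ ⟨v, hv, rfl⟩
    rw [hC, Subgroup.mem_centralizer_iff]
    intro y hy
    rw [SetLike.mem_coe, hg] at hy
    obtain ⟨o, ho, rfl⟩ := hy
    have h5 : o * v = v * o := hab₁ _ ho.1 _ hv.1
    show (g * o * g⁻¹) * (g * v * g⁻¹) = (g * v * g⁻¹) * (g * o * g⁻¹)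
    calc (g * o * g⁻¹) * (g * v * g⁻¹) = g * (o * v) * g⁻¹ := by group
      _ = g * (v * o) * g⁻¹ := by rw [h5]
      _ = _ := by group
  have h2 : (R₂ : Subgroup Q) ≤ C := by
    rw [hR₂]
    intro v hv
    rw [hC, Subgroup.mem_centralizer_iff]
    intro y hy
    exact hab₂ _ ((show O₂ ≤ B₂ from fun a h => h.1) hy) _ hv.1
  obtain ⟨c, hcC, hc⟩ := exists_conj_of_sylows_le (sylowConj R₁ g) R₂ C h1 h2
  rw [coe_sylowConj] at hc
  refine ⟨c * g, ?_⟩
  have hO₂c : O₂.map (MulAut.conj c).toMonoidHom = O₂ := by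
    apply map_conj_eq_of_mem_normalizer
    rw [mem_normalizer_of_map_conj_eq_iff_le]
    rintro _ ⟨y, hy, rfl⟩
    have h5 : y * c = c * y := Subgroup.mem_centralizer_iff.1 hcC y hy
    have h6 : (MulAut.conj c).toMonoidHom y = y := by
      show c * y * c⁻¹ = y
      rw [← h5]
      group
    rw [h6]
    exact hy
  have hB₁ : B₁ = O₁ ⊔ (R₁ : Subgroup Q) := by
    rw [hR₁, hO₁d, abPart_sup]
  have hB₂ : B₂ = O₂ ⊔ (R₂ : Subgroup Q) := by
    rw [hR₂, hO₂d, abPart_sup]
  rw [hB₁, Subgroup.map_sup, map_conj_mul, map_conj_mul, ← hg, ← hc, hO₂c, ← hB₂]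

end Split2

section Main
variable {G : Type*} [Group G] [Finite G]
open QuaternionGroup

theorem card_eq_map_mul_inf (M : Subgroup G) [M.Normal] (C : Subgroup G) :
    Nat.card C = Nat.card (C.map (QuotientGroup.mk' M)) * Nat.card (C ⊓ M : Subgroup G) := by
  let f : C →* G ⧸ M := (QuotientGroup.mk' M).comp C.subtype
  have h1 := Subgroup.card_mul_index f.ker
  rw [Subgroup.index_ker] at h1
  have h2 : f.range = C.map (QuotientGroup.mk' M) := by
    rw [MonoidHom.range_comp, Subgroup.range_subtype]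
  have h3 : Nat.card f.ker = Nat.card (C ⊓ M : Subgroup G) := by
    have h4 : f.ker = M.subgroupOf C := by
      ext x
      rw [MonoidHom.mem_ker, Subgroup.mem_subgroupOf]
      exact QuotientGroup.eq_one_iff _
    rw [h4, card_subgroupOf, inf_comm]
  rw [h2, h3] at h1
  rw [← h1, mul_comm]

theorem isCyclic_of_two_group {T : Subgroup G} (hT : IsPGroup 2 T) (h : ¬ 4 ∣ Nat.card T) : IsCyclic T := by
  obtain ⟨a, ha⟩ := IsPGroup.iff_card.1 hT
  rcases a with _ | _ | a
  · rw [pow_zero] at ha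
    have : Subsingleton T := (Nat.card_eq_one_iff_unique.1 ha).1
    exact isCyclic_of_subsingleton
  · rw [zero_add, pow_one] at ha
    haveI : Fact (Nat.Prime 2) := ⟨Nat.prime_two⟩
    exact isCyclic_of_prime_card ha
  · exfalso
    apply h
    rw [ha]
    exact pow_dvd_pow 2 (show 2 ≤ a + 1 + 1 by omega)

theorem quot_hProp_Q8 (hH : HProp G) (M : Subgroup G) [M.Normal] (P : Sylow 2 G)
    (φ : ↥(P : Subgroup G) ≃* QuaternionGroup (2 ^ 1)) (h2M : 2 ∣ Nat.card M)
    (hPM : ¬ (P : Subgroup G) ≤ M)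
    (hoddp : ∀ (p : ℕ) [Fact p.Prime], p ≠ 2 → p ∣ Nat.card M → ∀ R : Sylow p G,
      IsCyclic (R : Subgroup G) ∨ (R : Subgroup G) ≤ M) : HProp (G ⧸ M) := by
  classical
  haveI : Fact (Nat.Prime 2) := ⟨Nat.prime_two⟩
  have hM4 : ∀ m ∈ M, orderOf m ≠ 4 := by
    intro m hm h4
    apply hPM
    apply le_of_order_four (n := 2 ^ 1) (P : Subgroup G) φ M
    intro x _ hx4
    exact (Cfsg.Agent.S3909.result hH M).1 x ⟨m, hm, by rw [h4, hx4]⟩
  let z : G := (φ.symm (a ((2 ^ 1 : ℕ) : ZMod (2 * 2 ^ 1))) : ↥(P : Subgroup G))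
  have hz : ∀ x ∈ (P : Subgroup G), x ^ 2 = 1 → x = 1 ∨ x = z := by
    intro x hx hx2
    have h1 : (φ ⟨x, hx⟩) ^ 2 = 1 := by
      rw [← map_pow]
      have : (⟨x, hx⟩ : ↥(P : Subgroup G)) ^ 2 = 1 := Subtype.ext hx2
      rw [this, map_one]
    rcases quat_sq _ h1 with h2 | h2
    · left
      have h3 : (⟨x, hx⟩ : ↥(P : Subgroup G)) = 1 := by
        apply φ.injective
        rw [h2, map_one]
      exact congrArg Subtype.val h3
    · right
      have h3 : (⟨x, hx⟩ : ↥(P : Subgroup G)) = φ.symm (a ((2 ^ 1 : ℕ) : ZMod (2 * 2 ^ 1))) := by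
        apply φ.injective
        rw [h2, MulEquiv.apply_symm_apply]
      exact congrArg Subtype.val h3
  have hinf : ∀ x ∈ (P : Subgroup G) ⊓ M, x = 1 ∨ x = z := by
    intro x hx
    apply hz x hx.1
    obtain ⟨t, ht⟩ := orderOf_two_pow_of_mem_sylow P x hx.1
    by_cases ht2 : 2 ≤ t
    · exact absurd (exists_pow_order_four x t ht ht2) (hM4 _ (M.pow_mem hx.2 _))
    · apply orderOf_dvd_iff_pow_eq_one.1
      rw [ht]
      simpa using pow_dvd_pow 2 (show t ≤ 1 by omega)
  have h2inf : 2 ∣ Nat.card ((P : Subgroup G) ⊓ M : Subgroup G) := by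
    have := dvd_card_sylow_inf P M 1 (by simpa using h2M)
    simpa using this
  obtain ⟨w, hw⟩ := exists_prime_orderOf_dvd_card' 2 h2inf
  have hw' : orderOf (w : G) = 2 := by rw [Subgroup.orderOf_coe, hw]
  have hwz : (w : G) = z := by
    rcases hinf _ w.2 with h | h
    · rw [h, orderOf_one] at hw'
      omega
    · exact h
  have hzinf : z ∈ (P : Subgroup G) ⊓ M := hwz ▸ w.2
  have hzo : orderOf z = 2 := hwz ▸ hw'
  have hinfeq : (P : Subgroup G) ⊓ M = Subgroup.zpowers z := by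
    apply le_antisymm
    · intro x hx
      rcases hinf x hx with h | h
      · rw [h]
        exact Subgroup.one_mem _
      · rw [h]
        exact Subgroup.mem_zpowers z
    · rw [Subgroup.zpowers_le]
      exact hzinf
  have hinfc : Nat.card ((P : Subgroup G) ⊓ M : Subgroup G) = 2 := by
    rw [hinfeq, Nat.card_zpowers, hzo]
  have hno4 : ¬ 4 ∣ Nat.card M := by
    intro h
    have := dvd_card_sylow_inf P M 2 (by simpa using h)
    rw [hinfc] at this
    omega
  -- the lifting condition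
  have hL : LiftCond M := by
    intro p hp u hu huM k hk
    haveI : Fact p.Prime := ⟨hp⟩
    by_cases hp2 : p = 2
    · subst hp2
      have hk1 : k ≤ 1 := by
        by_contra hlt
        apply hno4
        refine Dvd.dvd.trans ?_ hk
        exact pow_dvd_pow 2 (show 2 ≤ k by omega)
      rcases k with _ | k
      · simp
      have hk0 : k = 0 := by omega
      subst hk0
      rw [zero_add, pow_one]
      obtain ⟨t, ht⟩ := hu
      have hu1 : u ≠ 1 := fun h => huM (h ▸ M.one_mem)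
      have ht0 : t ≠ 0 := by
        rintro rfl
        rw [pow_zero] at ht
        exact hu1 (orderOf_eq_one_iff.1 ht)
      have h2d : 2 ∣ orderOf u := by
        rw [ht]
        exact dvd_pow_self 2 ht0
      have hv : orderOf (u ^ (orderOf u / 2)) = 2 := orderOf_pow_orderOf_div (orderOf_pos u).ne' h2d
      set v := u ^ (orderOf u / 2) with hvd
      have hzp : IsPGroup 2 (Subgroup.zpowers u) := by
        apply IsPGroup.of_card (n := t)
        rw [Nat.card_zpowers, ht]
      obtain ⟨R, hR⟩ := hzp.exists_le_sylow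
      have hvR : v ∈ (R : Subgroup G) := hR (Subgroup.pow_mem _ (Subgroup.mem_zpowers u) _)
      obtain ⟨g, -, hg⟩ := exists_conj_of_sylows_le P R ⊤ le_top le_top
      rw [hg, mem_conj] at hvR
      have h3 : (g⁻¹ * v * g) ^ 2 = 1 := by
        have h3' : (g⁻¹ * v * g) ^ 2 = g⁻¹ * v ^ 2 * g := by
          rw [sq, sq]
          group
        have h3'' : v ^ 2 = 1 := by
          rw [← hv, pow_orderOf_eq_one]
        rw [h3', h3'']
        group
      have hvM : v ∈ M := by
        rcases hz _ hvR h3 with h4 | h4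
        · exfalso
          have h5 : v = 1 := by
            have h6 : v = g * (g⁻¹ * v * g) * g⁻¹ := by group
            rw [h6, h4]
            group
          rw [h5, orderOf_one] at hv
          omega
        · have h5 : v = g * z * g⁻¹ := by
            rw [← h4]
            group
          rw [h5]
          exact ‹M.Normal›.conj_mem z hzinf.2 g
      have h6 : v ∈ Subgroup.zpowers u ⊓ M := ⟨Subgroup.pow_mem _ (Subgroup.mem_zpowers u) _, hvM⟩
      have h7 := Subgroup.orderOf_dvd_natCard _ h6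
      rwa [hv] at h7
    · rcases k with _ | k
      · simp
      have hpM : p ∣ Nat.card M := (dvd_pow_self p (Nat.succ_ne_zero k)).trans hk
      exact liftCond_prime M p (hoddp p hp2 hpM) u hu huM _ hk
  -- order of the Sylow subgroups of the quotient
  have hSyl : ∀ R : Sylow 2 (G ⧸ M), Nat.card R = 4 := by
    intro R
    have h1 := card_eq_map_mul_inf M (P : Subgroup G)
    have h2 : Nat.card (P : Subgroup G) = 8 := by
      rw [Nat.card_congr φ.toEquiv, Nat.card_eq_fintype_card, QuaternionGroup.card]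
      norm_num
    rw [h2, hinfc] at h1
    have h3 : Nat.card ((P : Subgroup G).map (QuotientGroup.mk' M)) = 4 := by omega
    let P' : Sylow 2 (G ⧸ M) := P.mapSurjective (QuotientGroup.mk'_surjective M)
    have h4 : Nat.card P' = 4 := h3
    rw [Sylow.card_eq_multiplicity] at h4 ⊢
    exact h4
  have hcy : ∀ (O : Subgroup (G ⧸ M)) (hO : ∀ a ∈ O, ∀ b ∈ O, a * b = b * a), ¬ 4 ∣ Nat.card O →
      IsCyclic (abPart₂ O hO (Nat.card M)) := by
    intro O hO h4
    apply abPart_cyclic_of M O hO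
    intro p _ hpM T hTO hT
    by_cases hp2 : p = 2
    · subst hp2
      apply isCyclic_of_two_group hT
      intro h
      exact h4 (h.trans (Subgroup.card_dvd_of_le hTO))
    · exact sylow_image_cyclic M p (hoddp p hp2 hpM) T hT
  intro B₁ B₂ h₁ h₂ hcard
  have hab₁ : ∀ a ∈ B₁, ∀ b ∈ B₁, a * b = b * a := fun a ha b hb =>
    congrArg Subtype.val (h₁.1.comm ⟨a, ha⟩ ⟨b, hb⟩)
  have hab₂ : ∀ a ∈ B₂, ∀ b ∈ B₂, a * b = b * a := fun a ha b hb =>
    congrArg Subtype.val (h₂.1.comm ⟨a, ha⟩ ⟨b, hb⟩)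
  by_cases h4 : 4 ∣ Nat.card B₁
  · apply conj_of_split B₁ B₂ hab₁ hab₂ hcard _ hSyl h4
    intro O₁ O₂ hO₁ hO₂ ho₁ ho₂ hc
    have hOa₁ : ∀ a ∈ O₁, ∀ b ∈ O₁, a * b = b * a := fun a ha b hb => hab₁ a (hO₁ ha) b (hO₁ hb)
    have hOa₂ : ∀ a ∈ O₂, ∀ b ∈ O₂, a * b = b * a := fun a ha b hb => hab₂ a (hO₂ ha) b (hO₂ hb)
    have hn4 : ∀ {n : ℕ}, ¬ 2 ∣ n → ¬ 4 ∣ n := fun h h' => h ((by norm_num : 2 ∣ 4).trans h')
    exact quot_conj_pair hH M hL O₁ O₂ hOa₁ hOa₂ (hcy O₁ hOa₁ (hn4 ho₁)) (hcy O₂ hOa₂ (hn4 ho₂)) hc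
  · exact quot_conj_pair hH M hL B₁ B₂ hab₁ hab₂ (hcy B₁ hab₁ h4) (hcy B₂ hab₂ (hcard ▸ h4)) hcard

/-- The main theorem: quotients of solvable groups keep the property. -/
theorem quot_hProp_solvable (hH : HProp G) (hsol : Group.IsSolvable G) (M : Subgroup G) [M.Normal] :
    HProp (G ⧸ M) := by
  classical
  haveI : Fact (Nat.Prime 2) := ⟨Nat.prime_two⟩
  have hS := Cfsg.Agent.S3908.result hH
  have hsyl : ∀ (p : ℕ) [Fact p.Prime], p ≠ 2 → p ∣ Nat.card M → ∀ R : Sylow p G,
      IsCyclic (R : Subgroup G) ∨ (R : Subgroup G) ≤ M := by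
    intro p _ hp2 hpM R
    rcases hS.2 p hp2 R with h | h
    · exact Or.inl h
    · exact Or.inr (le_of_exp hH M p hpM _ h)
  by_cases hcase : 2 ∣ Nat.card M → ∀ R : Sylow 2 G, IsCyclic (R : Subgroup G) ∨ (R : Subgroup G) ≤ M
  · have hsyl' : ∀ (p : ℕ) [Fact p.Prime], p ∣ Nat.card M → ∀ R : Sylow p G,
        IsCyclic (R : Subgroup G) ∨ (R : Subgroup G) ≤ M := by
      intro p _ hpM
      by_cases hp2 : p = 2
      · subst hp2
        exact hcase hpM
      · exact hsyl p hp2 hpM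
    apply quot_hProp hH M
    · intro p hp u hu huM k hk
      haveI : Fact p.Prime := ⟨hp⟩
      rcases k with _ | k
      · simp
      have hpM : p ∣ Nat.card M := (dvd_pow_self p (Nat.succ_ne_zero k)).trans hk
      exact liftCond_prime M p (hsyl' p hpM) u hu huM _ hk
    · intro B hB'
      exact abPart_cyclic_of M B hB' (fun p _ hpM T _ hT => sylow_image_cyclic M p (hsyl' p hpM) T hT)
  · push Not at hcase
    obtain ⟨h2M, P, hPc, hPM⟩ := hcase
    rcases hS.1 P with h | h | ⟨k, ⟨φ⟩⟩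
    · exact absurd h hPc
    · exact absurd (le_of_exp hH M 2 h2M _ h.2) hPM
    · have hk := quat_k_le_one _ G hsol hH rfl P k ⟨φ⟩
      rcases k with _ | k
      · exfalso
        apply hPc
        have h1 : IsCyclic (QuaternionGroup (2 ^ 0)) := quaternionGroup_one_isCyclic
        exact isCyclic_of_surjective φ.symm.toMonoidHom φ.symm.surjective
      · have hk0 : k = 0 := by omega
        subst hk0
        exact quot_hProp_Q8 hH M P φ h2M hPM hsyl

end Main

end Cfsg.Agent.H18
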