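import Mathlib
import Cfsg.Agent.Lib.H18.Syl

/-! Non-trivial `p`-subgroups of a non-abelian simple normal subgroup. -/

set_option autoImplicit false

namespace Cfsg.Agent.H18

variable {G : Type*} [Group G]

theorem not_isPGroup_of_simple_nonabelian [Finite G] {T : Subgroup G} (hT : IsSimpleGroup T)
    (hna : ¬ IsMulCommutative T) {r : ℕ} [Fact r.Prime] : ¬ IsPGroup r T := by
  intro hp
  haveI : Nontrivial T := hT.toNontrivial
  haveI := hp.center_nontrivial
  have h := hT.eq_bot_or_eq_top_of_normal (Subgroup.center T) inferInstance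
  rcases h with h | h
  · exact (Subgroup.nontrivial_iff_ne_bot _).1 inferInstance h
  · apply hna
    refine ⟨⟨fun a b => ?_⟩⟩
    have : a ∈ Subgroup.center T := by rw [h]; trivial
    exact (Subgroup.mem_center_iff.1 this b).symm

/-- A non-trivial `p`-subgroup of a normal non-abelian simple subgroup is not normal. -/
theorem normalizer_ne_top_of_pgroup_le_simple [Finite G] {T : Subgroup G} [T.Normal]
    (hT : IsSimpleGroup T) (hna : ¬ IsMulCommutative T) {r : ℕ} [Fact r.Prime]
    {Q : Subgroup G} (hQT : Q ≤ T) (hQ : IsPGroup r Q) (hQ1 : Q ≠ ⊥) :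
    Subgroup.normalizer (Q : Set G) ≠ ⊤ := by
  intro h
  have hn : Q.Normal := by
    rw [← Subgroup.normalizer_eq_top_iff]
    exact h
  have h1 := hT.eq_bot_or_eq_top_of_normal (Q.subgroupOf T) inferInstance
  rcases h1 with h1 | h1
  · apply hQ1
    rw [Subgroup.subgroupOf_eq_bot] at h1
    exact h1.eq_bot_of_le hQT |>.symm ▸ rfl
  · rw [Subgroup.subgroupOf_eq_top] at h1
    have : Q = T := le_antisymm hQT h1
    subst this
    exact not_isPGroup_of_simple_nonabelian hT hna hQ

end Cfsg.Agent.H18
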