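import Mathlib
import Cfsg.Prelude.Def_Transfer
import Cfsg.Agent.Lib.H01.Basic
import Cfsg.Agent.Lib.H01.Coprime
import Cfsg.Agent.Lib.H13.FrobOdd
import Cfsg.Agent.Lib.H18.MC

/-! The Hall-Higman reduction. -/

set_option autoImplicit false
set_option linter.unusedSectionVars false

namespace Cfsg.Agent.H18

open Cfsg
open scoped commutatorElement

section
variable {X : Type*} [Group X]

/-- `C` char in `A`, `y` normalizes `A` ⇒ `y` normalizes `C` (inside `X`). -/
theorem hh_char_map_normalized (K : Subgroup X) (C : Subgroup K) [hC : C.Characteristic] {y : X}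
    (hy : y ∈ Subgroup.normalizer (K : Set X)) :
    y ∈ Subgroup.normalizer ((C.map K.subtype : Subgroup X) : Set X) := by
  have key : ∀ z ∈ Subgroup.normalizer (K : Set X), ∀ x ∈ C.map K.subtype, z * x * z⁻¹ ∈ C.map K.subtype := by
    rintro z hz _ ⟨x, hx, rfl⟩
    have h1 := hC.fixed (K.normalizerMonoidHom ⟨z, hz⟩)
    have hx' : K.normalizerMonoidHom ⟨z, hz⟩ x ∈ C := by
      have : K.normalizerMonoidHom ⟨z, hz⟩ x ∈ C.comap (K.normalizerMonoidHom ⟨z, hz⟩)⁻¹.toMonoidHom := by
        simpa using hx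
      rw [hC.fixed] at this
      exact this
    exact ⟨_, hx', rfl⟩
  rw [Subgroup.mem_normalizer_iff]
  intro x
  constructor
  · exact key y hy x
  · intro hx
    have := key y⁻¹ (Subgroup.inv_mem _ hy) _ hx
    simpa [mul_assoc] using this

variable {P A : Subgroup X}

theorem hh_comm_le (hAP : A ≤ Subgroup.normalizer (P : Set X)) : ⁅P, A⁆ ≤ P := by
  rw [Subgroup.commutator_le]
  intro x hx a ha
  have h1 : ⁅x, a⁆ = x * (a * x⁻¹ * a⁻¹) := by
    rw [commutatorElement_def]
    group
  rw [h1]
  exact P.mul_mem hx (H01.conj_mem_of_mem_normalizer (hAP ha) (P.inv_mem hx))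

/-- Killing a subgroup through `[P, A] = P`. -/
theorem hh_kill (hQ : ⁅P, A⁆ = P) {K : Subgroup X} (hK : ∀ x ∈ P, ∀ a ∈ A, ⁅x, a⁆ ∈ K) : P ≤ K := by
  rw [← hQ, Subgroup.commutator_le]
  exact hK

/-- Killing an `A`-invariant homomorphism through `[P, A] = P`. -/
theorem hh_kill_hom (hAP : A ≤ Subgroup.normalizer (P : Set X)) (hQ : ⁅P, A⁆ = P) {Y : Type*} [Group Y] (f : P →* Y)
    (hf : ∀ (a : X) (ha : a ∈ A) (x : P),
      f ⟨a * x * a⁻¹, H01.conj_mem_of_mem_normalizer (hAP ha) x.2⟩ = f x) (x : P) : f x = 1 := by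
  have h1 : P ≤ f.ker.map P.subtype := by
    apply hh_kill hQ
    intro y hy a ha
    refine ⟨⟨y, hy⟩ * ⟨a * y⁻¹ * a⁻¹, H01.conj_mem_of_mem_normalizer (hAP ha) (P.inv_mem hy)⟩, ?_, ?_⟩
    · rw [SetLike.mem_coe, MonoidHom.mem_ker, map_mul]
      have h2 := hf a ha ⟨y⁻¹, P.inv_mem hy⟩
      rw [h2]
      have h3 : ((⟨y⁻¹, P.inv_mem hy⟩ : P)) = (⟨y, hy⟩ : P)⁻¹ := rfl
      rw [h3, map_inv, mul_inv_cancel]
    · show y * (a * y⁻¹ * a⁻¹) = ⁅y, a⁆
      rw [commutatorElement_def]
      group
  obtain ⟨z, hz, hzx⟩ := h1 x.2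
  have h2 : z = x := Subtype.ext hzx
  rw [← h2]
  exact hz

variable [Finite X]

/-- Elements fixed by `A` modulo the Frattini subgroup lie in the Frattini subgroup. -/
theorem hh_fixed_mod_frattini {p : ℕ} [hp : Fact p.Prime] (hP : IsPGroup p P) (hAp : (Nat.card A).Coprime p)
    (hAP : A ≤ Subgroup.normalizer (P : Set X)) (hQ : ⁅P, A⁆ = P) {x : X} (hx : x ∈ P)
    (hfix : ∀ a ∈ A, a * x * a⁻¹ * x⁻¹ ∈ (frattini P).map P.subtype) :
    x ∈ (frattini P).map P.subtype := by
  classical
  letI := Fintype.ofFinite A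
  haveI hΦn : (frattini P).Normal := inferInstance
  have hc : ∀ a b : P ⧸ frattini P, a * b = b * a := by
    intro a b
    induction a using QuotientGroup.induction_on with | _ u => ?_
    induction b using QuotientGroup.induction_on with | _ v => ?_
    rw [← QuotientGroup.mk_mul, ← QuotientGroup.mk_mul, QuotientGroup.eq]
    apply H01.commutator_le_frattini_of_isPGroup hP
    have h1 : (u * v)⁻¹ * (v * u) = ⁅v⁻¹, u⁻¹⁆ := by
      rw [commutatorElement_def]
      group
    rw [h1]
    exact Subgroup.commutator_mem_commutator (Subgroup.mem_top _) (Subgroup.mem_top _)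
  letI cV : CommGroup (P ⧸ frattini P) := { (inferInstance : Group (P ⧸ frattini P)) with mul_comm := hc }
  let conjP : A → P →* P := fun a =>
    { toFun := fun y => ⟨a * y * (a : X)⁻¹, H01.conj_mem_of_mem_normalizer (hAP a.2) y.2⟩
      map_one' := by
        apply Subtype.ext
        simp
      map_mul' := by
        intro u v
        apply Subtype.ext
        simp only [Subgroup.coe_mul]
        group }
  let T : P →* (P ⧸ frattini P) := ∏ a : A, (QuotientGroup.mk' (frattini P)).comp (conjP a)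
  have hT : ∀ y : P, T y = ∏ a : A, ((conjP a y : P) : P ⧸ frattini P) := by
    intro y
    simp only [T, MonoidHom.finsetProd_apply]
    rfl
  have hTinv : ∀ (b : X) (hb : b ∈ A) (y : P), T ⟨b * y * b⁻¹, H01.conj_mem_of_mem_normalizer (hAP hb) y.2⟩ = T y := by
    intro b hb y
    rw [hT, hT]
    refine Fintype.prod_equiv (Equiv.mulRight (⟨b, hb⟩ : A)) _ _ ?_
    intro a
    congr 1
    apply Subtype.ext
    show (a : X) * (b * y * b⁻¹) * (a : X)⁻¹ = ((a : X) * b) * y * ((a : X) * b)⁻¹
    group
  have hT1 := hh_kill_hom hAP hQ T hTinv ⟨x, hx⟩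
  rw [hT] at hT1
  have h2 : ∀ a : A, ((conjP a ⟨x, hx⟩ : P) : P ⧸ frattini P) = ((⟨x, hx⟩ : P) : P ⧸ frattini P) := by
    intro a
    rw [eq_comm, QuotientGroup.eq]
    obtain ⟨w, hw, hwx⟩ := hfix a a.2
    have h3 : ((⟨x, hx⟩ : P)⁻¹ * conjP a ⟨x, hx⟩) = (⟨x, hx⟩ : P)⁻¹ * w * ⟨x, hx⟩ := by
      apply Subtype.ext
      show x⁻¹ * ((a : X) * x * (a : X)⁻¹) = x⁻¹ * (w : X) * x
      have : (w : X) = (a : X) * x * (a : X)⁻¹ * x⁻¹ := hwx
      rw [this]
      group
    rw [h3]
    have := (inferInstance : (frattini P).Normal).conj_mem w hw (⟨x, hx⟩ : P)⁻¹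
    simpa using this
  simp only [h2, Finset.prod_const, Finset.card_univ] at hT1
  rw [← QuotientGroup.mk_pow, QuotientGroup.eq_one_iff] at hT1
  obtain ⟨k, hk⟩ := (IsPGroup.iff_orderOf.1 hP) ⟨x, hx⟩
  have hcop : Nat.Coprime (Fintype.card A) (p ^ k) := by
    rw [← Nat.card_eq_fintype_card]
    exact Nat.Coprime.pow_right _ hAp
  have hz : (⟨x, hx⟩ : P) ^ p ^ k = 1 := by
    rw [← hk, pow_orderOf_eq_one]
  exact ⟨_, mc_mem_of_pow_mem hcop hz hT1, rfl⟩

end

section main
variable {X : Type*} [Group X] [Finite X] {p : ℕ} [hp : Fact p.Prime]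

theorem hh_comm_eq (B A P : Subgroup X) (hP : IsPGroup p P) (hBP : B ≤ Subgroup.normalizer (P : Set X))
    (hAB : A ≤ B) (hAn : B ≤ Subgroup.normalizer (A : Set X)) (hAp : (Nat.card A).Coprime p)
    (hnt : ⁅P, A⁆ ≠ ⊥)
    (hmin : ∀ U : Subgroup X, U < P → B ≤ Subgroup.normalizer (U : Set X) → ⁅U, A⁆ = ⊥) : ⁅P, A⁆ = P := by
  have hAP : A ≤ Subgroup.normalizer (P : Set X) := hAB.trans hBP
  by_contra hne
  have hlt : ⁅P, A⁆ < P := lt_of_le_of_ne (hh_comm_le hAP) hne
  have h1 := hmin _ hlt (fun g hg => H01.mem_normalizer_commutator (hBP hg) (hAn hg))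
  obtain ⟨k, hk⟩ := IsPGroup.iff_card.1 hP
  have hcop : (Nat.card A).Coprime (Nat.card P) := by
    rw [hk]
    exact Nat.Coprime.pow_right _ hAp
  haveI : Group.IsNilpotent P := hP.isNilpotent
  have h2 := H01.commutator_commutator_eq hAP hcop (Or.inr inferInstance)
  rw [h1] at h2
  exact hnt h2.symm

theorem hh_main (B A P : Subgroup X) (hP : IsPGroup p P) (hBP : B ≤ Subgroup.normalizer (P : Set X))
    (hAB : A ≤ B) (hAn : B ≤ Subgroup.normalizer (A : Set X)) (hAp : (Nat.card A).Coprime p)
    (hnt : ⁅P, A⁆ ≠ ⊥)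
    (hmin : ∀ U : Subgroup X, U < P → B ≤ Subgroup.normalizer (U : Set X) → ⁅U, A⁆ = ⊥) :
    (∀ x ∈ (frattini P).map P.subtype, ∀ a ∈ A, a * x * a⁻¹ = x) ∧
    (∀ z : P, z ∈ frattini P → z ∈ Subgroup.center P) ∧
    (IsElementaryAbelian p P ∨ IsSpecial p ↥P) ∧
    (∀ U : Subgroup X, (frattini ↥P).map P.subtype ≤ U → U ≤ P → B ≤ Subgroup.normalizer (U : Set X) →
      U = (frattini ↥P).map P.subtype ∨ U = P) ∧ (p ≠ 2 → ∀ x ∈ P, x ^ p = 1) := by
  classical
  have hQ := hh_comm_eq B A P hP hBP hAB hAn hAp hnt hmin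
  have hAP : A ≤ Subgroup.normalizer (P : Set X) := hAB.trans hBP
  haveI hPnt : Nontrivial P := by
    by_contra hc
    rw [not_nontrivial_iff_subsingleton] at hc
    apply hnt
    rw [eq_bot_iff, hQ]
    intro x hx
    have := Subsingleton.elim (⟨x, hx⟩ : P) 1
    exact Subgroup.mem_bot.2 (congrArg Subtype.val this)
  set D := (frattini P).map P.subtype with hD
  have hDP : D ≤ P := by
    rintro _ ⟨x, -, rfl⟩
    exact x.2
  have hDlt : D < P := by
    refine lt_of_le_of_ne hDP ?_
    intro h
    obtain ⟨M, hM, -⟩ := (eq_top_or_exists_le_coatom (⊥ : Subgroup P)).resolve_left bot_ne_top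
    have h1 : frattini P ≤ M := frattini_le_coatom hM
    apply hM.1
    rw [eq_top_iff]
    intro x _
    apply h1
    have : (x : X) ∈ D := by
      rw [h]
      exact x.2
    obtain ⟨y, hy, hyx⟩ := this
    have : y = x := Subtype.ext hyx
    rwa [← this]
  have hDB : B ≤ Subgroup.normalizer (D : Set X) := fun g hg => hh_char_map_normalized P (frattini P) (hBP hg)
  have hDA : ⁅D, A⁆ = ⊥ := hmin D hDlt hDB
  have hfixD : ∀ x ∈ D, ∀ a ∈ A, a * x * a⁻¹ = x := by
    intro x hx a ha
    have h1 : ⁅x, a⁆ ∈ ⁅D, A⁆ := Subgroup.commutator_mem_commutator hx ha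
    rw [hDA, Subgroup.mem_bot, commutatorElement_eq_one_iff_mul_comm] at h1
    rw [← h1]
    group
  have hpowD : ∀ x : P, ((x : X)) ^ p ∈ D := by
    intro x
    exact ⟨x ^ p, H01.pow_mem_frattini_of_isPGroup hP x, rfl⟩
  -- Φ is central
  have hΦc : ∀ z : P, z ∈ frattini P → z ∈ Subgroup.center P := by
    intro z hz
    have hzD : (z : X) ∈ D := ⟨z, hz, rfl⟩
    have h1 : P ≤ Subgroup.centralizer ({(z : X)} : Set X) := by
      apply hh_kill hQ
      intro x hx a ha
      rw [Subgroup.mem_centralizer_singleton_iff]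
      have h2 : x⁻¹ * z * x ∈ D := by
        have h3 := (inferInstance : (frattini P).Normal).conj_mem z hz (⟨x, hx⟩ : P)⁻¹
        refine ⟨_, h3, ?_⟩
        simp
      have h3 := hfixD _ h2 a ha
      have h4 := hfixD _ hzD a ha
      have h5 : a⁻¹ * z * a = z := by
        nth_rw 1 [← h4]
        group
      rw [commutatorElement_def]
      calc x * a * x⁻¹ * a⁻¹ * z = x * (a * (x⁻¹ * (a⁻¹ * z * a) * x) * a⁻¹) * (a * x⁻¹ * a⁻¹) := by
            group
        _ = x * (a * (x⁻¹ * z * x) * a⁻¹) * (a * x⁻¹ * a⁻¹) := by rw [h5]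
        _ = x * (x⁻¹ * z * x) * (a * x⁻¹ * a⁻¹) := by rw [h3]
        _ = z * (x * a * x⁻¹ * a⁻¹) := by group
    rw [Subgroup.mem_center_iff]
    intro g
    have h2 := Subgroup.mem_centralizer_singleton_iff.1 (h1 g.2)
    exact Subtype.ext h2
  -- irreducibility
  have hirr : ∀ U : Subgroup X, D ≤ U → U ≤ P → B ≤ Subgroup.normalizer (U : Set X) → U = D ∨ U = P := by
    intro U hDU hUP hUB
    by_cases hU : U = P
    · exact Or.inr hU
    left
    have hUlt : U < P := lt_of_le_of_ne hUP hU
    have hUA := hmin U hUlt hUB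
    apply le_antisymm _ hDU
    intro x hx
    apply hh_fixed_mod_frattini hP hAp hAP hQ (hUP hx)
    intro a ha
    have h1 : ⁅x, a⁆ ∈ ⁅U, A⁆ := Subgroup.commutator_mem_commutator hx ha
    rw [hUA, Subgroup.mem_bot, commutatorElement_eq_one_iff_mul_comm] at h1
    have h2 : a * x * a⁻¹ * x⁻¹ = 1 := by
      rw [← h1]
      group
    rw [h2]
    exact D.one_mem
  -- `A`-invariance of `p`-th powers
  have hpowfix : ∀ (a : X) (ha : a ∈ A) (x : P), (a * x * a⁻¹) ^ p = (x : X) ^ p := by
    intro a ha x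
    rw [conj_pow]
    exact hfixD _ (hpowD x) a ha
  have hx2 : ∀ (a : X) (ha : a ∈ A) (x : P), ((⟨a * x * a⁻¹, H01.conj_mem_of_mem_normalizer (hAP ha) x.2⟩ : P)) ^ p = x ^ p := by
    intro a ha x
    apply Subtype.ext
    simpa using hpowfix a ha x
  -- class at most 2
  have hcomm_central : ∀ x y : P, y * x = ⁅y, x⁆ * x * y := by
    intro x y
    rw [commutatorElement_def]
    group
  have hcentral : ∀ x y z : P, Commute ⁅x, y⁆ z := by
    intro x y z
    have h1 : ⁅x, y⁆ ∈ Subgroup.center P := hΦc _ (H01.commutator_le_frattini_of_isPGroup hP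
      (Subgroup.commutator_mem_commutator (Subgroup.mem_top _) (Subgroup.mem_top _)))
    exact (Subgroup.mem_center_iff.1 h1 z).symm
  have hcpow : ∀ x y : P, ⁅y, x⁆ ^ p = 1 := by
    intro x y
    have h1 := (H13.mul_pow_of_central (hcomm_central x y) (hcentral y x x) (hcentral y x y) p).1
    have h2 : y ^ p * x = x * y ^ p := by
      have h3 : y ^ p ∈ Subgroup.center P := hΦc _ (H01.pow_mem_frattini_of_isPGroup hP y)
      exact (Subgroup.mem_center_iff.1 h3 x).symm
    rw [h2] at h1
    have h3 : x * y ^ p = ⁅y, x⁆ ^ p * (x * y ^ p) := by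
      rw [← mul_assoc]
      exact h1
    exact (mul_eq_right.1 h3.symm)
  have hodd : p ≠ 2 → ∀ x ∈ P, x ^ p = 1 := by
    intro hp2
    have hdvd : p ∣ Nat.choose p 2 := hp.out.dvd_choose_self (by norm_num) (by
      have := hp.out.two_le
      omega)
    let f : P →* P :=
      { toFun := fun x => x ^ p
        map_one' := one_pow p
        map_mul' := by
          intro x y
          have h1 := (H13.mul_pow_of_central (hcomm_central x y) (hcentral y x x) (hcentral y x y) p).2
          obtain ⟨c, hc⟩ := hdvd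
          rw [h1, hc, pow_mul, hcpow, one_pow, mul_one] }
    intro x hx
    have h1 := hh_kill_hom hAP hQ f (fun a ha y => hx2 a ha y) ⟨x, hx⟩
    have h2 : (⟨x, hx⟩ : P) ^ p = 1 := h1
    simpa using congrArg Subtype.val h2
  refine ⟨hfixD, hΦc, ?_, hirr, hodd⟩
  by_cases hab : IsMulCommutative P
  · left
    refine ⟨hab, ?_⟩
    have hc : ∀ a b : P, a * b = b * a := isMulCommutative_iff.1 hab
    let f : P →* P :=
      { toFun := fun x => x ^ p
        map_one' := one_pow p
        map_mul' := by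
          intro x y
          exact (show Commute x y from hc x y).mul_pow p }
    intro x hx
    have h1 := hh_kill_hom hAP hQ f (fun a ha y => hx2 a ha y) ⟨x, hx⟩
    have h2 : (⟨x, hx⟩ : P) ^ p = 1 := h1
    simpa using congrArg Subtype.val h2
  · right
    -- centre inside Frattini
    have hZΦ : Subgroup.center P ≤ frattini P := by
      let Z' : Subgroup P := Subgroup.center P ⊔ frattini P
      have hZ'char : Z'.Characteristic := by
        rw [Subgroup.characteristic_iff_map_eq]
        intro φ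
        show (Subgroup.center P ⊔ frattini P).map φ.toMonoidHom = _
        rw [Subgroup.map_sup]
        have h1 := (Subgroup.characteristic_iff_map_eq.1 (inferInstance : (Subgroup.center P).Characteristic)) φ
        have h2 := (Subgroup.characteristic_iff_map_eq.1 (inferInstance : (frattini P).Characteristic)) φ
        rw [h1, h2]
      have hU := hirr (Z'.map P.subtype) (Subgroup.map_mono le_sup_right)
        (by
          rintro _ ⟨x, -, rfl⟩
          exact x.2)
        (fun g hg => hh_char_map_normalized P Z' (hBP hg))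
      rcases hU with hU | hU
      · intro z hz
        have h1 : (z : X) ∈ Z'.map P.subtype := ⟨z, (le_sup_left : Subgroup.center P ≤ Z') hz, rfl⟩
        rw [hU] at h1
        obtain ⟨y, hy, hyz⟩ := h1
        have : y = z := Subtype.ext hyz
        rwa [← this]
      · exfalso
        apply hab
        have h1 : Z' = ⊤ := by
          rw [eq_top_iff]
          intro x _
          have h2 : (x : X) ∈ Z'.map P.subtype := by
            rw [hU]
            exact x.2
          obtain ⟨y, hy, hyz⟩ := h2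
          have : y = x := Subtype.ext hyz
          rwa [← this]
        have h2 : Subgroup.center P = ⊤ := frattini_nongenerating h1
        rw [isMulCommutative_iff]
        intro a b
        have h3 : b ∈ Subgroup.center P := by
          rw [h2]
          exact Subgroup.mem_top _
        exact (Subgroup.mem_center_iff.1 h3 a)
    have hfr : frattini P = Subgroup.center P := le_antisymm (fun z hz => hΦc z hz) hZΦ
    have hcomm : commutator P = frattini P := by
      apply le_antisymm (H01.commutator_le_frattini_of_isPGroup hP)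
      haveI : (commutator P).Normal := inferInstance
      apply H01.frattini_le_of_comm_pow (p := p) (commutator P) le_rfl
      intro x
      have hcQ : ∀ a b : P ⧸ commutator P, a * b = b * a := by
        intro a b
        induction a using QuotientGroup.induction_on with | _ u => ?_
        induction b using QuotientGroup.induction_on with | _ v => ?_
        rw [← QuotientGroup.mk_mul, ← QuotientGroup.mk_mul, QuotientGroup.eq]
        have h1 : (u * v)⁻¹ * (v * u) = ⁅v⁻¹, u⁻¹⁆ := by
          rw [commutatorElement_def]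
          group
        rw [h1]
        exact Subgroup.commutator_mem_commutator (Subgroup.mem_top _) (Subgroup.mem_top _)
      let f : P →* (P ⧸ commutator P) :=
        { toFun := fun x => ((x ^ p : P) : P ⧸ commutator P)
          map_one' := by
            rw [one_pow]
            rfl
          map_mul' := by
            intro u v
            rw [QuotientGroup.mk_pow, QuotientGroup.mk_mul, QuotientGroup.mk_pow, QuotientGroup.mk_pow]
            exact (show Commute (u : P ⧸ commutator P) (v : P ⧸ commutator P) from hcQ _ _).mul_pow p }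
      have h1 := hh_kill_hom hAP hQ f (fun a ha y => by
        show (((⟨a * y * a⁻¹, _⟩ : P) ^ p : P) : P ⧸ commutator P) = ((y ^ p : P) : P ⧸ commutator P)
        rw [hx2 a ha y]) x
      exact (QuotientGroup.eq_one_iff _).1 h1
    exact ⟨hP, hfr, by rw [hcomm, hfr]⟩

end main

end Cfsg.Agent.H18
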