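import Mathlib
import Cfsg.Agent.Lib.H18.KP
import Cfsg.Agent.Lib.H15.ZStarMain
import Cfsg.Agent.Lib.H15.ZStarSyl
import Cfsg.Agent.Lib.H15.OddCore
import Cfsg.Agent.Lib.H01.Coprime

/-! Classes of `2`-elements: `k₂(G) > |P|/2` iff normal `2`-complement and many classes in `P`. -/

set_option autoImplicit false
set_option linter.unusedSectionVars false

namespace Cfsg.Agent.H18

open Cfsg

universe u

section
variable {G H : Type*} [Group G] [Group H] {p : ℕ} [Fact p.Prime]

/-- Image of a class of `p`-elements under a homomorphism. -/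
def clMap (f : G →* H) (c : ClP p G) : ClP p H :=
  ⟨ConjClasses.map f c.1, by
    have hp : p.Prime := Fact.out
    obtain ⟨c, hc⟩ := c
    obtain ⟨g, rfl⟩ := ConjClasses.exists_rep c
    intro y hy
    have h1 : y ∈ (ConjClasses.mk (f g)).carrier := hy
    rw [order_of_mem_mk h1]
    obtain ⟨k, hk⟩ := hc g ConjClasses.mem_carrier_mk
    have h2 : orderOf (f g) ∣ p ^ k := by
      rw [← hk]
      exact orderOf_map_dvd f g
    obtain ⟨j, -, hj⟩ := (Nat.dvd_prime_pow hp).1 h2
    exact ⟨j, hj⟩⟩

end

section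
variable {G : Type*} [Group G] [Finite G] {p : ℕ} [Fact p.Prime]

theorem conj_of_same_image {N : Subgroup G} [N.Normal] (hN : (Nat.card N).Coprime p) {x y : G}
    (hx : ∃ k : ℕ, orderOf x = p ^ k) (hy : ∃ k : ℕ, orderOf y = p ^ k)
    (h : (x : G ⧸ N) = y) : IsConj x y := by
  classical
  have hp : p.Prime := Fact.out
  have hxy : x⁻¹ * y ∈ N := QuotientGroup.eq.1 h
  obtain ⟨K, hK⟩ : ∃ K, K = N ⊔ Subgroup.zpowers y := ⟨_, rfl⟩
  have hyK : y ∈ K := by
    rw [hK]
    exact Subgroup.mem_sup_right (Subgroup.mem_zpowers y)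
  have hNK : N ≤ K := by
    rw [hK]
    exact le_sup_left
  have hxK : x ∈ K := by
    have h1 : x = y * (x⁻¹ * y)⁻¹ := by group
    rw [h1]
    exact Subgroup.mul_mem _ hyK (Subgroup.inv_mem _ (hNK hxy))
  have hy' : IsPGroup p (Subgroup.zpowers (⟨y, hyK⟩ : K)) := by
    obtain ⟨k, hk⟩ := hy
    rw [IsPGroup.iff_card, Nat.card_zpowers, Subgroup.orderOf_mk]
    exact ⟨k, hk⟩
  obtain ⟨S, hS⟩ := hy'.exists_le_sylow
  obtain ⟨c, hc⟩ := H22.exists_conj_mem_sylow S (y := (⟨x, hxK⟩ : K)) (by
    obtain ⟨k, hk⟩ := hx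
    exact ⟨k, by rw [Subgroup.orderOf_mk]; exact hk⟩)
  have hyS : (⟨y, hyK⟩ : K) ∈ (S : Subgroup K) := hS (Subgroup.mem_zpowers _)
  obtain ⟨a, ha⟩ : ∃ a : K, a = c * ⟨x, hxK⟩ * c⁻¹ := ⟨_, rfl⟩
  rw [← ha] at hc
  have hA : Subgroup.zpowers y ≤ Subgroup.normalizer (N : Set G) :=
    le_of_le_of_eq le_top (Subgroup.normalizer_eq_top_iff.2 inferInstance).symm
  have hcK : (c : G) ∈ N ⊔ Subgroup.zpowers y := by
    rw [← hK]
    exact c.2
  obtain ⟨n, hn, w, hw, hcw⟩ := H01.exists_mul_of_mem_sup hA hcK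
  obtain ⟨j, rfl⟩ := hw
  have h0 : ((n : G) : G ⧸ N) = 1 := (QuotientGroup.eq_one_iff _).2 hn
  have hac : ((a : K) : G) = c * x * (c : G)⁻¹ := by rw [ha]; rfl
  have h1 : (((a : K) : G) : G ⧸ N) = y := by
    rw [hac, hcw]
    simp only [QuotientGroup.mk_mul, QuotientGroup.mk_inv, mul_inv_rev, h0, one_mul, inv_one, mul_one, h]
    have h2 : Commute ((y : G ⧸ N)) (((fun k : ℤ => y ^ k) j : G) : G ⧸ N) := by
      show Commute (y : G ⧸ N) ((y ^ j : G) : G ⧸ N)
      rw [QuotientGroup.mk_zpow]
      exact (Commute.refl _).zpow_right j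
    have h3 := h2.eq
    rw [← h3]
    group
  have h2 : ((a : K) : G)⁻¹ * y ∈ N := QuotientGroup.eq.1 h1
  have h3 : a⁻¹ * ⟨y, hyK⟩ ∈ (S : Subgroup K) := Subgroup.mul_mem _ (Subgroup.inv_mem _ hc) hyS
  obtain ⟨k, hk⟩ := exists_order_of_mem_sylow S h3
  have h4 : (((a⁻¹ * ⟨y, hyK⟩ : K)) : G) ^ p ^ k = 1 := by
    have h5 : (a⁻¹ * ⟨y, hyK⟩) ^ p ^ k = 1 := by
      rw [← hk]
      exact pow_orderOf_eq_one _
    exact congrArg Subtype.val h5
  have h5 : ((a : K) : G)⁻¹ * y = 1 := H14.eq_one_of_mem_coprime h2 hN h4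
  have h6 : ((a : K) : G) = y := by
    rw [inv_mul_eq_one] at h5
    exact h5
  rw [isConj_iff]
  exact ⟨c, by rw [← hac, h6]⟩

/-- A normal subgroup of order prime to `p` does not merge classes of `p`-elements. -/
theorem card_clP_le_of_coprime (N : Subgroup G) [N.Normal] (hN : (Nat.card N).Coprime p) :
    Nat.card (ClP p G) ≤ Nat.card (ClP p (G ⧸ N)) := by
  classical
  refine Nat.card_le_card_of_injective (clMap (QuotientGroup.mk' N)) ?_
  rintro ⟨c, hc⟩ ⟨c', hc'⟩ hcc
  obtain ⟨x, rfl⟩ := ConjClasses.exists_rep c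
  obtain ⟨y, rfl⟩ := ConjClasses.exists_rep c'
  have h1 : ConjClasses.mk (QuotientGroup.mk' N x) = ConjClasses.mk (QuotientGroup.mk' N y) :=
    congrArg Subtype.val hcc
  rw [ConjClasses.mk_eq_mk_iff_isConj, isConj_iff] at h1
  obtain ⟨g', hg'⟩ := h1
  obtain ⟨g, rfl⟩ := QuotientGroup.mk'_surjective N g'
  apply Subtype.ext
  show ConjClasses.mk x = ConjClasses.mk y
  rw [ConjClasses.mk_eq_mk_iff_isConj]
  have hx := hc x ConjClasses.mem_carrier_mk
  have hy := hc' y ConjClasses.mem_carrier_mk
  have h2 : IsConj (g * x * g⁻¹) y := by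
    apply conj_of_same_image hN _ hy hg'
    rw [H14.orderOf_conj_eq]
    exact hx
  exact (isConj_iff.2 ⟨g, rfl⟩).trans h2

/-- A central subgroup of order two merges at most two classes. -/
theorem card_clP_le_two_mul {z : G} (hz : orderOf z = 2) (hzc : ∀ g : G, z * g = g * z)
    [(Subgroup.zpowers z).Normal] :
    Nat.card (ClP p G) ≤ 2 * Nat.card (ClP p (G ⧸ Subgroup.zpowers z)) := by
  classical
  haveI := Fintype.ofFinite (ClP p G)
  haveI := Fintype.ofFinite (ClP p (G ⧸ Subgroup.zpowers z))
  simp only [Nat.card_eq_fintype_card]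
  let f : ClP p G → ClP p (G ⧸ Subgroup.zpowers z) := clMap (QuotientGroup.mk' _)
  have hzz : z * z = 1 := by
    rw [← sq, ← hz]
    exact pow_orderOf_eq_one z
  have hfib : ∀ a ∈ (Finset.univ : Finset (ClP p G)).image f,
      ((Finset.univ : Finset (ClP p G)).filter (fun x => f x = a)).card ≤ 2 := by
    intro a ha
    obtain ⟨c₀, -, rfl⟩ := Finset.mem_image.1 ha
    obtain ⟨y, hy⟩ := ConjClasses.exists_rep c₀.1
    have hsub : ∀ c ∈ (Finset.univ : Finset (ClP p G)).filter (fun x => f x = f c₀),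
        c.1 ∈ ({ConjClasses.mk y, ConjClasses.mk (y * z)} : Finset (ConjClasses G)) := by
      intro c hc
      have hc2 : f c = f c₀ := (Finset.mem_filter.1 hc).2
      obtain ⟨x, hx⟩ := ConjClasses.exists_rep c.1
      have h1 : ConjClasses.map (QuotientGroup.mk' (Subgroup.zpowers z)) c.1 =
          ConjClasses.map (QuotientGroup.mk' (Subgroup.zpowers z)) c₀.1 := congrArg Subtype.val hc2
      rw [← hx, ← hy] at h1
      have h2 : ConjClasses.mk (QuotientGroup.mk' (Subgroup.zpowers z) x) =
          ConjClasses.mk (QuotientGroup.mk' (Subgroup.zpowers z) y) := h1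
      rw [ConjClasses.mk_eq_mk_iff_isConj, isConj_iff] at h2
      obtain ⟨g', hg'⟩ := h2
      obtain ⟨g, rfl⟩ := QuotientGroup.mk'_surjective _ g'
      have h3 : ((g * x * g⁻¹ : G) : G ⧸ Subgroup.zpowers z) = y := hg'
      have h4 : (g * x * g⁻¹)⁻¹ * y ∈ Subgroup.zpowers z := QuotientGroup.eq.1 h3
      obtain ⟨i, hi⟩ := h4
      change z ^ i = _ at hi
      have h5 : ConjClasses.mk x = ConjClasses.mk (g * x * g⁻¹) :=
        ConjClasses.mk_eq_mk_iff_isConj.2 (isConj_iff.2 ⟨g, rfl⟩)
      rw [← hx, h5]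
      rcases Int.even_or_odd' i with ⟨j, rfl | rfl⟩
      · have h6 : z ^ (2 * j) = 1 := by
          rw [zpow_mul]
          have : z ^ (2 : ℤ) = 1 := by
            rw [zpow_ofNat, sq, hzz]
          rw [this, one_zpow]
        rw [h6] at hi
        have h7 : g * x * g⁻¹ = y := (inv_mul_eq_one.1 hi.symm)
        rw [h7]
        simp
      · have h6 : z ^ (2 * j + 1) = z := by
          rw [zpow_add, zpow_mul]
          have : z ^ (2 : ℤ) = 1 := by
            rw [zpow_ofNat, sq, hzz]
          rw [this, one_zpow, one_mul, zpow_one]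
        rw [h6] at hi
        have h7 : g * x * g⁻¹ = y * z := by
          have h8 : y = (g * x * g⁻¹) * z := by
            rw [hi]
            group
          rw [h8, mul_assoc (g * x * g⁻¹) z z, hzz, mul_one]
        rw [h7]
        simp
    have h1 : ((Finset.univ : Finset (ClP p G)).filter (fun x => f x = f c₀)).card ≤
        ({ConjClasses.mk y, ConjClasses.mk (y * z)} : Finset (ConjClasses G)).card :=
      Finset.card_le_card_of_injOn Subtype.val hsub (fun a _ b _ h => Subtype.ext h)
    exact h1.trans Finset.card_le_two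
  have h1 := Finset.card_le_mul_card_image (Finset.univ : Finset (ClP p G)) 2 hfib
  rw [Finset.card_univ] at h1
  refine h1.trans (Nat.mul_le_mul_left _ ?_)
  rw [← Finset.card_univ (α := ClP p (G ⧸ Subgroup.zpowers z))]
  exact Finset.card_le_card (Finset.subset_univ _)

theorem two_mul_card_map_le (P : Subgroup G) {z : G} (hzP : z ∈ P) (hz : orderOf z = 2)
    [(Subgroup.zpowers z).Normal]
    (f : G →* (G ⧸ Subgroup.zpowers z)) (hf : f = QuotientGroup.mk' _) :
    2 * Nat.card (P.map f) ≤ Nat.card P := by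
  classical
  let g : P →* (G ⧸ Subgroup.zpowers z) := f.comp P.subtype
  have h1 : Nat.card g.ker * Nat.card g.range = Nat.card P := by
    rw [← Subgroup.index_ker, Subgroup.card_mul_index]
  have h2 : g.range = P.map f := by
    simp only [g, MonoidHom.range_comp, Subgroup.range_subtype]
  rw [h2] at h1
  have h3 : 2 ≤ Nat.card g.ker := by
    have h4 : Subgroup.zpowers (⟨z, hzP⟩ : P) ≤ g.ker := by
      rw [Subgroup.zpowers_le, MonoidHom.mem_ker]
      show f z = 1
      rw [hf]
      exact (QuotientGroup.eq_one_iff _).2 (Subgroup.mem_zpowers z)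
    have h5 : Nat.card (Subgroup.zpowers (⟨z, hzP⟩ : P)) = 2 := by
      rw [Nat.card_zpowers, Subgroup.orderOf_mk, hz]
    rw [← h5]
    exact Subgroup.card_le_of_le h4
  rw [← h1]
  exact Nat.mul_le_mul_right _ h3

end

/-- If `G` has no normal `2`-complement, then `2 k₂(G) ≤ |P|`. -/
theorem two_bound : ∀ (n : ℕ) (G : Type u) [Group G] [Finite G], Nat.card G = n →
    ¬ HasNormalPComplement 2 G → ∀ P : Sylow 2 G,
      2 * Nat.card (ClP 2 G) ≤ Nat.card (P : Subgroup G) := by
  intro n
  induction n using Nat.strong_induction_on with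
  | _ n ih =>
  intro G _ _ hn hnpc P
  classical
  haveI hf2 : Fact (Nat.Prime 2) := ⟨Nat.prime_two⟩
  by_cases hz : ∃ z : G, IsoEl P z ∧ orderOf z = 2
  · obtain ⟨z, hziso, hz2⟩ := hz
    have hiso : IsIsolatedInvolution z := H15.isolated_of_sylow P hz2 hziso.1 hziso.2
    have hZ := H15.zstar_theorem G z hiso
    by_cases hO : oddCore G = ⊥
    · have hcen : ∀ g : G, z * g = g * z := by
        intro g
        have h1 := hZ g
        rw [hO, Subgroup.mem_bot] at h1
        exact mul_inv_eq_iff_eq_mul.1 (mul_inv_eq_one.1 h1)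
      have hcen' : ∀ y ∈ Subgroup.zpowers z, ∀ g : G, y * g = g * y := by
        rintro _ ⟨i, rfl⟩ g
        exact ((show Commute z g from hcen g).zpow_left i)
      haveI hZn : (Subgroup.zpowers z).Normal := by
        constructor
        intro y hy g
        have h1 := hcen' y hy g
        have h2 : g * y * g⁻¹ = y := by
          rw [← h1]
          group
        rw [h2]
        exact hy
      have hcardZ : Nat.card (Subgroup.zpowers z) = 2 := by
        rw [Nat.card_zpowers, hz2]
      have hlt : Nat.card (G ⧸ Subgroup.zpowers z) < n := by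
        have h1 := Subgroup.card_eq_card_quotient_mul_card_subgroup (Subgroup.zpowers z)
        rw [hcardZ, hn] at h1
        have h2 : 0 < Nat.card (G ⧸ Subgroup.zpowers z) := Nat.card_pos
        omega
      have hQ : ¬ HasNormalPComplement 2 (G ⧸ Subgroup.zpowers z) := by
        intro h
        apply hnpc
        have hpg : IsPGroup 2 (Subgroup.zpowers z) := by
          rw [IsPGroup.iff_card, hcardZ]
          exact ⟨1, by norm_num⟩
        exact H13.hasNormalPComplement_of_frobCond
          (H14.frobCond_lift_central hpg hcen' (H13.frobCond_of_hasNormalPComplement h))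
      let P' : Sylow 2 (G ⧸ Subgroup.zpowers z) := P.mapSurjective (QuotientGroup.mk'_surjective _)
      have h1 := ih _ hlt (G ⧸ Subgroup.zpowers z) rfl hQ P'
      have h2 : 2 * Nat.card (P' : Subgroup (G ⧸ Subgroup.zpowers z)) ≤ Nat.card (P : Subgroup G) := by
        have h3 := two_mul_card_map_le (P : Subgroup G) hziso.1 hz2 (QuotientGroup.mk' _) rfl
        rw [show (P' : Subgroup (G ⧸ Subgroup.zpowers z)) =
          (P : Subgroup G).map (QuotientGroup.mk' (Subgroup.zpowers z)) from Sylow.coe_mapSurjective _ _]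
        exact h3
      have h3 := card_clP_le_two_mul (p := 2) hz2 hcen
      omega
    · have hcard : 1 < Nat.card (oddCore G) := by
        have h0 : Nat.card (oddCore G) ≠ 1 := by
          intro h
          exact hO (Subgroup.eq_bot_of_card_eq _ h)
        have h1 : 0 < Nat.card (oddCore G) := Nat.card_pos
        omega
      have hlt : Nat.card (G ⧸ oddCore G) < n := by
        have h1 := Subgroup.card_eq_card_quotient_mul_card_subgroup (oddCore G)
        rw [hn] at h1
        have h2 : 0 < Nat.card (G ⧸ oddCore G) := Nat.card_pos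
        rw [h1]
        nlinarith
      have hQ : ¬ HasNormalPComplement 2 (G ⧸ oddCore G) := by
        intro h
        apply hnpc
        exact H13.hasNormalPComplement_of_frobCond
          (H14.frobCond_lift_pprime H15.card_oddCore_coprime (H13.frobCond_of_hasNormalPComplement h))
      let P' : Sylow 2 (G ⧸ oddCore G) := P.mapSurjective (QuotientGroup.mk'_surjective _)
      have h1 := ih _ hlt (G ⧸ oddCore G) rfl hQ P'
      have h2 : Nat.card (P' : Subgroup (G ⧸ oddCore G)) ≤ Nat.card (P : Subgroup G) := by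
        rw [show (P' : Subgroup (G ⧸ oddCore G)) =
          (P : Subgroup G).map (QuotientGroup.mk' (oddCore G)) from Sylow.coe_mapSurjective _ _]
        exact Nat.le_of_dvd Nat.card_pos (Subgroup.card_map_dvd _ _)
      have h3 := card_clP_le_of_coprime (p := 2) (oddCore G) H15.card_oddCore_coprime
      omega
  · push Not at hz
    have hone : ∀ x : G, IsoEl P x → x = 1 := by
      intro x hx
      by_contra hne
      obtain ⟨k, hk⟩ := exists_order_of_mem_sylow P hx.1
      have hk0 : k ≠ 0 := by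
        rintro rfl
        rw [pow_zero, orderOf_eq_one_iff] at hk
        exact hne hk
      have h2d : 2 ∣ orderOf x := by
        rw [hk]
        exact dvd_pow_self 2 hk0
      have h3 := orderOf_pow_orderOf_div (orderOf_pos x).ne' h2d
      exact hz _ (isoEl_pow P hx _) h3
    have hsub : Subsingleton {x : (P : Subgroup G) // IsoEl P (x : G)} := by
      constructor
      rintro ⟨a, ha⟩ ⟨b, hb⟩
      apply Subtype.ext
      apply Subtype.ext
      rw [hone _ ha, hone _ hb]
    have h1 := two_mul_card_le P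
    have h2 : Nat.card {x : (P : Subgroup G) // IsoEl P (x : G)} ≤ 1 :=
      Finite.card_le_one_iff_subsingleton.2 hsub
    obtain ⟨m, hm⟩ := IsPGroup.iff_card.1 P.isPGroup'
    have hm0 : m ≠ 0 := by
      rintro rfl
      apply hnpc
      rw [pow_zero] at hm
      have hbot : (P : Subgroup G) = ⊥ := Subgroup.eq_bot_of_card_eq _ hm
      refine ⟨P, ⊤, inferInstance, ?_⟩
      rw [hbot]
      exact Subgroup.isComplement'_top_bot
    obtain ⟨m', rfl⟩ := Nat.exists_eq_succ_of_ne_zero hm0
    rw [hm, pow_succ] at h1 ⊢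
    omega

section
variable {G : Type u} [Group G] [Finite G] {p : ℕ} [Fact p.Prime]

/-- From classes of `P` to classes of `p`-elements. -/
noncomputable def clOfP (P : Sylow p G) (c : ConjClasses (P : Subgroup G)) : ClP p G :=
  clOf P (repClP c)
where
  /-- A representative. -/
  repClP (c : ConjClasses (P : Subgroup G)) : (P : Subgroup G) :=
    Classical.choose (ConjClasses.exists_rep c)

theorem clOfP_surjective (P : Sylow p G) : Function.Surjective (clOfP P) := by
  intro c
  obtain ⟨x, rfl⟩ := clOf_surjective P c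
  refine ⟨ConjClasses.mk x, ?_⟩
  unfold clOfP
  rw [clOf_eq_iff]
  have h1 : ConjClasses.mk (clOfP.repClP P (ConjClasses.mk x)) = ConjClasses.mk x :=
    Classical.choose_spec (ConjClasses.exists_rep (ConjClasses.mk x))
  rw [ConjClasses.mk_eq_mk_iff_isConj, isConj_iff] at h1
  obtain ⟨c, hc⟩ := h1
  rw [isConj_iff]
  refine ⟨c, ?_⟩
  exact congrArg Subtype.val hc

theorem clOfP_injective (h : HasNormalPComplement p G) (P : Sylow p G) :
    Function.Injective (clOfP P) := by
  intro a b hab
  unfold clOfP at hab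
  rw [clOf_eq_iff] at hab
  obtain ⟨u, hu, hu2⟩ := conj_in_sylow_of_npc h P (clOfP.repClP P a).2 (clOfP.repClP P b).2 hab
  have h1 : ConjClasses.mk (clOfP.repClP P a) = a := Classical.choose_spec (ConjClasses.exists_rep a)
  have h2 : ConjClasses.mk (clOfP.repClP P b) = b := Classical.choose_spec (ConjClasses.exists_rep b)
  rw [← h1, ← h2, ConjClasses.mk_eq_mk_iff_isConj, isConj_iff]
  exact ⟨⟨u, hu⟩, Subtype.ext hu2⟩

theorem many_two_iff (hf : Fact (Nat.Prime 2)) (P : Sylow 2 G) :
    Nat.card (P : Subgroup G) < 2 * Nat.card (ClP 2 G) ↔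
      HasNormalPComplement 2 G ∧ Nat.card (P : Subgroup G) < 2 * Nat.card (ConjClasses (P : Subgroup G)) := by
  constructor
  · intro h
    have h1 : HasNormalPComplement 2 G := by
      by_contra hne
      have := two_bound _ G rfl hne P
      omega
    refine ⟨h1, ?_⟩
    have h2 := Nat.card_le_card_of_surjective _ (clOfP_surjective P)
    omega
  · rintro ⟨h1, h2⟩
    have h3 := Nat.card_le_card_of_injective _ (clOfP_injective h1 P)
    omega

end

end Cfsg.Agent.H18
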