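import Mathlib
import Cfsg.Agent.Lib.H18.MC

/-! Subgroups of metacyclic `p`-groups, `p` odd. -/

set_option autoImplicit false
set_option linter.unusedSectionVars false

namespace Cfsg.Agent.H18

open Cfsg

namespace MC

variable {p : ℕ} [hp : Fact p.Prime] {G : Type*} [Group G] [Finite G] (D : MC p G)

theorem p_dvd_pow_sub (hp2 : p ≠ 2) (j : ℕ) : p ∣ D.r ^ j - 1 := by
  have h1 := (mc_dvd_iff (t := 1) (x := 1) (l := j) hp2 D.hr1 D.hpr).2 (by
    have : 1 - padicValNat p (D.r - 1) = 0 := by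
      have := D.s_pos
      have h2 : D.s = padicValNat p (D.r - 1) := rfl
      omega
    rw [this]
    simp)
  simpa using h1

theorem one_le_r : 1 ≤ D.r := D.hr1.le

/-- Exponents of a subgroup. -/
theorem exists_sub (L : Subgroup G) : ∃ α β c : ℕ, α ≤ D.m ∧ β ≤ D.e ∧
    (∀ w, D.a ^ w ∈ L ↔ p ^ α ∣ w) ∧ (∀ w, D.b ^ w ∈ L ⊔ Subgroup.zpowers D.a ↔ p ^ β ∣ w) ∧
    D.a ^ c * D.b ^ p ^ β ∈ L := by
  haveI := D.hnorm
  have hP := D.isPGroup
  have h1 : D.a ^ p ^ D.m ∈ L := by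
    rw [← D.hord, pow_orderOf_eq_one]
    exact L.one_mem
  obtain ⟨α, hα, hα'⟩ := mc_exists_exp (hP.to_subgroup (Subgroup.zpowers D.a)) L h1
  have h2 : D.b ^ p ^ D.e ∈ L ⊔ Subgroup.zpowers D.a :=
    le_sup_right (a := L) ((D.hbe _).2 (dvd_refl _))
  obtain ⟨β, hβ, hβ'⟩ := mc_exists_exp (hP.to_subgroup (Subgroup.zpowers D.b)) _ h2
  have h3 := (hβ' (p ^ β)).2 (dvd_refl _)
  rw [sup_comm] at h3
  obtain ⟨x, hx, y, hy, hxy⟩ := mem_sup_normal_left.1 h3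
  have hx' : x⁻¹ ∈ Subgroup.zpowers D.a := Subgroup.inv_mem _ hx
  rw [← mem_powers_iff_mem_zpowers] at hx'
  obtain ⟨c, hc⟩ := hx'
  refine ⟨α, β, c, hα, hβ, hα', hβ', ?_⟩
  have h4 : D.a ^ c * D.b ^ p ^ β = y := by
    have hc' : D.a ^ c = x⁻¹ := hc
    rw [hc', ← hxy]
    group
  rw [h4]
  exact hy

/-- Elements of a subgroup in terms of the two generators. -/
theorem sub_form (hp2 : p ≠ 2) (L : Subgroup G) {α β c : ℕ}
    (h1 : ∀ w, D.a ^ w ∈ L ↔ p ^ α ∣ w) (h2 : ∀ w, D.b ^ w ∈ L ⊔ Subgroup.zpowers D.a ↔ p ^ β ∣ w)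
    (hx : D.a ^ c * D.b ^ p ^ β ∈ L) {g : G} (hg : g ∈ L) :
    ∃ u v : ℕ, g = D.a ^ (p ^ α * u) * (D.a ^ c * D.b ^ p ^ β) ^ v := by
  obtain ⟨i, j, rfl⟩ := D.hgen g
  have h3 : D.b ^ j ∈ L ⊔ Subgroup.zpowers D.a := by
    have h4 : D.b ^ j = (D.a ^ i)⁻¹ * (D.a ^ i * D.b ^ j) := by group
    rw [h4]
    exact Subgroup.mul_mem _ ((le_sup_right : _ ≤ L ⊔ Subgroup.zpowers D.a)
      (Subgroup.inv_mem _ (Subgroup.pow_mem _ (Subgroup.mem_zpowers _) _))) (le_sup_left (a := L) hg)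
  obtain ⟨v, rfl⟩ := (h2 j).1 h3
  have h5 : (D.a ^ i * D.b ^ (p ^ β * v)) * ((D.a ^ c * D.b ^ p ^ β) ^ v)⁻¹ ∈ L :=
    L.mul_mem hg (L.inv_mem (L.pow_mem hx v))
  have h6 : (D.a ^ i * D.b ^ (p ^ β * v)) * ((D.a ^ c * D.b ^ p ^ β) ^ v)⁻¹ ∈ Subgroup.zpowers D.a := by
    rw [D.pow_form]
    have e : (D.a ^ i * D.b ^ (p ^ β * v)) * (D.a ^ (c * ∑ u ∈ Finset.range v, (D.r ^ p ^ β) ^ u) * D.b ^ (p ^ β * v))⁻¹
        = D.a ^ i * (D.a ^ (c * ∑ u ∈ Finset.range v, (D.r ^ p ^ β) ^ u))⁻¹ := by group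
    rw [e]
    exact Subgroup.mul_mem _ (Subgroup.pow_mem _ (Subgroup.mem_zpowers _) _)
      (Subgroup.inv_mem _ (Subgroup.pow_mem _ (Subgroup.mem_zpowers _) _))
  rw [← mem_powers_iff_mem_zpowers] at h6
  obtain ⟨w, hw⟩ := h6
  have hw' : D.a ^ w = (D.a ^ i * D.b ^ (p ^ β * v)) * ((D.a ^ c * D.b ^ p ^ β) ^ v)⁻¹ := hw
  have h7 : D.a ^ w ∈ L := by
    rw [hw']
    exact h5
  obtain ⟨u, rfl⟩ := (h1 w).1 h7
  refine ⟨u, v, ?_⟩
  rw [hw']
  group

theorem mem_zpowers_subtype {L : Subgroup G} (y a' : L) :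
    y ∈ Subgroup.zpowers a' ↔ (y : G) ∈ Subgroup.zpowers (a' : G) := by
  constructor
  · rintro ⟨k, rfl⟩
    exact ⟨k, by simp⟩
  · rintro ⟨k, hk⟩
    exact ⟨k, Subtype.ext (by simpa using hk)⟩

/-- The normal form data of a subgroup. -/
theorem exists_sub_mc (hp2 : p ≠ 2) (L : Subgroup G) : ∃ (α β c : ℕ) (D' : MC p L),
    α ≤ D.m ∧ β ≤ D.e ∧ ((D'.a : L) : G) = D.a ^ p ^ α ∧
    ((D'.b : L) : G) = D.a ^ c * D.b ^ p ^ β ∧ D'.m = D.m - α ∧ D'.e = D.e - β ∧ D'.r = D.r ^ p ^ β ∧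
    (∀ w, D.a ^ w ∈ L ↔ p ^ α ∣ w) ∧ (∀ w, D.b ^ w ∈ L ⊔ Subgroup.zpowers D.a ↔ p ^ β ∣ w) := by
  obtain ⟨α, β, c, hα, hβ, h1, h2, hx⟩ := D.exists_sub L
  have hpβ : p ^ β ≠ 0 := pow_ne_zero _ hp.out.ne_zero
  have hr' : 1 < D.r ^ p ^ β := Nat.one_lt_pow hpβ D.hr1
  have ha' : D.a ^ p ^ α ∈ L := (h1 _).2 (dvd_refl _)
  refine ⟨α, β, c,
    { a := ⟨D.a ^ p ^ α, ha'⟩
      b := ⟨D.a ^ c * D.b ^ p ^ β, hx⟩
      r := D.r ^ p ^ β
      m := D.m - α
      e := D.e - β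
      hr1 := hr'
      hpr := D.p_dvd_pow_sub hp2 _
      hnorm := ?_
      hord := ?_
      hconj := ?_
      hgen := ?_
      hbe := ?_ }, hα, hβ, rfl, rfl, rfl, rfl, rfl, h1, h2⟩
  · refine ⟨fun y hy g => ?_⟩
    rw [mem_zpowers_subtype] at hy ⊢
    exact (D.normal_zpowers_pow (p ^ α)).conj_mem _ hy _
  · rw [Subgroup.orderOf_mk]
    exact mc_orderOf_pow_prime_pow D.hord α
  · apply Subtype.ext
    show (D.a ^ c * D.b ^ p ^ β) * D.a ^ p ^ α * (D.a ^ c * D.b ^ p ^ β)⁻¹ = (D.a ^ p ^ α) ^ (D.r ^ p ^ β)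
    have h3 := D.b_mul_a (p ^ β) (p ^ α)
    have h4 : Commute (D.a ^ c) (D.a ^ (p ^ α * D.r ^ p ^ β)) := (Commute.refl _).pow_pow _ _
    calc (D.a ^ c * D.b ^ p ^ β) * D.a ^ p ^ α * (D.a ^ c * D.b ^ p ^ β)⁻¹
        = D.a ^ c * (D.b ^ p ^ β * D.a ^ p ^ α) * (D.b ^ p ^ β)⁻¹ * (D.a ^ c)⁻¹ := by group
      _ = D.a ^ c * D.a ^ (p ^ α * D.r ^ p ^ β) * (D.a ^ c)⁻¹ := by rw [h3]; group
      _ = D.a ^ (p ^ α * D.r ^ p ^ β) := by rw [h4.eq]; group
      _ = _ := by rw [pow_mul]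
  · rintro ⟨g, hg⟩
    obtain ⟨u, v, huv⟩ := D.sub_form hp2 L h1 h2 hx hg
    refine ⟨u, v, Subtype.ext ?_⟩
    simp only [Subgroup.coe_mul, SubmonoidClass.coe_pow]
    rw [huv, pow_mul]
  · intro j
    rw [mem_zpowers_subtype]
    simp only [SubmonoidClass.coe_pow]
    rw [D.pow_form]
    have hsum : D.a ^ (c * ∑ u ∈ Finset.range j, (D.r ^ p ^ β) ^ u) ∈ Subgroup.zpowers D.a :=
      Subgroup.pow_mem _ (Subgroup.mem_zpowers _) _
    have hiff : p ^ (D.e - β) ∣ j ↔ p ^ D.e ∣ p ^ β * j := by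
      have e : p ^ D.e = p ^ β * p ^ (D.e - β) := by
        rw [← pow_add]
        congr 1
        omega
      rw [e]
      exact (Nat.mul_dvd_mul_iff_left (pow_pos hp.out.pos _)).symm
    rw [hiff]
    constructor
    · intro h
      have h3 : Subgroup.zpowers (D.a ^ p ^ α) ≤ Subgroup.zpowers D.a := by
        rw [Subgroup.zpowers_le]
        exact Subgroup.pow_mem _ (Subgroup.mem_zpowers _) _
      have h4 := h3 h
      have h5 : D.b ^ (p ^ β * j) = (D.a ^ (c * ∑ u ∈ Finset.range j, (D.r ^ p ^ β) ^ u))⁻¹ *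
          (D.a ^ (c * ∑ u ∈ Finset.range j, (D.r ^ p ^ β) ^ u) * D.b ^ (p ^ β * j)) := by group
      apply (D.hbe _).1
      rw [h5]
      exact Subgroup.mul_mem _ (Subgroup.inv_mem _ hsum) h4
    · intro h
      have h3 := (D.hbe _).2 h
      have h4 := Subgroup.mul_mem _ hsum h3
      have h5 : D.a ^ (c * ∑ u ∈ Finset.range j, (D.r ^ p ^ β) ^ u) * D.b ^ (p ^ β * j) ∈ L := by
        have := L.pow_mem hx j
        rwa [D.pow_form] at this
      rw [← mem_powers_iff_mem_zpowers] at h4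
      obtain ⟨w, hw⟩ := h4
      have hw' : D.a ^ w = D.a ^ (c * ∑ u ∈ Finset.range j, (D.r ^ p ^ β) ^ u) * D.b ^ (p ^ β * j) := hw
      rw [← hw'] at h5 ⊢
      obtain ⟨u, rfl⟩ := (h1 w).1 h5
      rw [pow_mul]
      exact Subgroup.pow_mem _ (Subgroup.mem_zpowers _) _

theorem s_of_sub (hp2 : p ≠ 2) {H : Type*} [Group H] (D' : MC p H) {β : ℕ} (h : D'.r = D.r ^ p ^ β) : D'.s = D.s + β := by
  show padicValNat p (D'.r - 1) = padicValNat p (D.r - 1) + β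
  rw [h, mc_val_pow hp2 D.hr1 D.hpr (pow_ne_zero _ hp.out.ne_zero), padicValNat.prime_pow]

theorem comm_iff_n (hp2 : p ≠ 2) : IsMulCommutative G ↔ D.n = 0 := by
  rw [isMulCommutative_iff]
  constructor
  · intro h
    have h1 : commutator G = ⊥ := by
      rw [commutator_def, Subgroup.commutator_eq_bot_iff_le_centralizer]
      intro x _
      rw [Subgroup.mem_centralizer_iff]
      intro y _
      exact h y x
    have h2 := D.card_commutator hp2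
    rw [h1, Subgroup.card_bot] at h2
    have h3 : p ^ D.n = p ^ 0 := by rw [← h2, pow_zero]
    exact Nat.pow_right_injective hp.out.two_le h3
  · intro h x y
    obtain ⟨k, l, rfl⟩ := D.hgen x
    obtain ⟨i, j, rfl⟩ := D.hgen y
    have h1 := D.comm_mem hp2 i j k l 0 (by simp) (by simp)
    have h2 : D.Dt 0 = ⊥ := by
      show Subgroup.zpowers (D.a ^ p ^ (D.s + 0)) = ⊥
      rw [Subgroup.zpowers_eq_bot, ← orderOf_dvd_iff_pow_eq_one, D.hord]
      apply pow_dvd_pow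
      unfold MC.n at h
      omega
    rw [h2, Subgroup.mem_bot] at h1
    exact mul_inv_eq_iff_eq_mul.1 (mul_inv_eq_one.1 h1) |>.trans (by rfl)

theorem index_commutator (hp2 : p ≠ 2) : (commutator G).index = p ^ (D.m + D.e - D.n) := by
  have h1 := (commutator G).card_mul_index
  rw [D.card_commutator hp2, D.card_eq] at h1
  have h2 := D.n_le_m
  have h3 : p ^ (D.m + D.e) = p ^ D.n * p ^ (D.m + D.e - D.n) := by
    rw [← pow_add]
    congr 1
    omega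
  rw [h3] at h1
  exact Nat.eq_of_mul_eq_mul_left (pow_pos hp.out.pos _) h1

include D in
/-- Abelian subgroups are those of small order. -/
theorem abelian_iff_card (hp2 : p ≠ 2) (L : Subgroup G) :
    IsMulCommutative L ↔ Nat.card L ≤ (commutator G).index := by
  obtain ⟨α, β, c, D', hα, hβ, h1, h2, h3, h4, h5, h6, h7⟩ := D.exists_sub_mc hp2 L
  have hs := D.s_of_sub hp2 D' h5
  rw [D'.comm_iff_n hp2, D'.card_eq, D.index_commutator hp2, Nat.pow_le_pow_iff_right hp.out.one_lt, h3, h4]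
  have hn : D'.n = D.m - α - D'.s := by
    show D'.m - D'.s = _
    rw [h3]
  have h8 := D.n_le_m
  have h9 : D.n = D.m - D.s := rfl
  omega

include D in
theorem maximal_iff_card (hp2 : p ≠ 2) (L : Subgroup G) :
    Maximal (fun K : Subgroup G => IsMulCommutative K) L ↔ Nat.card L = (commutator G).index := by
  have hcG := D.card_eq
  constructor
  · intro h
    have h1 := (D.abelian_iff_card hp2 L).1 h.1
    by_contra hne
    have hlt : Nat.card L < (commutator G).index := lt_of_le_of_ne h1 hne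
    obtain ⟨ℓ, hℓ⟩ := (Nat.dvd_prime_pow hp.out).1 (show Nat.card L ∣ p ^ (D.m + D.e) by
      rw [← hcG]
      exact Subgroup.card_subgroup_dvd_card L)
    rw [D.index_commutator hp2] at hlt
    obtain ⟨hℓ1, hℓ2⟩ := hℓ
    rw [hℓ2] at hlt
    have hlt2 := (Nat.pow_lt_pow_iff_right hp.out.one_lt).1 hlt
    have hd : p ^ (ℓ + 1) ∣ Nat.card G := by
      rw [hcG]
      exact pow_dvd_pow _ (by omega)
    obtain ⟨K, hK, hLK⟩ := Sylow.exists_subgroup_card_pow_succ hd hℓ2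
    have hKab : IsMulCommutative K := by
      rw [D.abelian_iff_card hp2, hK, D.index_commutator hp2]
      exact Nat.pow_le_pow_right hp.out.pos (by omega)
    have h5 := h.2 hKab hLK
    have h6 := Subgroup.card_le_of_le h5
    rw [hK, hℓ2] at h6
    have := (Nat.pow_le_pow_iff_right hp.out.one_lt).1 h6
    omega
  · intro h
    refine ⟨(D.abelian_iff_card hp2 L).2 h.le, fun K hK hLK => ?_⟩
    have h1 := (D.abelian_iff_card hp2 K).1 hK
    rw [← h] at h1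
    have := Subgroup.eq_of_le_of_card_ge hLK h1
    rw [this]

theorem Gt_normal (t : ℕ) (hp2 : p ≠ 2) : (D.Gt t).Normal := by
  rw [← D.closure_pow_eq hp2]
  refine ⟨fun x hx g => ?_⟩
  induction hx using Subgroup.closure_induction with
  | mem x hx =>
    obtain ⟨y, rfl⟩ := hx
    exact Subgroup.subset_closure ⟨g * y * g⁻¹, conj_pow⟩
  | one => simp
  | mul x y _ _ hx hy =>
    have : g * (x * y) * g⁻¹ = (g * x * g⁻¹) * (g * y * g⁻¹) := by group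
    rw [this]
    exact Subgroup.mul_mem _ hx hy
  | inv x _ hx =>
    have : g * x⁻¹ * g⁻¹ = (g * x * g⁻¹)⁻¹ := by group
    rw [this]
    exact Subgroup.inv_mem _ hx

end MC

end Cfsg.Agent.H18
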