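import Mathlib
import Cfsg.Agent.Lib.H18.MC2

/-! Metacyclic `p`-groups, `p` odd: centralizers of subgroups, factorizations. -/

set_option autoImplicit false
set_option linter.unusedSectionVars false

namespace Cfsg.Agent.H18

open Cfsg

theorem mc_val_helper {p : ℕ} [hp : Fact p.Prime] {α n β c l : ℕ} (h1 : p ^ α ∣ c * p ^ (n - β))
    (h2 : p ^ n ∣ p ^ α * l) (hβ : β ≤ n) : p ^ β ∣ c * l := by
  by_cases hc : c = 0
  · subst hc
    simp
  by_cases hl : l = 0
  · subst hl
    simp
  have hp0 : p ≠ 0 := hp.out.ne_zero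
  have h3 : p ^ (n - β) ≠ 0 := pow_ne_zero _ hp0
  have h4 : p ^ α ≠ 0 := pow_ne_zero _ hp0
  rw [padicValNat_dvd_iff_le (mul_ne_zero hc h3), padicValNat.mul hc h3, padicValNat.prime_pow] at h1
  rw [padicValNat_dvd_iff_le (mul_ne_zero h4 hl), padicValNat.mul h4 hl, padicValNat.prime_pow] at h2
  rw [padicValNat_dvd_iff_le (mul_ne_zero hc hl), padicValNat.mul hc hl]
  omega

theorem mc_dvd_of_geom {p : ℕ} [hp : Fact p.Prime] (hp2 : p ≠ 2) {α c q t : ℕ} (hq : 1 ≤ q) (hpq : p ∣ q - 1)
    (ht : t ≠ 0) (h : p ^ α ∣ c * ∑ u ∈ Finset.range t, q ^ u) : p ^ α ∣ c * t := by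
  by_cases hc : c = 0
  · subst hc
    simp
  have h1 := mc_geom_ne_zero hq ht
  rw [padicValNat_dvd_iff_le (mul_ne_zero hc h1), padicValNat.mul hc h1, mc_val_geom hp2 hq hpq ht] at h
  rw [padicValNat_dvd_iff_le (mul_ne_zero hc ht), padicValNat.mul hc ht]
  exact h

namespace MC

variable {p : ℕ} [hp : Fact p.Prime] {G : Type*} [Group G] [Finite G] (D : MC p G)

theorem card_center (hp2 : p ≠ 2) : Nat.card (Subgroup.center G) = p ^ (D.m - D.n + (D.e - D.n)) := by
  rw [D.center_eq hp2, D.card_Gt hp2 le_rfl]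

/-- The exponent bookkeeping of a subgroup containing the centre. -/
theorem index_centralizer_of_center_le (hp2 : p ≠ 2) (R : Subgroup G) (hZ : Subgroup.center G ≤ R) {α β c : ℕ}
    (hα : α ≤ D.m) (hβ : β ≤ D.e)
    (h1 : ∀ w, D.a ^ w ∈ R ↔ p ^ α ∣ w) (h2 : ∀ w, D.b ^ w ∈ R ⊔ Subgroup.zpowers D.a ↔ p ^ β ∣ w)
    (hx : D.a ^ c * D.b ^ p ^ β ∈ R) :
    α ≤ D.n ∧ β ≤ D.n ∧ (Subgroup.centralizer (R : Set G)).index = p ^ (D.n - β + (D.n - α)) := by
  have hp1 : p.Prime := hp.out
  have hpos : ∀ t, 0 < p ^ t := fun t => pow_pos hp1.pos t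
  have hcen_a : D.a ^ p ^ D.n ∈ Subgroup.center G := by
    rw [D.center_eq hp2]
    have := D.mem_Gt_of (t := D.n) (i := p ^ D.n) (j := 0) (dvd_refl _) (dvd_zero _)
    simpa using this
  have hcen_b : D.b ^ p ^ D.n ∈ Subgroup.center G := by
    rw [D.center_eq hp2]
    have := D.mem_Gt_of (t := D.n) (i := 0) (j := p ^ D.n) (dvd_zero _) (dvd_refl _)
    simpa using this
  have hαn : α ≤ D.n := by
    have h3 := (h1 _).1 (hZ hcen_a)
    exact (Nat.pow_dvd_pow_iff_le_right hp1.one_lt).1 h3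
  have hβn : β ≤ D.n := by
    have h3 := (h2 _).1 (le_sup_left (a := R) (hZ hcen_b))
    exact (Nat.pow_dvd_pow_iff_le_right hp1.one_lt).1 h3
  refine ⟨hαn, hβn, ?_⟩
  -- the constraint on `c`
  have hcons : p ^ α ∣ c * p ^ (D.n - β) := by
    have h3 : (D.a ^ c * D.b ^ p ^ β) ^ p ^ (D.n - β) ∈ R := R.pow_mem hx _
    rw [D.pow_form] at h3
    have e : p ^ β * p ^ (D.n - β) = p ^ D.n := by
      rw [← pow_add]
      congr 1
      omega
    rw [e] at h3
    have h4 : D.a ^ (c * ∑ u ∈ Finset.range (p ^ (D.n - β)), (D.r ^ p ^ β) ^ u) ∈ R := by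
      have h5 := R.mul_mem h3 (R.inv_mem (hZ hcen_b))
      simpa using h5
    have h5 := (h1 _).1 h4
    exact mc_dvd_of_geom hp2 (Nat.one_le_pow _ _ D.one_le_r) (D.p_dvd_pow_sub hp2 _)
      (pow_ne_zero _ hp1.ne_zero) h5
  set x := D.a ^ c * D.b ^ p ^ β with hxdef
  set H := Subgroup.centralizer ({D.a ^ p ^ α} : Set G) with hH
  set K := Subgroup.centralizer ({x} : Set G) with hK
  have hCR : Subgroup.centralizer (R : Set G) = K ⊓ H := by
    apply le_antisymm
    · intro y hy
      rw [Subgroup.mem_centralizer_iff] at hy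
      refine ⟨?_, ?_⟩
      · exact Subgroup.mem_centralizer_singleton_iff.2 (hy x hx).symm
      · exact Subgroup.mem_centralizer_singleton_iff.2 (hy _ ((h1 _).2 (dvd_refl _))).symm
    · rintro y ⟨hy1, hy2⟩
      rw [Subgroup.mem_centralizer_iff]
      intro g hg
      obtain ⟨u, v, rfl⟩ := D.sub_form hp2 R h1 h2 hx hg
      have c1 : Commute y x := (Subgroup.mem_centralizer_singleton_iff.1 hy1)
      have c2 : Commute y (D.a ^ p ^ α) := (Subgroup.mem_centralizer_singleton_iff.1 hy2)
      have c3 : Commute y (D.a ^ (p ^ α * u) * x ^ v) := by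
        rw [pow_mul]
        exact (c2.pow_right u).mul_right (c1.pow_right v)
      exact c3.eq.symm
  -- index of H
  have hHidx : H.index = p ^ (D.n - α) := by
    apply le_antisymm
    · have h3 : D.a ^ p ^ α ∈ D.Gt α := by
        have := D.mem_Gt_of (t := α) (i := p ^ α) (j := 0) (dvd_refl _) (dvd_zero _)
        simpa using this
      exact D.index_le hp2 h3
    · apply mc_le_index H D.b (hpos _)
      intro w hw
      rw [hH, Subgroup.mem_centralizer_singleton_iff] at hw
      have h3 := (D.comm_iff hp2 (p ^ α) w).1 hw.symm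
      have e : D.n = α + (D.n - α) := by omega
      rw [e, pow_add] at h3
      exact Nat.dvd_of_mul_dvd_mul_left (hpos _) (by simpa [Nat.add_sub_cancel_left] using h3)
  -- relative index
  have haH : D.a ∈ H := by
    rw [hH, Subgroup.mem_centralizer_singleton_iff]
    exact ((Commute.refl D.a).pow_right _).eq
  have hrel : K.relIndex H = p ^ (D.n - β) := by
    apply le_antisymm
    · rw [← D.card_Dt β]
      apply mc_relIndex_centralizer_le
      intro y hy
      obtain ⟨k, l, rfl⟩ := D.hgen y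
      have h3 : D.a ^ p ^ α * D.b ^ l = D.b ^ l * D.a ^ p ^ α := by
        have h4 := Subgroup.mem_centralizer_singleton_iff.1 hy
        have h5 : D.a ^ k * (D.a ^ p ^ α * D.b ^ l) = D.a ^ k * (D.b ^ l * D.a ^ p ^ α) := by
          calc D.a ^ k * (D.a ^ p ^ α * D.b ^ l) = D.a ^ p ^ α * (D.a ^ k * D.b ^ l) := by
                rw [← mul_assoc, ← mul_assoc, ((Commute.refl D.a).pow_pow k (p ^ α)).eq]
            _ = (D.a ^ k * D.b ^ l) * D.a ^ p ^ α := h4.symm
            _ = _ := by group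
        exact mul_left_cancel h5
      have h4 := (D.comm_iff hp2 (p ^ α) l).1 h3
      exact D.comm_mem hp2 c (p ^ β) k l β (mc_val_helper hcons h4 hβn) (dvd_mul_left _ _)
    · have hle := mc_le_index (K.subgroupOf H) (⟨D.a, haH⟩ : H) (hpos (D.n - β)) (by
        intro w hw
        rw [Subgroup.mem_subgroupOf] at hw
        have h3 : D.a ^ w ∈ K := by simpa using hw
        rw [hK, Subgroup.mem_centralizer_singleton_iff] at h3
        have h4 : D.a ^ w * D.b ^ p ^ β = D.b ^ p ^ β * D.a ^ w := by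
          have h5 : D.a ^ c * (D.a ^ w * D.b ^ p ^ β) = D.a ^ c * (D.b ^ p ^ β * D.a ^ w) := by
            calc D.a ^ c * (D.a ^ w * D.b ^ p ^ β) = D.a ^ w * (D.a ^ c * D.b ^ p ^ β) := by
                  rw [← mul_assoc, ← mul_assoc, ((Commute.refl D.a).pow_pow c w).eq]
              _ = (D.a ^ c * D.b ^ p ^ β) * D.a ^ w := h3
              _ = _ := by group
          exact mul_left_cancel h5
        have h6 := (D.comm_iff hp2 w (p ^ β)).1 h4
        have e : p ^ D.n = p ^ (D.n - β) * p ^ β := by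
          rw [← pow_add]
          congr 1
          omega
        rw [e] at h6
        exact Nat.dvd_of_mul_dvd_mul_right (hpos β) h6)
      exact hle
  have hfin : (K ⊓ H).index = p ^ (D.n - β + (D.n - α)) := by
    have h3 := Subgroup.relIndex_mul_index (inf_le_right : K ⊓ H ≤ H)
    rw [Subgroup.inf_relIndex_right, hrel, hHidx] at h3
    rw [← h3, pow_add]
  rw [hCR, hfin]

/-- `|R| |C(R)| = |G| |Z(G)|` when `Z(G) ≤ R`. -/
theorem card_mul_centralizer (hp2 : p ≠ 2) (R : Subgroup G) (hZ : Subgroup.center G ≤ R) :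
    Nat.card R * Nat.card (Subgroup.centralizer (R : Set G)) = p ^ (D.m + D.e + (D.m - D.n + (D.e - D.n))) := by
  obtain ⟨α, β, c, hα, hβ, h1, h2, hx⟩ := D.exists_sub R
  obtain ⟨hαn, hβn, hidx⟩ := D.index_centralizer_of_center_le hp2 R hZ hα hβ h1 h2 hx
  have hc := D.card_of_exps R hα hβ h1 h2
  have h3 := (Subgroup.centralizer (R : Set G)).card_mul_index
  rw [hidx, D.card_eq] at h3
  have hnm := D.n_le_m
  have hne := D.n_le_e hp2
  have e : p ^ (D.m + D.e) = p ^ (D.m + D.e - (D.n - β + (D.n - α))) * p ^ (D.n - β + (D.n - α)) := by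
    rw [← pow_add]
    congr 1
    omega
  rw [e] at h3
  have h4 := Nat.eq_of_mul_eq_mul_right (pow_pos hp.out.pos _) h3
  rw [h4, hc, ← pow_add]
  congr 1
  omega

theorem centralizer_sup_center (R : Subgroup G) :
    Subgroup.centralizer ((R ⊔ Subgroup.center G : Subgroup G) : Set G) = Subgroup.centralizer (R : Set G) := by
  apply le_antisymm
  · exact Subgroup.centralizer_le (SetLike.coe_subset_coe.2 le_sup_left)
  · intro y hy
    have h1 : R ⊔ Subgroup.center G ≤ Subgroup.centralizer ({y} : Set G) := by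
      apply sup_le
      · intro r hr
        rw [Subgroup.mem_centralizer_singleton_iff]
        exact ((Subgroup.mem_centralizer_iff.1 hy) r hr)
      · intro z hz
        rw [Subgroup.mem_centralizer_singleton_iff]
        exact (Subgroup.mem_center_iff.1 hz y).symm
    rw [Subgroup.mem_centralizer_iff]
    intro g hg
    exact (Subgroup.mem_centralizer_singleton_iff.1 (h1 hg))

/-- The general bound. -/
theorem card_mul_centralizer_le (hp2 : p ≠ 2) (R : Subgroup G) :
    Nat.card R * Nat.card (Subgroup.centralizer (R : Set G)) ≤ p ^ (D.m + D.e + (D.m - D.n + (D.e - D.n))) ∧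
    (Nat.card R * Nat.card (Subgroup.centralizer (R : Set G)) = p ^ (D.m + D.e + (D.m - D.n + (D.e - D.n))) →
      Subgroup.center G ≤ R) := by
  have h1 := D.card_mul_centralizer hp2 (R ⊔ Subgroup.center G) le_sup_right
  rw [centralizer_sup_center] at h1
  have hpos : 0 < Nat.card (Subgroup.centralizer (R : Set G)) := Nat.card_pos
  have hle : Nat.card R ≤ Nat.card (R ⊔ Subgroup.center G : Subgroup G) := Subgroup.card_le_of_le le_sup_left
  refine ⟨?_, fun h => ?_⟩
  · rw [← h1]
    exact Nat.mul_le_mul_right _ hle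
  · rw [← h1] at h
    have h2 := Nat.eq_of_mul_eq_mul_right hpos h
    have h3 := Subgroup.eq_of_le_of_card_ge (le_sup_left : R ≤ R ⊔ Subgroup.center G) h2.ge
    rw [h3]
    exact le_sup_right

end MC

end Cfsg.Agent.H18
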