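import Mathlib
import Cfsg.Agent.Lib.H01.OmegaApps
import Cfsg.Agent.Lib.H01.MaxNormal
import Cfsg.Agent.Lib.H06.OddPGroup
import Cfsg.Agent.Lib.H18.Nilp
import Cfsg.Agent.Lib.H18.AbConj3
import Cfsg.Prelude.Def_Transfer

/-! Odd `p`: a `p`-group with an elementary abelian subgroup of order `p^4` has a normal one. -/

set_option autoImplicit false
set_option linter.style.haveILetI false
set_option linter.unusedSectionVars false

namespace Cfsg.Agent.H18

universe u

variable {G : Type u} [Group G]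

/-- Conjugation action of a subgroup on a conjugation-invariant family of subgroups: congruence. -/
theorem fam_card_modEq [Finite G] {p : ℕ} [Fact p.Prime] (Q : Subgroup G) (hQ : IsPGroup p Q)
    (S : Set (Subgroup G)) (hS : ∀ H ∈ S, ∀ g ∈ Q, H.map (MulAut.conj g).toMonoidHom ∈ S) :
    Nat.card S ≡ Nat.card {H : S // ∀ g ∈ Q, (H : Subgroup G).map (MulAut.conj g).toMonoidHom = H} [MOD p] := by
  classical
  letI : MulAction Q S :=
    { smul := fun g H => ⟨(H : Subgroup G).map (MulAut.conj (g : G)).toMonoidHom, hS _ H.2 _ g.2⟩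
      one_smul := by
        rintro ⟨H, hH⟩
        apply Subtype.ext
        show H.map (MulAut.conj ((1 : Q) : G)).toMonoidHom = H
        ext x
        simp
      mul_smul := by
        rintro g g' ⟨H, hH⟩
        apply Subtype.ext
        show H.map (MulAut.conj ((g * g' : Q) : G)).toMonoidHom =
          (H.map (MulAut.conj (g' : G)).toMonoidHom).map (MulAut.conj (g : G)).toMonoidHom
        rw [Subgroup.map_map]
        congr 1
        ext x
        simp [mul_assoc] }
  have h := hQ.card_modEq_card_fixedPoints S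
  have e : Nat.card (MulAction.fixedPoints Q S) =
      Nat.card {H : S // ∀ g ∈ Q, (H : Subgroup G).map (MulAut.conj g).toMonoidHom = H} := by
    apply Nat.card_congr
    refine Equiv.subtypeEquivRight ?_
    intro H
    rw [MulAction.mem_fixedPoints]
    constructor
    · intro h g hg
      exact congrArg Subtype.val (h ⟨g, hg⟩)
    · intro h g
      exact Subtype.ext (h g g.2)
  rw [e] at h
  exact h

section main

variable [Finite G] {p : ℕ} [hpf : Fact p.Prime]

/-- the key configuration -/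
structure Cfg (G : Type u) [Group G] (p : ℕ) where
  W : Subgroup G
  U : Subgroup G
  w : G
  hWn : W.Normal
  hUn : U.Normal
  hUW : U ≤ W
  hWc : ∀ a ∈ W, ∀ b ∈ W, a * b = b * a
  hWe : ∀ a ∈ W, a ^ p = 1
  hw : w ∈ W
  hwU : w ∉ U
  hU2 : Nat.card U = p ^ 2
  hW3 : Nat.card W = p ^ 3
  hmax : ∀ x, (∀ y ∈ W, x * y = y * x) → x ^ p = 1 → x ∈ W
  hcw : ∀ g : G, g * w * g⁻¹ * w⁻¹ ∈ U
  hWgen : ∀ x ∈ W, ∃ u ∈ U, ∃ k : ℕ, x = u * w ^ k

namespace Cfg

variable (c : Cfg G p)

/-- the commutator function -/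
def cw (g : G) : G := g * c.w * g⁻¹ * c.w⁻¹

theorem cw_mem (g : G) : c.cw g ∈ c.U := c.hcw g

theorem U_comm {a b : G} (ha : a ∈ c.U) (hb : b ∈ c.U) : a * b = b * a :=
  c.hWc a (c.hUW ha) b (c.hUW hb)

/-- central elements: those commuting with `U` -/
def Cen : Prop := True

theorem cw_mul {r s : G} (hr : ∀ u ∈ c.U, r * u = u * r) : c.cw (r * s) = c.cw r * c.cw s := by
  have h1 : c.cw (r * s) = r * c.cw s * r⁻¹ * c.cw r := by
    simp only [cw]; group
  have h2 : r * c.cw s * r⁻¹ = c.cw s := by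
    rw [hr _ (c.cw_mem s)]; group
  rw [h1, h2, c.U_comm (c.cw_mem s) (c.cw_mem r)]

theorem cw_one : c.cw 1 = 1 := by simp [cw]

theorem cw_inv {r : G} (hr : ∀ u ∈ c.U, r * u = u * r) : c.cw r⁻¹ = (c.cw r)⁻¹ := by
  have hri : ∀ u ∈ c.U, r⁻¹ * u = u * r⁻¹ := by
    intro u hu
    have := hr u hu
    calc r⁻¹ * u = r⁻¹ * (u * r) * r⁻¹ := by group
      _ = r⁻¹ * (r * u) * r⁻¹ := by rw [this]
      _ = u * r⁻¹ := by group
  have h := c.cw_mul (s := r) hri
  rw [inv_mul_cancel, c.cw_one] at h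
  have h' := h.symm
  exact eq_inv_of_mul_eq_one_left h'

/-- an element commuting with `U` and `w` centralizes `W`. -/
theorem comm_W {x : G} (hU : ∀ u ∈ c.U, x * u = u * x) (hw : x * c.w = c.w * x) :
    ∀ y ∈ c.W, x * y = y * x := by
  intro y hy
  obtain ⟨u, hu, k, rfl⟩ := c.hWgen y hy
  have h1 : Commute x u := hU u hu
  have h2 : Commute x c.w := hw
  exact (h1.mul_right (h2.pow_right k)).eq

/-- An element with `p`-th power one commuting with `U` and `w` lies in `W`. -/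
theorem mem_W {x : G} (hU : ∀ u ∈ c.U, x * u = u * x) (hw : c.cw x = 1) (hp : x ^ p = 1) : x ∈ c.W := by
  apply c.hmax x _ hp
  apply c.comm_W hU
  simp only [cw] at hw
  have h1 : x * c.w * x⁻¹ = c.w := mul_inv_eq_one.mp hw
  exact mul_inv_eq_iff_eq_mul.mp h1


/-- the family -/
def Fam : Set (Subgroup G) :=
  {F | c.U ≤ F ∧ (∀ a ∈ F, ∀ b ∈ F, a * b = b * a) ∧ (∀ a ∈ F, a ^ p = 1) ∧ Nat.card F = p ^ 4}

theorem pow_inv_of_not_dvd {a : G} (ha : a ^ p = 1) {k : ℕ} (hk : ¬ p ∣ k) : ∃ l : ℕ, (a ^ k) ^ l = a := by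
  have hpr : p.Prime := hpf.out
  have hcop : Nat.Coprime k p := ((Nat.Prime.coprime_iff_not_dvd hpr).mpr hk).symm
  obtain ⟨m, hm⟩ := Nat.exists_mul_mod_eq_one_of_coprime hcop hpr.one_lt
  refine ⟨m, ?_⟩
  rw [← pow_mul]
  have h1 : k * m = p * (k * m / p) + 1 := by
    have := Nat.div_add_mod (k * m) p
    rw [hm.2] at this
    exact this.symm
  rw [h1, pow_succ, pow_mul, ha, one_pow, one_mul]

variable {c}

theorem fam_comm_U {F : Subgroup G} (hF : F ∈ c.Fam) {x : G} (hx : x ∈ F) : ∀ u ∈ c.U, x * u = u * x :=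
  fun u hu => hF.2.1 x hx u (hF.1 hu)

theorem card_U_lt : p ^ 3 < p ^ 4 := Nat.pow_lt_pow_right (hpf.out.one_lt) (by norm_num)

/-- `F ∩ W = U`. -/
theorem fam_inter {F : Subgroup G} (hF : F ∈ c.Fam) {x : G} (hx : x ∈ F) (hxW : x ∈ c.W) : x ∈ c.U := by
  by_contra hxU
  obtain ⟨u0, hu0, k, rfl⟩ := c.hWgen x hxW
  have hk : ¬ p ∣ k := by
    rintro ⟨t, rfl⟩
    apply hxU
    rw [pow_mul, c.hWe _ c.hw, one_pow, mul_one]
    exact hu0
  obtain ⟨l, hl⟩ := pow_inv_of_not_dvd (c.hWe _ c.hw) hk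
  have hFW : F ≤ c.W := by
    intro f hf
    apply c.mem_W (fam_comm_U hF hf) _ (hF.2.2.1 f hf)
    -- f commutes with w^k
    have h1 : f * (u0 * c.w ^ k) = (u0 * c.w ^ k) * f := hF.2.1 f hf _ hx
    have h2 : f * u0 = u0 * f := hF.2.1 f hf _ (hF.1 hu0)
    have h3 : f * c.w ^ k = c.w ^ k * f := by
      have : u0 * (f * c.w ^ k) = u0 * (c.w ^ k * f) := by
        calc u0 * (f * c.w ^ k) = (u0 * f) * c.w ^ k := by group
          _ = (f * u0) * c.w ^ k := by rw [h2]
          _ = f * (u0 * c.w ^ k) := by group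
          _ = (u0 * c.w ^ k) * f := h1
          _ = u0 * (c.w ^ k * f) := by group
      exact mul_left_cancel this
    have h4 : f * c.w = c.w * f := by
      have : Commute f (c.w ^ k) := h3
      have h5 := this.pow_right l
      rw [hl] at h5
      exact h5
    simp only [cw]
    rw [h4]; group
  have : Nat.card F ≤ Nat.card c.W := Subgroup.card_le_of_le hFW
  rw [hF.2.2.2, c.hW3] at this
  exact absurd this (not_le.mpr card_U_lt)

theorem fam_ker {F : Subgroup G} (hF : F ∈ c.Fam) {x : G} (hx : x ∈ F) (h1 : c.cw x = 1) : x ∈ c.U :=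
  fam_inter hF hx (c.mem_W (fam_comm_U hF hx) h1 (hF.2.2.1 x hx))

/-- `cw` maps `F` onto `U`. -/
theorem fam_surj {F : Subgroup G} (hF : F ∈ c.Fam) (u : G) (hu : u ∈ c.U) : ∃ f ∈ F, c.cw f = u := by
  classical
  let ψ : F →* c.U := MonoidHom.mk' (fun x => ⟨c.cw x, c.cw_mem x⟩) (by
    intro a b
    apply Subtype.ext
    exact c.cw_mul (fam_comm_U hF a.2))
  have h1 := Subgroup.card_mul_index ψ.ker
  rw [Subgroup.index_ker] at h1
  have hker : Nat.card ψ.ker ≤ p ^ 2 := by
    rw [← c.hU2]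
    have hinj : Function.Injective (fun x : ψ.ker => (⟨(x.1 : G), by
      have hx : ψ x.1 = 1 := x.2
      exact fam_ker hF x.1.2 (congrArg Subtype.val hx)⟩ : c.U)) := by
      intro a b h
      apply Subtype.ext
      apply Subtype.ext
      exact congrArg (fun z : c.U => (z : G)) h
    exact Nat.card_le_card_of_injective _ hinj
  have hrange : p ^ 2 ≤ Nat.card ψ.range := by
    rw [hF.2.2.2] at h1
    have hpos : 0 < p ^ 2 := pow_pos hpf.out.pos _
    by_contra hlt
    push Not at hlt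
    have : Nat.card ψ.ker * Nat.card ψ.range < p ^ 2 * p ^ 2 := by
      calc Nat.card ψ.ker * Nat.card ψ.range ≤ p ^ 2 * Nat.card ψ.range := Nat.mul_le_mul_right _ hker
        _ < p ^ 2 * p ^ 2 := Nat.mul_lt_mul_of_pos_left hlt hpos
    rw [h1] at this
    have h4 : p ^ 4 = p ^ 2 * p ^ 2 := by ring
    omega
  have htop : ψ.range = ⊤ := by
    apply Subgroup.eq_top_of_card_eq
    apply le_antisymm (Subgroup.card_le_card_group _)
    rw [c.hU2]; exact hrange
  obtain ⟨f, hf⟩ : (⟨u, hu⟩ : c.U) ∈ ψ.range := by rw [htop]; trivial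
  exact ⟨f, f.2, congrArg Subtype.val hf⟩



/-- every element of `F` normalised by `E` has the form `e w^k`. -/
theorem fam_decomp (hp2 : p ≠ 2) {E F : Subgroup G} (hE : E ∈ c.Fam) (hF : F ∈ c.Fam)
    (hN : ∀ e ∈ E, ∀ f ∈ F, e * f * e⁻¹ ∈ F) {f : G} (hf : f ∈ F) :
    ∃ e ∈ E, ∃ k : ℕ, f = e * c.w ^ k := by
  obtain ⟨e, he, hef⟩ := fam_surj hE _ (c.cw_mem f)
  set c0 := e⁻¹ * f with hc0
  have hf0 : f = e * c0 := by rw [hc0]; group
  have heU := fam_comm_U hE he
  have hfU := fam_comm_U hF hf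
  have heiU : ∀ u ∈ c.U, e⁻¹ * u = u * e⁻¹ := by
    intro u hu
    have := heU u hu
    calc e⁻¹ * u = e⁻¹ * (u * e) * e⁻¹ := by group
      _ = e⁻¹ * (e * u) * e⁻¹ := by rw [this]
      _ = u * e⁻¹ := by group
  have hc0U : ∀ u ∈ c.U, c0 * u = u * c0 := by
    intro u hu
    rw [hc0, mul_assoc, hfU u hu, ← mul_assoc, heiU u hu, mul_assoc]
  have hc0cw : c.cw c0 = 1 := by
    rw [hc0, c.cw_mul heiU, c.cw_inv heU, hef, inv_mul_cancel]
  -- commutators with E
  have hcomm : ∀ e' ∈ E, e' * c0 * e'⁻¹ * c0⁻¹ ∈ c.U := by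
    intro e' he'
    have hy : e' * f * e'⁻¹ * f⁻¹ ∈ F := F.mul_mem (hN e' he' f hf) (F.inv_mem hf)
    have he'U := fam_comm_U hE he'
    have he'iU : ∀ u ∈ c.U, e'⁻¹ * u = u * e'⁻¹ := by
      intro u hu
      have := he'U u hu
      calc e'⁻¹ * u = e'⁻¹ * (u * e') * e'⁻¹ := by group
        _ = e'⁻¹ * (e' * u) * e'⁻¹ := by rw [this]
        _ = u * e'⁻¹ := by group
    have hcwy : c.cw (e' * f * e'⁻¹ * f⁻¹) = 1 := by
      have h1 : e' * f * e'⁻¹ * f⁻¹ = e' * (f * (e'⁻¹ * f⁻¹)) := by group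
      have hmemF : ∀ u ∈ c.U, (e'⁻¹ * f⁻¹) * u = u * (e'⁻¹ * f⁻¹) := by
        intro u hu
        have hfi : f⁻¹ * u = u * f⁻¹ := fam_comm_U hF (F.inv_mem hf) u hu
        rw [mul_assoc, hfi, ← mul_assoc, he'iU u hu, mul_assoc]
      rw [h1, c.cw_mul he'U, c.cw_mul hfU, c.cw_mul he'iU, c.cw_inv he'U,
        c.cw_inv (fam_comm_U hF hf |> fun h u hu => by
          have := h u hu
          calc f * u = u * f := this)]
      have ca := c.U_comm (c.cw_mem e') (c.cw_mem f)
      have ha : c.cw f = c.cw f := rfl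
      calc c.cw e' * (c.cw f * ((c.cw e')⁻¹ * (c.cw f)⁻¹))
          = (c.cw e' * c.cw f) * ((c.cw e')⁻¹ * (c.cw f)⁻¹) := by group
        _ = (c.cw f * c.cw e') * ((c.cw e')⁻¹ * (c.cw f)⁻¹) := by rw [ca]
        _ = 1 := by group
    have hyU := fam_ker hF hy hcwy
    have hcomm' : e * e' = e' * e := hE.2.1 e he e' he'
    have h2 : e' * c0 * e'⁻¹ * c0⁻¹ = e⁻¹ * (e' * f * e'⁻¹ * f⁻¹) * e := by
      rw [hf0]
      have h3 : e' * e = e * e' := hcomm'.symm
      calc e' * c0 * e'⁻¹ * c0⁻¹ = e⁻¹ * (e * e') * c0 * e'⁻¹ * c0⁻¹ := by group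
        _ = e⁻¹ * (e' * e) * c0 * e'⁻¹ * c0⁻¹ := by rw [hcomm']
        _ = e⁻¹ * (e' * (e * c0) * e'⁻¹ * (e * c0)⁻¹) * e := by group
    rw [h2]
    have := c.hUn.conj_mem _ hyU e⁻¹
    simpa using this
  -- p-th power
  have hepow : e ^ p = 1 := hE.2.2.1 e he
  have hfpow : f ^ p = 1 := hF.2.2.1 f hf
  have hcU : c0 * e * c0⁻¹ * e⁻¹ ∈ c.U := by
    have := c.U.inv_mem (hcomm e he)
    have h : (e * c0 * e⁻¹ * c0⁻¹)⁻¹ = c0 * e * c0⁻¹ * e⁻¹ := by group
    rwa [h] at this
  have hcpow : c0 ^ p = 1 := by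
    have h1 := Cfsg.Agent.H06.pow_mul_of_central_comm (x := e) (z := c0) rfl
      (heU _ hcU |>.symm) (hc0U _ hcU |>.symm) p
    have hcp : (c0 * e * c0⁻¹ * e⁻¹) ^ p = 1 := c.hWe _ (c.hUW hcU)
    rw [hcp, one_mul] at h1
    have h2 := Cfsg.Agent.H06.mul_pow_prime_of_class_two hpf.out hp2 (x := e) (z := c0) rfl
      (heU _ hcU |>.symm) (hc0U _ hcU |>.symm) h1
    rw [← hf0, hfpow, hepow, one_mul] at h2
    exact h2.symm
  have hc0W : c0 ∈ c.W := c.mem_W hc0U hc0cw hcpow
  obtain ⟨u, hu, k, hk⟩ := c.hWgen c0 hc0W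
  refine ⟨e * u, E.mul_mem he (hE.1 hu), k, ?_⟩
  rw [hf0, hk, mul_assoc]

theorem cw_pow_key (g : G) (n : ℕ) : (c.cw g) ^ n * (c.w ^ n * g) = g * c.w ^ n := by
  have h1 : g * c.w * g⁻¹ = c.cw g * c.w := by
    simp only [cw]; group
  have hc : Commute (c.cw g) c.w := c.hWc _ (c.hUW (c.cw_mem _)) _ c.hw
  have h2 : g * c.w ^ n * g⁻¹ = (c.cw g) ^ n * c.w ^ n := by
    rw [← hc.mul_pow, ← h1, conj_pow]
  calc (c.cw g) ^ n * (c.w ^ n * g) = ((c.cw g) ^ n * c.w ^ n) * g := by group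
    _ = (g * c.w ^ n * g⁻¹) * g := by rw [h2]
    _ = g * c.w ^ n := by group

theorem fam_comm_eq {E : Subgroup G} (hE : E ∈ c.Fam) {e e' : G} (he : e ∈ E) (he' : e' ∈ E) {k k' : ℕ}
    (h : (e * c.w ^ k) * (e' * c.w ^ k') = (e' * c.w ^ k') * (e * c.w ^ k)) :
    (c.cw e') ^ k = (c.cw e) ^ k' := by
  have hk1 := cw_pow_key (c := c) e' k
  have hk2 := cw_pow_key (c := c) e k'
  have hA : (c.cw e') ^ k ∈ c.U := c.U.pow_mem (c.cw_mem e') k
  have hB : (c.cw e) ^ k' ∈ c.U := c.U.pow_mem (c.cw_mem e) k'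
  have hAe : e * (c.cw e') ^ k = (c.cw e') ^ k * e := fam_comm_U hE he _ hA
  have hBe : e' * (c.cw e) ^ k' = (c.cw e) ^ k' * e' := fam_comm_U hE he' _ hB
  have hee : e * e' = e' * e := hE.2.1 e he e' he'
  have hww : c.w ^ k * c.w ^ k' = c.w ^ k' * c.w ^ k := by
    rw [← pow_add, ← pow_add, add_comm]
  set A := (c.cw e') ^ k with hAdef
  set B := (c.cw e) ^ k' with hBdef
  have h1 : A * (e * c.w ^ k * (e' * c.w ^ k')) = e * e' * (c.w ^ k * c.w ^ k') := by
    calc A * (e * c.w ^ k * (e' * c.w ^ k')) = (A * e) * (c.w ^ k * e') * c.w ^ k' := by group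
      _ = (e * A) * (c.w ^ k * e') * c.w ^ k' := by rw [hAe]
      _ = e * (A * (c.w ^ k * e')) * c.w ^ k' := by group
      _ = e * (e' * c.w ^ k) * c.w ^ k' := by rw [hk1]
      _ = _ := by group
  have h2 : B * (e' * c.w ^ k' * (e * c.w ^ k)) = e * e' * (c.w ^ k * c.w ^ k') := by
    calc B * (e' * c.w ^ k' * (e * c.w ^ k)) = (B * e') * (c.w ^ k' * e) * c.w ^ k := by group
      _ = (e' * B) * (c.w ^ k' * e) * c.w ^ k := by rw [hBe]
      _ = e' * (B * (c.w ^ k' * e)) * c.w ^ k := by group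
      _ = e' * (e * c.w ^ k') * c.w ^ k := by rw [hk2]
      _ = (e' * e) * (c.w ^ k' * c.w ^ k) := by group
      _ = _ := by rw [← hee, ← hww]
  rw [h] at h1
  exact mul_right_cancel (h1.trans h2.symm)

/-- If `E` normalises `F` (both in the family) then `F = E`. -/
theorem fix_eq (hp2 : p ≠ 2) {E F : Subgroup G} (hE : E ∈ c.Fam) (hF : F ∈ c.Fam)
    (hN : ∀ e ∈ E, ∀ f ∈ F, e * f * e⁻¹ ∈ F) : F = E := by
  classical
  have hle : F ≤ E := by
    intro f hf
    obtain ⟨e, he, k, rfl⟩ := fam_decomp hp2 hE hF hN hf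
    by_cases hk : p ∣ k
    · obtain ⟨t, rfl⟩ := hk
      rw [pow_mul, c.hWe _ c.hw, one_pow, mul_one]
      exact he
    exfalso
    -- the element `a = cw (e w^k) = cw e`
    set a := c.cw e with ha
    -- find `a' ∈ U` outside `⟨a⟩`
    have hzp : Nat.card (Subgroup.zpowers a) ≤ p := by
      rw [Nat.card_zpowers]
      have hap : a ^ p = 1 := c.hWe _ (c.hUW (c.cw_mem e))
      exact Nat.le_of_dvd hpf.out.pos (orderOf_dvd_of_pow_eq_one hap)
    have hex : ∃ a' ∈ c.U, a' ∉ Subgroup.zpowers a := by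
      by_contra hcon
      push Not at hcon
      have : Nat.card c.U ≤ Nat.card (Subgroup.zpowers a) :=
        Subgroup.card_le_of_le (fun x hx => hcon x hx)
      rw [c.hU2] at this
      have h2 : p ^ 1 < p ^ 2 := Nat.pow_lt_pow_right hpf.out.one_lt (by norm_num)
      rw [pow_one] at h2
      omega
    obtain ⟨a', ha'U, ha'⟩ := hex
    obtain ⟨f', hf', hcwf'⟩ := fam_surj hF a' ha'U
    obtain ⟨e', he', k', rfl⟩ := fam_decomp hp2 hE hF hN hf'
    have hcwe' : c.cw (e' * c.w ^ k') = c.cw e' := by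
      simp only [cw]
      have : e' * c.w ^ k' * c.w * (e' * c.w ^ k')⁻¹ = e' * c.w * e'⁻¹ := by
        have h3 : c.w ^ k' * c.w = c.w * c.w ^ k' := (pow_succ c.w k').symm.trans (pow_succ' c.w k')
        calc e' * c.w ^ k' * c.w * (e' * c.w ^ k')⁻¹ = e' * (c.w ^ k' * c.w) * (c.w ^ k')⁻¹ * e'⁻¹ := by group
          _ = e' * (c.w * c.w ^ k') * (c.w ^ k')⁻¹ * e'⁻¹ := by rw [h3]
          _ = e' * c.w * e'⁻¹ := by group
      rw [this]
    have hcomm : (e * c.w ^ k) * (e' * c.w ^ k') = (e' * c.w ^ k') * (e * c.w ^ k) :=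
      hF.2.1 _ hf _ hf'
    have heq := fam_comm_eq hE he he' hcomm
    rw [← hcwe', hcwf'] at heq
    -- `a'^k = a^k'` so `a' ∈ ⟨a⟩`
    apply ha'
    obtain ⟨l, hl⟩ := pow_inv_of_not_dvd (c.hWe _ (c.hUW ha'U)) hk
    rw [← hl, heq]
    exact Subgroup.pow_mem _ (Subgroup.pow_mem _ (Subgroup.mem_zpowers a) _) _
  apply Subgroup.eq_of_le_of_card_ge hle
  rw [hE.2.2.2, hF.2.2.2]

theorem exists_normal_of_fam (hG : IsPGroup p G) (hp2 : p ≠ 2) {E : Subgroup G} (hE : E ∈ c.Fam) :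
    ∃ A ∈ c.Fam, A.Normal := by
  classical
  have hinv : ∀ H ∈ c.Fam, ∀ g : G, H.map (MulAut.conj g).toMonoidHom ∈ c.Fam := by
    intro H hH g
    refine ⟨?_, ?_, ?_, ?_⟩
    · intro u hu
      refine ⟨g⁻¹ * u * g, hH.1 ?_, by simp [mul_assoc]⟩
      have := c.hUn.conj_mem u hu g⁻¹
      simpa using this
    · rintro _ ⟨a, ha, rfl⟩ _ ⟨b, hb, rfl⟩
      rw [← map_mul, hH.2.1 a ha b hb, map_mul]
    · rintro _ ⟨a, ha, rfl⟩
      rw [← map_pow, hH.2.2.1 a ha, map_one]
    · rw [Subgroup.card_map_of_injective (MulAut.conj g).injective]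
      exact hH.2.2.2
  have h1 := fam_card_modEq E (hG.to_subgroup E) c.Fam (fun H hH g _ => hinv H hH g)
  have h2 := fam_card_modEq (⊤ : Subgroup G) (hG.to_subgroup ⊤) c.Fam (fun H hH g _ => hinv H hH g)
  have hEfix : ∀ g ∈ E, E.map (MulAut.conj g).toMonoidHom = E := by
    intro g hg
    ext x
    constructor
    · rintro ⟨y, hy, rfl⟩
      exact E.mul_mem (E.mul_mem hg hy) (E.inv_mem hg)
    · intro hx
      refine ⟨g⁻¹ * x * g, E.mul_mem (E.mul_mem (E.inv_mem hg) hx) hg, by simp [mul_assoc]⟩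
  have hfixE : Nat.card {H : c.Fam // ∀ g ∈ E, (H : Subgroup G).map (MulAut.conj g).toMonoidHom = H} = 1 := by
    rw [Nat.card_eq_one_iff_unique]
    refine ⟨⟨?_⟩, ⟨⟨⟨E, hE⟩, hEfix⟩⟩⟩
    rintro ⟨⟨F, hF⟩, hFf⟩ ⟨⟨F', hF'⟩, hFf'⟩
    have key : ∀ F : Subgroup G, F ∈ c.Fam → (∀ g ∈ E, F.map (MulAut.conj g).toMonoidHom = F) → F = E := by
      intro F hF hFf
      refine fix_eq hp2 hE hF ?_
      intro e he f hf
      have : e * f * e⁻¹ ∈ F.map (MulAut.conj e).toMonoidHom := ⟨f, hf, rfl⟩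
      rwa [hFf e he] at this
    have e1 := key F hF hFf
    have e2 := key F' hF' hFf'
    subst e1
    subst e2
    rfl
  rw [hfixE] at h1
  by_contra hno
  have hempty : Nat.card {H : c.Fam // ∀ g ∈ (⊤ : Subgroup G), (H : Subgroup G).map (MulAut.conj g).toMonoidHom = H} = 0 := by
    rw [Nat.card_eq_zero]
    left
    refine ⟨?_⟩
    rintro ⟨⟨H, hH⟩, hf⟩
    apply hno
    refine ⟨H, hH, ⟨?_⟩⟩
    intro n hn g
    have : g * n * g⁻¹ ∈ H.map (MulAut.conj g).toMonoidHom := ⟨n, hn, rfl⟩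
    rwa [hf g trivial] at this
  rw [hempty] at h2
  have h3 : (1 : ℕ) ≡ 0 [MOD p] := h1.symm.trans h2
  have h4 := (Nat.modEq_zero_iff_dvd).mp h3
  exact hpf.out.one_lt.ne' (Nat.dvd_one.mp h4)

end Cfg

/-- Odd `p`: a `p`-group containing an elementary abelian subgroup of order `p ^ 4` contains a
normal one. -/
theorem exists_normal_elementary_p4 (hp : p ≠ 2) (hG : IsPGroup p G) (E : Subgroup G)
    (hEc : ∀ a ∈ E, ∀ b ∈ E, a * b = b * a) (hEe : ∀ a ∈ E, a ^ p = 1) (hE4 : Nat.card E = p ^ 4) :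
    ∃ A : Subgroup G, A.Normal ∧ (∀ a ∈ A, ∀ b ∈ A, a * b = b * a) ∧ (∀ a ∈ A, a ^ p = 1) ∧
      Nat.card A = p ^ 4 := by
  classical
  have hpr : p.Prime := hpf.out
  haveI : Group.IsNilpotent G := hG.isNilpotent
  obtain ⟨W, hWn, hWc, hWe, hmax⟩ := Cfsg.Agent.H01.exists_max_normal_elementary (G := G) (p := p)
  have hWp : IsPGroup p W := hG.to_subgroup W
  obtain ⟨a, ha⟩ := IsPGroup.iff_card.mp hWp
  have hWab : IsMulCommutative W := Cfsg.Agent.H01.isMulCommutative_of_forall hWc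
  have hmem : ∀ x : G, (∀ y ∈ W, x * y = y * x) → x ^ p = 1 → x ∈ W := by
    intro x hx hxp
    refine Cfsg.Agent.H01.mem_of_max_normal_elementary hG hp W hWn hWc hWe hmax x ?_ hxp
    rw [Subgroup.mem_centralizer_iff]
    intro y hy
    exact (hx y hy).symm
  rcases lt_trichotomy a 3 with ha3 | ha3 | ha3
  · -- too small
    exfalso
    have hidx := Cfsg.Agent.H01.index_centralizer_le_choose hG a W hWn hWab ha
    set C := Subgroup.centralizer (W : Set G) with hC
    have hEC : E ⊓ C ≤ W := by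
      intro x hx
      exact Cfsg.Agent.H01.mem_of_max_normal_elementary hG hp W hWn hWc hWe hmax x
        (Subgroup.mem_inf.mp hx).2 (hEe x (Subgroup.mem_inf.mp hx).1)
    have hidxp : C.index ≤ p := by
      refine hidx.trans ?_
      calc p ^ a.choose 2 ≤ p ^ 1 := by
            apply Nat.pow_le_pow_right hpr.pos
            interval_cases a <;> simp
        _ = p := pow_one p
    have hrel : C.relIndex E ≤ p := by
      refine le_trans ?_ hidxp
      rw [← Subgroup.relIndex_top_right]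
      exact Subgroup.relIndex_le_of_le_right le_top (by
        rw [Subgroup.relIndex_top_right]; exact Subgroup.index_ne_zero_of_finite)
    have hcardE : Nat.card E = Nat.card (E ⊓ C : Subgroup G) * C.relIndex E := by
      rw [← Subgroup.inf_relIndex_left, ← Subgroup.relIndex_bot_left, ← Subgroup.relIndex_bot_left]
      exact (Subgroup.relIndex_mul_relIndex ⊥ (E ⊓ C) E bot_le inf_le_left).symm
    have h1 : Nat.card (E ⊓ C : Subgroup G) ≤ p ^ 2 := by
      calc Nat.card (E ⊓ C : Subgroup G) ≤ Nat.card W := Subgroup.card_le_of_le hEC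
        _ = p ^ a := ha
        _ ≤ p ^ 2 := Nat.pow_le_pow_right hpr.pos (by omega)
    have h2 : p ^ 4 ≤ p ^ 2 * p := by
      rw [← hE4, hcardE]
      exact Nat.mul_le_mul h1 hrel
    have h3 : p ^ 2 * p = p ^ 3 := by ring
    rw [h3] at h2
    have := Nat.pow_lt_pow_right hpr.one_lt (show 3 < 4 by norm_num)
    omega
  · -- the main case
    subst ha3
    obtain ⟨U, hUW, hUn, hU2⟩ := Cfsg.Agent.H18.exists_normal_le_card_eq (G := G) hWn hWab (d := p ^ 2)
      (by rw [ha]; exact pow_dvd_pow p (by norm_num))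
    have hex : ∃ w ∈ W, w ∉ U := by
      by_contra hcon
      push Not at hcon
      have : Nat.card W ≤ Nat.card U := Subgroup.card_le_of_le hcon
      rw [ha, hU2] at this
      have := Nat.pow_lt_pow_right hpr.one_lt (show 2 < 3 by norm_num)
      omega
    obtain ⟨w, hw, hwU⟩ := hex
    haveI := hUn
    -- quotient
    have hWbar : Nat.card (W.map (QuotientGroup.mk' U)) = p ^ 1 := by
      have h1 := Cfsg.Agent.H18.card_eq_map_mul_inf U W
      have h2 : W ⊓ U = U := inf_eq_right.mpr hUW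
      rw [h2, ha, hU2] at h1
      have h3 : p ^ 3 = p * p ^ 2 := by ring
      rw [h3] at h1
      have h4 := Nat.eq_of_mul_eq_mul_right (pow_pos hpr.pos 2) h1
      rw [pow_one]
      exact h4.symm
    have hWbarN : (W.map (QuotientGroup.mk' U)).Normal :=
      hWn.map _ (QuotientGroup.mk'_surjective U)
    have hQp : IsPGroup p (G ⧸ U) := hG.to_quotient U
    have hbarab : IsMulCommutative (W.map (QuotientGroup.mk' U)) := by
      apply Cfsg.Agent.H01.isMulCommutative_of_forall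
      rintro _ ⟨x, hx, rfl⟩ _ ⟨y, hy, rfl⟩
      rw [← map_mul, hWc x hx y hy, map_mul]
    have hcentop : Subgroup.centralizer ((W.map (QuotientGroup.mk' U) : Subgroup (G ⧸ U)) : Set (G ⧸ U)) = ⊤ := by
      have := Cfsg.Agent.H01.index_centralizer_le_choose hQp 1 _ hWbarN hbarab hWbar
      rw [show Nat.choose 1 2 = 0 from rfl, pow_zero] at this
      have h0 : (Subgroup.centralizer ((W.map (QuotientGroup.mk' U) : Subgroup (G ⧸ U)) : Set (G ⧸ U))).index ≠ 0 :=
        Subgroup.index_ne_zero_of_finite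
      apply Subgroup.index_eq_one.mp
      omega
    have hcw : ∀ g : G, g * w * g⁻¹ * w⁻¹ ∈ U := by
      intro g
      have h1 : (g : G ⧸ U) ∈ Subgroup.centralizer ((W.map (QuotientGroup.mk' U) : Subgroup (G ⧸ U)) : Set (G ⧸ U)) := by
        rw [hcentop]; trivial
      rw [Subgroup.mem_centralizer_iff] at h1
      have h2 := h1 (w : G ⧸ U) ⟨w, hw, rfl⟩
      rw [← QuotientGroup.eq_one_iff]
      have h3 : ((g * w * g⁻¹ * w⁻¹ : G) : G ⧸ U) = (g : G ⧸ U) * (w : G ⧸ U) * (g : G ⧸ U)⁻¹ * (w : G ⧸ U)⁻¹ := by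
        simp
      rw [h3, ← h2]
      group
    have hWgen : ∀ x ∈ W, ∃ u ∈ U, ∃ k : ℕ, x = u * w ^ k := by
      intro x hx
      have hne : (w : G ⧸ U) ≠ 1 := by
        rw [Ne, QuotientGroup.eq_one_iff]
        exact hwU
      have hpow : (w : G ⧸ U) ^ p = 1 := by
        rw [← QuotientGroup.mk_pow, hWe w hw]
        rfl
      have hord : orderOf (w : G ⧸ U) = p := orderOf_eq_prime hpow hne
      have hzp : Subgroup.zpowers (w : G ⧸ U) = W.map (QuotientGroup.mk' U) := by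
        apply Subgroup.eq_of_le_of_card_ge
        · rw [Subgroup.zpowers_le]
          exact ⟨w, hw, rfl⟩
        · rw [hWbar, Nat.card_zpowers, hord, pow_one]
      have hxmem : (x : G ⧸ U) ∈ Subgroup.zpowers (w : G ⧸ U) := by
        rw [hzp]
        exact ⟨x, hx, rfl⟩
      rw [← mem_powers_iff_mem_zpowers] at hxmem
      obtain ⟨k, hk⟩ := hxmem
      refine ⟨x * (w ^ k)⁻¹, ?_, k, by group⟩
      rw [← QuotientGroup.eq_one_iff]
      have h3 : ((x * (w ^ k)⁻¹ : G) : G ⧸ U) = (x : G ⧸ U) * ((w : G ⧸ U) ^ k)⁻¹ := by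
        simp
      have hk' : (w : G ⧸ U) ^ k = (x : G ⧸ U) := hk
      rw [h3, hk', mul_inv_cancel]
    let c : Cfg G p :=
      { W := W, U := U, w := w, hWn := hWn, hUn := hUn, hUW := hUW, hWc := hWc, hWe := hWe, hw := hw
        hwU := hwU, hU2 := hU2, hW3 := ha, hmax := hmem, hcw := hcw, hWgen := hWgen }
    -- `U ≤ E`
    have hUab : IsMulCommutative U := Cfsg.Agent.H01.isMulCommutative_of_forall
      (fun x hx y hy => hWc x (hUW hx) y (hUW hy))
    have hidx := Cfsg.Agent.H01.index_centralizer_le_choose hG 2 U hUn hUab hU2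
    set R := Subgroup.centralizer (U : Set G) with hR
    have hidxp : R.index ≤ p := by
      simpa using hidx
    have hrel : R.relIndex E ≤ p := by
      refine le_trans ?_ hidxp
      rw [← Subgroup.relIndex_top_right]
      exact Subgroup.relIndex_le_of_le_right le_top (by
        rw [Subgroup.relIndex_top_right]; exact Subgroup.index_ne_zero_of_finite)
    have hcardE : Nat.card E = Nat.card (E ⊓ R : Subgroup G) * R.relIndex E := by
      rw [← Subgroup.inf_relIndex_left, ← Subgroup.relIndex_bot_left, ← Subgroup.relIndex_bot_left]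
      exact (Subgroup.relIndex_mul_relIndex ⊥ (E ⊓ R) E bot_le inf_le_left).symm
    set E₁ := E ⊓ R with hE₁
    have hE₁card : p ^ 3 ≤ Nat.card E₁ := by
      by_contra hlt
      push Not at hlt
      have : Nat.card E₁ * R.relIndex E < p ^ 3 * p := by
        calc Nat.card E₁ * R.relIndex E ≤ Nat.card E₁ * p := Nat.mul_le_mul_left _ hrel
          _ < p ^ 3 * p := Nat.mul_lt_mul_of_pos_right hlt hpr.pos
      rw [← hcardE, hE4] at this
      have h3 : p ^ 3 * p = p ^ 4 := by ring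
      omega
    have hE₁U : ∀ x ∈ E₁, ∀ u ∈ U, x * u = u * x := by
      intro x hx u hu
      have := (Subgroup.mem_centralizer_iff.mp (Subgroup.mem_inf.mp hx).2) u hu
      exact this.symm
    -- `E ∩ W ≤ U`
    have hEW : ∀ x ∈ E, x ∈ W → x ∈ U := by
      intro x hxE hxW
      by_contra hxU
      obtain ⟨u0, hu0, k, rfl⟩ := hWgen x hxW
      have hk : ¬ p ∣ k := by
        rintro ⟨t, rfl⟩
        apply hxU
        rw [pow_mul, hWe _ hw, one_pow, mul_one]
        exact hu0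
      obtain ⟨l, hl⟩ := Cfg.pow_inv_of_not_dvd (hWe _ hw) hk
      have hE₁W : E₁ ≤ W := by
        intro f hf
        have hfE : f ∈ E := (Subgroup.mem_inf.mp hf).1
        apply c.mem_W (hE₁U f hf) _ (hEe f hfE)
        have h1 : f * (u0 * w ^ k) = (u0 * w ^ k) * f := hEc f hfE _ hxE
        have h2 : f * u0 = u0 * f := hE₁U f hf u0 hu0
        have h3 : f * w ^ k = w ^ k * f := by
          have : u0 * (f * w ^ k) = u0 * (w ^ k * f) := by
            calc u0 * (f * w ^ k) = (u0 * f) * w ^ k := by group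
              _ = (f * u0) * w ^ k := by rw [h2]
              _ = f * (u0 * w ^ k) := by group
              _ = (u0 * w ^ k) * f := h1
              _ = u0 * (w ^ k * f) := by group
          exact mul_left_cancel this
        have h4 : f * w = w * f := by
          have : Commute f (w ^ k) := h3
          have h5 := this.pow_right l
          rw [hl] at h5
          exact h5
        show f * w * f⁻¹ * w⁻¹ = 1
        rw [h4]; group
      have hE₁eq : E₁ = W := Subgroup.eq_of_le_of_card_ge hE₁W (by rw [ha]; exact hE₁card)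
      have hWE : W ≤ E := by rw [← hE₁eq]; exact inf_le_left
      have hEleW : E ≤ W := fun e he => hmem e (fun y hy => hEc e he y (hWE hy)) (hEe e he)
      have : Nat.card E ≤ Nat.card W := Subgroup.card_le_of_le hEleW
      rw [hE4, ha] at this
      have := Nat.pow_lt_pow_right hpr.one_lt (show 3 < 4 by norm_num)
      omega
    have hUE : U ≤ E := by
      by_contra hUE
      -- `E ⊓ U` small
      have hV : Nat.card (E ⊓ U : Subgroup G) ≤ p := by
        have hdvd : Nat.card (E ⊓ U : Subgroup G) ∣ p ^ 2 := by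
          rw [← hU2]; exact Subgroup.card_dvd_of_le inf_le_right
        obtain ⟨j, hj, hjc⟩ := (Nat.dvd_prime_pow hpr).mp hdvd
        have hj2 : j ≠ 2 := by
          rintro rfl
          have : E ⊓ U = U := Subgroup.eq_of_le_of_card_ge inf_le_right (by rw [hU2, hjc])
          apply hUE
          rw [← this]; exact inf_le_left
        have hj1 : j ≤ 1 := by omega
        rw [hjc]
        calc p ^ j ≤ p ^ 1 := Nat.pow_le_pow_right hpr.pos hj1
          _ = p := pow_one p
      let ψ : E₁ →* U := MonoidHom.mk' (fun x => ⟨c.cw x, c.cw_mem x⟩) (by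
        intro a b
        apply Subtype.ext
        exact c.cw_mul (hE₁U a a.2))
      have h1 := Subgroup.card_mul_index ψ.ker
      rw [Subgroup.index_ker] at h1
      have hker : Nat.card ψ.ker ≤ Nat.card (E ⊓ U : Subgroup G) := by
        have hkmem : ∀ x : ψ.ker, (x.1 : G) ∈ E ⊓ U := by
          intro x
          have hx : ψ x.1 = 1 := x.2
          have hxE₁ : (x.1 : G) ∈ E₁ := x.1.2
          have hxE : (x.1 : G) ∈ E := (Subgroup.mem_inf.mp hxE₁).1
          have hxW : (x.1 : G) ∈ W := c.mem_W (hE₁U _ hxE₁) (congrArg Subtype.val hx) (hEe _ hxE)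
          exact Subgroup.mem_inf.mpr ⟨hxE, hEW _ hxE hxW⟩
        have hinj : Function.Injective (fun x : ψ.ker => (⟨(x.1 : G), hkmem x⟩ : (E ⊓ U : Subgroup G))) := by
          intro a b h
          apply Subtype.ext
          apply Subtype.ext
          exact congrArg (fun z : (E ⊓ U : Subgroup G) => (z : G)) h
        exact Nat.card_le_card_of_injective _ hinj
      have hrange : Nat.card ψ.range ≤ p ^ 2 := by
        rw [← hU2]; exact Subgroup.card_le_card_group _
      have hrange2 : p ^ 2 ≤ Nat.card ψ.range := by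
        by_contra hlt
        push Not at hlt
        have : Nat.card ψ.ker * Nat.card ψ.range < p * p ^ 2 := by
          calc Nat.card ψ.ker * Nat.card ψ.range ≤ p * Nat.card ψ.range :=
                Nat.mul_le_mul_right _ (hker.trans hV)
            _ < p * p ^ 2 := Nat.mul_lt_mul_of_pos_left hlt hpr.pos
        rw [h1] at this
        have h3 : p * p ^ 2 = p ^ 3 := by ring
        omega
      have htop : ψ.range = ⊤ := by
        apply Subgroup.eq_top_of_card_eq
        rw [hU2]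
        omega
      -- `E` centralises `U`
      have hER : E ≤ R := by
        intro e he
        rw [hR, Subgroup.mem_centralizer_iff]
        intro u hu
        obtain ⟨e₁, he₁⟩ : (⟨u, hu⟩ : U) ∈ ψ.range := by rw [htop]; trivial
        have hu' : c.cw (e₁ : G) = u := congrArg Subtype.val he₁
        have he₁E : (e₁ : G) ∈ E := (Subgroup.mem_inf.mp e₁.2).1
        have hcomm : e * (e₁ : G) = (e₁ : G) * e := hEc e he _ he₁E
        set a' := c.cw e with ha'
        have ha'U : a' ∈ U := c.cw_mem e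
        have hew : e * w * e⁻¹ = a' * w := by
          simp only [ha', Cfg.cw]
          show _ = e * w * e⁻¹ * w⁻¹ * w
          group
        have hea : (e₁ : G) * a' = a' * (e₁ : G) := hE₁U _ e₁.2 a' ha'U
        have h5 : e * c.cw (e₁ : G) * e⁻¹ = c.cw (e₁ : G) := by
          have h6 : e * ((e₁ : G) * w * (e₁ : G)⁻¹ * w⁻¹) * e⁻¹ =
              (e₁ : G) * (e * w * e⁻¹) * (e₁ : G)⁻¹ * (e * w * e⁻¹)⁻¹ := by
            have : e * (e₁ : G)⁻¹ = (e₁ : G)⁻¹ * e := by
              calc e * (e₁ : G)⁻¹ = (e₁ : G)⁻¹ * ((e₁ : G) * e) * (e₁ : G)⁻¹ := by group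
                _ = (e₁ : G)⁻¹ * (e * (e₁ : G)) * (e₁ : G)⁻¹ := by rw [hcomm]
                _ = (e₁ : G)⁻¹ * e := by group
            calc e * ((e₁ : G) * w * (e₁ : G)⁻¹ * w⁻¹) * e⁻¹
                = (e * (e₁ : G)) * w * (e₁ : G)⁻¹ * w⁻¹ * e⁻¹ := by group
              _ = (e₁ : G) * e * w * (e₁ : G)⁻¹ * w⁻¹ * e⁻¹ := by rw [hcomm]
              _ = (e₁ : G) * e * w * (e⁻¹ * (e * (e₁ : G)⁻¹)) * w⁻¹ * e⁻¹ := by group
              _ = (e₁ : G) * e * w * (e⁻¹ * ((e₁ : G)⁻¹ * e)) * w⁻¹ * e⁻¹ := by rw [this]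
              _ = _ := by group
          show e * ((e₁ : G) * w * (e₁ : G)⁻¹ * w⁻¹) * e⁻¹ = _
          rw [h6, hew]
          have h7 : (e₁ : G) * (a' * w) * (e₁ : G)⁻¹ * (a' * w)⁻¹ =
              a' * c.cw (e₁ : G) * a'⁻¹ := by
            simp only [Cfg.cw]
            show _ = a' * ((e₁ : G) * w * (e₁ : G)⁻¹ * w⁻¹) * a'⁻¹
            calc (e₁ : G) * (a' * w) * (e₁ : G)⁻¹ * (a' * w)⁻¹
                = ((e₁ : G) * a') * w * (e₁ : G)⁻¹ * w⁻¹ * a'⁻¹ := by group
              _ = (a' * (e₁ : G)) * w * (e₁ : G)⁻¹ * w⁻¹ * a'⁻¹ := by rw [hea]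
              _ = _ := by group
          rw [h7]
          have hcu := c.U_comm ha'U (c.cw_mem (e₁ : G))
          rw [hcu]
          group
        rw [hu'] at h5
        have := mul_inv_eq_iff_eq_mul.mp h5
        exact this.symm
      have hE₁E : E₁ = E := inf_eq_left.mpr hER
      have hrel1 : Nat.card E₁ * Nat.card ψ.range = 0 ∨ True := Or.inr trivial
      have h8 : Nat.card ψ.ker * Nat.card ψ.range ≤ p * p ^ 2 :=
        Nat.mul_le_mul (hker.trans hV) hrange
      rw [h1, hE₁E, hE4] at h8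
      have h3 : p * p ^ 2 = p ^ 3 := by ring
      have := Nat.pow_lt_pow_right hpr.one_lt (show 3 < 4 by norm_num)
      omega
    have hEF : E ∈ c.Fam := ⟨hUE, hEc, hEe, hE4⟩
    obtain ⟨A, hA, hAn⟩ := Cfg.exists_normal_of_fam hG hp hEF
    exact ⟨A, hAn, hA.2.1, hA.2.2.1, hA.2.2.2⟩
  · -- `W` large
    obtain ⟨D, hDW, hDn, hDc⟩ := Cfsg.Agent.H18.exists_normal_le_card_eq (G := G) hWn hWab (d := p ^ 4)
      (by rw [ha]; exact pow_dvd_pow p (by omega))
    exact ⟨D, hDn, fun x hx y hy => hWc x (hDW hx) y (hDW hy), fun x hx => hWe x (hDW hx), hDc⟩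

end main

end Cfsg.Agent.H18
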