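import Mathlib
import Cfsg.Agent.Lib.H06.Nilp
import Cfsg.Agent.Lib.H06.OddPGroup
import Cfsg.Agent.Lib.H18.Syl

/-! Normal subgroups of `p`-groups of prescribed order inside a normal subgroup, small `p`-groups. -/

namespace Cfsg.Agent.H18

variable {G : Type*} [Group G]

/-- A normal subgroup of a finite `p`-group contains normal subgroups of each order dividing
its order. -/
theorem exists_normal_le_card_pow [Finite G] {p : ℕ} [Fact p.Prime] (hG : IsPGroup p G)
    {A : Subgroup G} (hA : A.Normal) {k : ℕ} (hk : p ^ k ∣ Nat.card A) :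
    ∃ D : Subgroup G, D ≤ A ∧ D.Normal ∧ Nat.card D = p ^ k := by
  classical
  have hp : p.Prime := Fact.out
  induction k with
  | zero => exact ⟨⊥, bot_le, inferInstance, by simp⟩
  | succ k ih =>
    obtain ⟨D, hDA, hDn, hDc⟩ := ih ((pow_dvd_pow p (Nat.le_succ k)).trans hk)
    haveI := hDn
    set π := QuotientGroup.mk' D with hπ
    have hker : π.ker = D := QuotientGroup.ker_mk' D
    have hAbar : Nat.card A = Nat.card D * Nat.card (A.map π) := by
      have h0 := Subgroup.card_mul_index (π.comp A.subtype).ker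
      rw [Subgroup.index_ker, MonoidHom.range_comp, Subgroup.range_subtype, ← MonoidHom.comap_ker, hker] at h0
      have h1 : Nat.card (D.comap A.subtype) = Nat.card D := by
        have := card_subgroupOf D A
        rw [inf_eq_left.2 hDA] at this
        exact this
      rw [h1] at h0
      exact h0.symm
    have hpA : p ∣ Nat.card (A.map π) := by
      have h1 : p ^ k * p ∣ p ^ k * Nat.card (A.map π) := by
        rw [hDc] at hAbar
        rw [← hAbar, ← pow_succ]; exact hk
      exact Nat.dvd_of_mul_dvd_mul_left (pow_pos hp.pos k) h1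
    have hAbarn : (A.map π).Normal := hA.map _ (QuotientGroup.mk'_surjective D)
    have hQ : IsPGroup p (G ⧸ D) := hG.to_quotient D
    haveI : Group.IsNilpotent (G ⧸ D) := hQ.isNilpotent
    have hne : A.map π ≠ ⊥ := by
      intro h
      rw [h] at hpA
      simp at hpA
      exact hp.one_lt.ne' hpA
    obtain ⟨y₀, hy₀A, hy₀1, hy₀c⟩ := H06.exists_central_of_normal hAbarn hne
    -- a power of order p
    obtain ⟨s, hs⟩ := IsPGroup.iff_orderOf.mp hQ y₀
    have hs0 : s ≠ 0 := by
      rintro rfl
      rw [pow_zero, orderOf_eq_one_iff] at hs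
      exact hy₀1 hs
    obtain ⟨s', rfl⟩ := Nat.exists_eq_succ_of_ne_zero hs0
    set y := y₀ ^ p ^ s' with hy
    have hyord : orderOf y = p := by
      rw [hy, orderOf_pow_of_dvd (pow_ne_zero _ hp.ne_zero), hs, Nat.succ_eq_add_one, pow_succ]
      · exact Nat.mul_div_cancel_left _ (pow_pos hp.pos _)
      · rw [hs]; exact pow_dvd_pow _ (Nat.le_succ _)
    have hyA : y ∈ A.map π := Subgroup.pow_mem _ hy₀A _
    have hyc : y ∈ Subgroup.center (G ⧸ D) := Subgroup.pow_mem _ hy₀c _
    set Z := Subgroup.zpowers y with hZ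
    have hZcard : Nat.card Z = p := by rw [hZ, Nat.card_zpowers, hyord]
    have hZn : Z.Normal := by
      constructor
      intro w hw g
      obtain ⟨i, rfl⟩ := Subgroup.mem_zpowers_iff.1 hw
      have h1 : Commute g y := ((Subgroup.mem_center_iff.1 hyc) g)
      rw [(h1.zpow_right i).eq]
      simpa using hw
    have hZA : Z ≤ A.map π := by
      rw [hZ, Subgroup.zpowers_le]; exact hyA
    set D' := Z.comap π with hD'
    have hD'n : D'.Normal := hZn.comap _
    have hD'A : D' ≤ A := by
      intro x hx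
      obtain ⟨a, ha, e'⟩ := hZA hx
      have h1 : a⁻¹ * x ∈ D := by
        rw [← QuotientGroup.eq_one_iff]
        have : ((a⁻¹ * x : G) : G ⧸ D) = (π a)⁻¹ * π x := rfl
        rw [this, e']
        simp
      have := A.mul_mem ha (hDA h1)
      simpa using this
    have hD'card : Nat.card D' = Nat.card D * p := by
      have h1 := Subgroup.card_mul_index D'
      have h2 := Subgroup.card_mul_index Z
      have h3 : D'.index = Z.index := Subgroup.index_comap_of_surjective Z (QuotientGroup.mk'_surjective D)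
      have h4 := Subgroup.card_eq_card_quotient_mul_card_subgroup D
      rw [← h2, hZcard, ← h3] at h4
      have h5 : 0 < D'.index := Nat.pos_of_ne_zero Subgroup.index_ne_zero_of_finite
      apply Nat.eq_of_mul_eq_mul_right h5
      rw [h1, h4]
      ring
    exact ⟨D', hD'A, hD'n, by rw [hD'card, hDc, pow_succ]⟩

/-- A group of order at most `p²` that is a `p`-group is abelian. -/
theorem comm_of_card_le_sq [Finite G] {p : ℕ} [Fact p.Prime] (hG : IsPGroup p G)
    (h : Nat.card G ≤ p ^ 2) (a b : G) : a * b = b * a := by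
  have hp : p.Prime := Fact.out
  obtain ⟨k, hk⟩ := IsPGroup.iff_card.mp hG
  have hk2 : k ≤ 2 := by
    rw [hk] at h
    exact (Nat.pow_le_pow_iff_right hp.one_lt).mp h
  interval_cases k
  · rw [pow_zero, Nat.card_eq_one_iff_unique] at hk
    haveI := hk.1
    exact Subsingleton.elim _ _
  · rw [pow_one] at hk
    haveI := isCyclic_of_prime_card hk
    exact (isMulCommutative_iff.mp IsCyclic.isMulCommutative) a b
  · exact (isMulCommutative_iff.mp (IsPGroup.isMulCommutative_of_card_eq_prime_sq hk)) a b

/-- In a group of order at most `p³`, `p` odd, the elements of order dividing `p` form a subgroup. -/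
theorem mul_pow_prime_of_card_le_cube [Finite G] {p : ℕ} [Fact p.Prime] (hp2 : p ≠ 2)
    (hG : IsPGroup p G) (h : Nat.card G ≤ p ^ 3) {x y : G} (hx : x ^ p = 1) (hy : y ^ p = 1) :
    (x * y) ^ p = 1 := by
  classical
  have hp : p.Prime := Fact.out
  by_cases htriv : Subsingleton G
  · rw [Subsingleton.elim (x * y) 1, one_pow]
  rw [not_subsingleton_iff_nontrivial] at htriv
  haveI : Group.IsNilpotent G := hG.isNilpotent
  obtain ⟨z₀, -, hz₀1, hz₀c⟩ := H06.exists_central_of_normal (N := (⊤ : Subgroup G)) inferInstance top_ne_bot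
  -- central subgroup
  set Z := Subgroup.zpowers z₀ with hZ
  have hZc : Z ≤ Subgroup.center G := by
    rw [hZ, Subgroup.zpowers_le]; exact hz₀c
  haveI hZn : Z.Normal := by
    constructor
    intro w hw g
    have := (Subgroup.mem_center_iff.1 (hZc hw)) g
    rw [this]
    simpa using hw
  have hcardZ : p ≤ Nat.card Z := by
    have h1 : Nat.card Z ≠ 1 := by
      intro h1
      rw [Subgroup.card_eq_one] at h1
      have : z₀ ∈ Z := Subgroup.mem_zpowers z₀
      rw [h1, Subgroup.mem_bot] at this
      exact hz₀1 this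
    have hpg : IsPGroup p Z := hG.to_subgroup Z
    obtain ⟨k, hk⟩ := IsPGroup.iff_card.mp hpg
    rw [hk] at h1 ⊢
    have hk0 : k ≠ 0 := by rintro rfl; exact h1 (pow_zero p)
    exact Nat.le_self_pow hk0 p
  have hQcard : Nat.card (G ⧸ Z) ≤ p ^ 2 := by
    have h1 := Subgroup.card_eq_card_quotient_mul_card_subgroup Z
    have h2 : Nat.card (G ⧸ Z) * p ≤ p ^ 2 * p := by
      rw [← pow_succ]
      calc Nat.card (G ⧸ Z) * p ≤ Nat.card (G ⧸ Z) * Nat.card Z := Nat.mul_le_mul_left _ hcardZ
        _ = Nat.card G := h1.symm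
        _ ≤ p ^ 3 := h
    exact Nat.le_of_mul_le_mul_right h2 hp.pos
  have hcomm : ∀ a b : G, a * b * a⁻¹ * b⁻¹ ∈ Z := by
    intro a b
    have h1 := comm_of_card_le_sq (hG.to_quotient Z) hQcard (a : G ⧸ Z) (b : G ⧸ Z)
    rw [← QuotientGroup.mk_mul, ← QuotientGroup.mk_mul, QuotientGroup.eq] at h1
    have h2 := hZn.conj_mem _ h1 (a * b)
    have h3 : (a * b) * ((a * b)⁻¹ * (b * a)) * (a * b)⁻¹ = (a * b * a⁻¹ * b⁻¹)⁻¹ := by group
    rw [h3] at h2
    simpa using Z.inv_mem h2
  set c := y * x * y⁻¹ * x⁻¹ with hc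
  have hcz : c ∈ Subgroup.center G := hZc (hcomm y x)
  have hcx : c * x = x * c := ((Subgroup.mem_center_iff.1 hcz) x).symm
  have hcy : c * y = y * c := ((Subgroup.mem_center_iff.1 hcz) y).symm
  have := H06.mul_pow_prime_of_class_two hp hp2 hc hcx hcy (by rw [hy]; simp)
  rw [this, hx, hy, one_mul]

end Cfsg.Agent.H18
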