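import Mathlib
import Cfsg.Agent.Lib.H18.KP2
import Cfsg.Agent.Lib.H18.KP

/-!
Groups whose conjugacy class sizes are not divisible by `p²`: basic lemmas.
-/

set_option autoImplicit false
set_option linter.unusedSectionVars false
set_option linter.style.haveILetI false

namespace Cfsg.Agent.H18

open Subgroup

section basic

variable {G : Type*} [Group G]

theorem relIndex_dvd_index_of_normal' [Finite G] (H N : Subgroup G) [N.Normal] :
    H.relIndex N ∣ H.index := by
  have h1 : (H ⊓ N).index ∣ H.index * N.index := index_inf_dvd H N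
  have h2 : (H ⊓ N).relIndex N * N.index = (H ⊓ N).index := relIndex_mul_index inf_le_right
  have h3 : (H ⊓ N).relIndex N = H.relIndex N := inf_relIndex_right H N
  rw [← h2, h3] at h1
  exact Nat.dvd_of_mul_dvd_mul_right (Nat.pos_of_ne_zero index_ne_zero_of_finite) h1

theorem centralizer_index_dvd_of_surjective {H : Type*} [Group H] [Finite G] (f : G →* H)
    (hf : Function.Surjective f) (x : G) :
    (centralizer ({f x} : Set H)).index ∣ (centralizer ({x} : Set G)).index := by
  have hle : centralizer ({x} : Set G) ≤ (centralizer ({f x} : Set H)).comap f := by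
    intro y hy
    rw [mem_comap, mem_centralizer_singleton_iff]
    rw [mem_centralizer_singleton_iff] at hy
    rw [← map_mul, hy, map_mul]
  rw [← index_comap_of_surjective _ hf]
  exact index_dvd_of_le hle

theorem centralizer_subtype_eq (H : Subgroup G) (z : H) :
    centralizer ({z} : Set H) = (centralizer ({(z : G)} : Set G)).subgroupOf H := by
  ext y
  rw [mem_subgroupOf, mem_centralizer_singleton_iff, mem_centralizer_singleton_iff]
  constructor
  · intro h
    exact congrArg Subtype.val h
  · intro h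
    exact Subtype.ext h

theorem centralizer_index_subtype (H : Subgroup G) (z : H) :
    (centralizer ({z} : Set H)).index = (centralizer ({(z : G)} : Set G)).relIndex H := by
  rw [centralizer_subtype_eq]
  rfl

/-- Commuting elements of coprime orders are powers of their product. -/
theorem mem_zpowers_of_commute_coprime {a b : G} (hc : Commute a b)
    (hco : (orderOf a).Coprime (orderOf b)) : a ∈ zpowers (a * b) ∧ b ∈ zpowers (a * b) := by
  constructor
  · let c := Nat.chineseRemainder hco 1 0
    have h1 : (c : ℕ) ≡ 1 [MOD orderOf a] := c.2.1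
    have h2 : (c : ℕ) ≡ 0 [MOD orderOf b] := c.2.2
    refine ⟨((c : ℕ) : ℤ), ?_⟩
    show (a * b) ^ ((c : ℕ) : ℤ) = a
    rw [zpow_natCast, hc.mul_pow]
    have h3 : a ^ (c : ℕ) = a := by
      have := (pow_eq_pow_iff_modEq (x := a)).2 h1
      rwa [pow_one] at this
    have h4 : b ^ (c : ℕ) = 1 := by
      have := (pow_eq_pow_iff_modEq (x := b)).2 h2
      rwa [pow_zero] at this
    rw [h3, h4, mul_one]
  · let c := Nat.chineseRemainder hco 0 1
    have h1 : (c : ℕ) ≡ 0 [MOD orderOf a] := c.2.1
    have h2 : (c : ℕ) ≡ 1 [MOD orderOf b] := c.2.2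
    refine ⟨((c : ℕ) : ℤ), ?_⟩
    show (a * b) ^ ((c : ℕ) : ℤ) = b
    rw [zpow_natCast, hc.mul_pow]
    have h3 : a ^ (c : ℕ) = 1 := by
      have := (pow_eq_pow_iff_modEq (x := a)).2 h1
      rwa [pow_zero] at this
    have h4 : b ^ (c : ℕ) = b := by
      have := (pow_eq_pow_iff_modEq (x := b)).2 h2
      rwa [pow_one] at this
    rw [h3, h4, one_mul]

theorem centralizer_mul_le_of_coprime {a b : G} (hc : Commute a b)
    (hco : (orderOf a).Coprime (orderOf b)) :
    centralizer ({a * b} : Set G) ≤ centralizer ({a} : Set G) ⊓ centralizer ({b} : Set G) := by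
  intro g hg
  rw [mem_centralizer_singleton_iff] at hg
  have hcomm : Commute g (a * b) := hg
  obtain ⟨h1, h2⟩ := mem_zpowers_of_commute_coprime hc hco
  obtain ⟨k, hk⟩ := h1
  obtain ⟨l, hl⟩ := h2
  refine Subgroup.mem_inf.2 ⟨?_, ?_⟩
  · rw [mem_centralizer_singleton_iff]
    have : Commute g a := by
      rw [← hk]
      exact hcomm.zpow_right k
    exact this
  · rw [mem_centralizer_singleton_iff]
    have : Commute g b := by
      rw [← hl]
      exact hcomm.zpow_right l
    exact this

end basic

section finite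

variable {G : Type*} [Group G] [Finite G]

/-- A proper subgroup does not meet every conjugacy class. -/
theorem exists_not_conj (H : Subgroup G) (hH : H ≠ ⊤) : ∃ x : G, ∀ g : G, g * x * g⁻¹ ∉ H := by
  classical
  by_contra hcon
  push Not at hcon
  have := Fintype.ofFinite G
  have := Fintype.ofFinite (G ⧸ H)
  have hB := MulAction.sum_card_fixedBy_eq_card_orbits_mul_card_group G (G ⧸ H)
  have hO : Fintype.card (MulAction.orbitRel.Quotient G (G ⧸ H)) = 1 := by
    have : Subsingleton (MulAction.orbitRel.Quotient G (G ⧸ H)) :=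
      (MulAction.pretransitive_iff_subsingleton_quotient G (G ⧸ H)).mp inferInstance
    rw [Fintype.card_eq_one_iff]
    exact ⟨Quotient.mk'' ((1 : G) : G ⧸ H), fun y => Subsingleton.elim _ _⟩
  rw [hO, one_mul] at hB
  have hpos : ∀ g : G, 1 ≤ Fintype.card (MulAction.fixedBy (G ⧸ H) g) := by
    intro g
    obtain ⟨h, hh⟩ := hcon g
    refine Nat.succ_le_of_lt (Fintype.card_pos_iff.2 ⟨⟨((h⁻¹ : G) : G ⧸ H), ?_⟩⟩)
    rw [MulAction.mem_fixedBy]
    show ((g * h⁻¹ : G) : G ⧸ H) = _
    rw [QuotientGroup.eq]
    have : (g * h⁻¹)⁻¹ * h⁻¹ = (h * g * h⁻¹)⁻¹ := by group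
    rw [this]
    exact H.inv_mem hh
  have hone : 1 < Fintype.card (MulAction.fixedBy (G ⧸ H) (1 : G)) := by
    have h1 : Fintype.card (MulAction.fixedBy (G ⧸ H) (1 : G)) = H.index := by
      rw [Subgroup.index, Nat.card_eq_fintype_card]
      refine Fintype.card_congr (Equiv.subtypeUnivEquiv (fun x => ?_))
      exact one_smul G x
    rw [h1]
    have h2 : H.index ≠ 0 := index_ne_zero_of_finite
    have h3 : H.index ≠ 1 := fun h => hH (index_eq_one.1 h)
    omega
  have hlt : ∑ _g : G, 1 < ∑ g : G, Fintype.card (MulAction.fixedBy (G ⧸ H) g) :=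
    Finset.sum_lt_sum (fun g _ => hpos g) ⟨1, Finset.mem_univ _, hone⟩
  rw [hB] at hlt
  simp at hlt

variable {p : ℕ} [Fact p.Prime]

/-- The Sylow subgroup is almost centralized by a conjugate. -/
theorem exists_conj_relIndex (P : Sylow p G) (x : G)
    (h : ¬ p ^ 2 ∣ (centralizer ({x} : Set G)).index) :
    ∃ g : G, (centralizer ({g * x * g⁻¹} : Set G)).relIndex P ∣ p := by
  classical
  have hp : p.Prime := Fact.out
  obtain ⟨T⟩ : Nonempty (Sylow p (centralizer ({x} : Set G))) := inferInstance
  set C := centralizer ({x} : Set G) with hC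
  let T' : Subgroup G := (T : Subgroup C).map C.subtype
  have hT' : IsPGroup p T' := T.isPGroup'.map _
  obtain ⟨Q, hQ⟩ := hT'.exists_le_sylow
  obtain ⟨g, hg⟩ := MulAction.exists_smul_eq G Q P
  refine ⟨g, ?_⟩
  have hPeq : (P : Subgroup G) = (Q : Subgroup G).map (MulAut.conj g).toMonoidHom := by
    rw [← hg]
    rfl
  let S : Subgroup G := T'.map (MulAut.conj g).toMonoidHom
  have hSP : S ≤ P := by
    rw [hPeq]
    exact map_mono hQ
  have hSC : S ≤ centralizer ({g * x * g⁻¹} : Set G) := by
    rintro _ ⟨_, ⟨t, ht, rfl⟩, rfl⟩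
    rw [mem_centralizer_singleton_iff]
    have h1 : (t : G) * x = x * t := (mem_centralizer_singleton_iff.1 t.2)
    show g * (t : G) * g⁻¹ * (g * x * g⁻¹) = g * x * g⁻¹ * (g * (t : G) * g⁻¹)
    calc g * (t : G) * g⁻¹ * (g * x * g⁻¹) = g * ((t : G) * x) * g⁻¹ := by group
      _ = g * (x * t) * g⁻¹ := by rw [h1]
      _ = _ := by group
  have hScard : Nat.card S = p ^ (Nat.card C).factorization p := by
    have h1 : Nat.card S = Nat.card T' :=
      Nat.card_congr ((T'.equivMapOfInjective _ (MulAut.conj g).injective).toEquiv.symm)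
    have h2 : Nat.card T' = Nat.card T :=
      Nat.card_congr (((T : Subgroup C).equivMapOfInjective _ C.subtype_injective).toEquiv.symm)
    rw [h1, h2]
    exact T.card_eq_multiplicity
  have hPcard : Nat.card P = p ^ (Nat.card G).factorization p := P.card_eq_multiplicity
  have hmul : Nat.card C * C.index = Nat.card G := C.card_mul_index
  have hfac : (Nat.card G).factorization p = (Nat.card C).factorization p + C.index.factorization p := by
    rw [← hmul, Nat.factorization_mul Nat.card_pos.ne' index_ne_zero_of_finite]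
    rfl
  have hidx : C.index.factorization p ≤ 1 := by
    by_contra hcon
    apply h
    exact (hp.pow_dvd_iff_le_factorization index_ne_zero_of_finite).2 (by omega)
  set R₀ := (centralizer ({g * x * g⁻¹} : Set G)).subgroupOf (P : Subgroup G) with hR₀
  have hrel : (centralizer ({g * x * g⁻¹} : Set G)).relIndex P = R₀.index := rfl
  rw [hrel]
  have h1 : Nat.card R₀ * R₀.index = Nat.card P := R₀.card_mul_index
  let S₀ : Subgroup (P : Subgroup G) := S.subgroupOf P
  have hS₀ : S₀ ≤ R₀ := by
    intro y hy
    exact hSC hy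
  have hS₀card : Nat.card S₀ = Nat.card S := Nat.card_congr (subgroupOfEquivOfLe hSP).toEquiv
  have h2 : Nat.card S₀ ∣ Nat.card R₀ := card_dvd_of_le hS₀
  obtain ⟨c, hc⟩ := h2
  rw [hc, hS₀card, hScard, hPcard, hfac, pow_add] at h1
  have h3 : c * R₀.index = p ^ C.index.factorization p := by
    have hpos : 0 < p ^ (Nat.card C).factorization p := pow_pos hp.pos _
    apply Nat.eq_of_mul_eq_mul_left hpos
    rw [← h1]
    ring
  have h4 : R₀.index ∣ p ^ C.index.factorization p := ⟨c, by rw [← h3]; ring⟩
  exact h4.trans (pow_dvd_pow p hidx |>.trans (by simp))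

end finite

end Cfsg.Agent.H18
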