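import Mathlib
import Cfsg.Agent.Lib.H18.Sq1
import Cfsg.Agent.Lib.H19.FrobCount

/-!
Groups whose class sizes are not divisible by `p²`, for `p` the smallest prime: counting.
-/

set_option autoImplicit false
set_option linter.unusedSectionVars false
set_option linter.style.haveILetI false

namespace Cfsg.Agent.H18

open Subgroup

section count

variable {G : Type*} [Group G] [Finite G] {p : ℕ} [Fact p.Prime]

/-- `p`-elements. -/
abbrev PElt (p : ℕ) (G : Type*) [Group G] := {t : G // ∃ k : ℕ, orderOf t = p ^ k}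

/-- The class of a `p`-element. -/
def clElt (t : PElt p G) : ClP p G :=
  ⟨ConjClasses.mk (t : G), fun y hy => by rw [order_of_mem_mk hy]; exact t.2⟩

theorem sum_card_centralizer_pelt :
    ∑ᶠ t : PElt p G, Nat.card (centralizer ({(t : G)} : Set G)) = Nat.card G * Nat.card (ClP p G) := by
  classical
  haveI := Fintype.ofFinite (ClP p G)
  haveI := Fintype.ofFinite (PElt p G)
  rw [finsum_eq_sum_of_fintype, ← Finset.sum_fiberwise Finset.univ clElt]
  have hc : ∀ c : ClP p G, ∑ t : PElt p G with clElt t = c,
      Nat.card (centralizer ({(t : G)} : Set G)) = Nat.card G := by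
    rintro ⟨c, hc⟩
    obtain ⟨g, rfl⟩ := ConjClasses.exists_rep c
    have h1 := H19.card_class_mul_card_centralizer g
    have hpos : 0 < (ConjClasses.mk g).carrier.ncard := by
      refine Nat.pos_of_ne_zero (fun h => ?_)
      rw [h, zero_mul] at h1
      exact Nat.card_pos.ne' h1.symm
    have h2 : ∀ t ∈ (Finset.univ.filter (fun t : PElt p G => clElt t = ⟨ConjClasses.mk g, hc⟩)),
        Nat.card (centralizer ({(t : G)} : Set G)) = Nat.card (centralizer ({g} : Set G)) := by
      intro t ht
      have h3 : ConjClasses.mk (t : G) = ConjClasses.mk g :=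
        congrArg Subtype.val (Finset.mem_filter.1 ht).2
      have h4 := H19.card_class_mul_card_centralizer (t : G)
      rw [h3, ← h1] at h4
      exact Nat.eq_of_mul_eq_mul_left hpos h4
    rw [Finset.sum_const_nat h2]
    have h5 : (Finset.univ.filter (fun t : PElt p G => clElt t = ⟨ConjClasses.mk g, hc⟩)).card =
        (ConjClasses.mk g).carrier.ncard := by
      have h6 : (ConjClasses.mk g).carrier =
          Subtype.val '' ((Finset.univ.filter
            (fun t : PElt p G => clElt t = ⟨ConjClasses.mk g, hc⟩) : Finset (PElt p G)) : Set (PElt p G)) := by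
        ext x
        constructor
        · intro hx
          refine ⟨⟨x, hc x hx⟩, ?_, rfl⟩
          simp only [Finset.coe_filter, Finset.mem_univ, true_and, Set.mem_ofPred_eq]
          exact Subtype.ext (ConjClasses.mem_carrier_iff_mk_eq.1 hx)
        · rintro ⟨t, ht, rfl⟩
          simp only [Finset.coe_filter, Finset.mem_univ, true_and, Set.mem_ofPred_eq] at ht
          exact ConjClasses.mem_carrier_iff_mk_eq.2 (congrArg Subtype.val ht)
      rw [h6, Set.ncard_image_of_injective _ Subtype.val_injective, Set.ncard_coe_finset]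
    rw [h5, h1]
  rw [Finset.sum_congr rfl (fun c _ => hc c), Finset.sum_const, Finset.card_univ, smul_eq_mul,
    Nat.card_eq_fintype_card (α := ClP p G), mul_comm]

theorem card_ClP_pos : 0 < Nat.card (ClP p G) := by
  haveI : Nonempty (ClP p G) := ⟨⟨ConjClasses.mk 1, fun y hy => by
    rw [order_of_mem_mk hy, orderOf_one]; exact ⟨0, by simp⟩⟩⟩
  exact Nat.card_pos

theorem count_main (P : Sylow p G) (K : G → Subgroup G)
    (hK1 : ∀ t : G, t ≠ 1 → (∃ k : ℕ, orderOf t = p ^ k) →
      Nat.card (K t) * Nat.card (P : Subgroup G) = Nat.card (centralizer ({t} : Set G)))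
    (hK2 : ∀ t : G, t ≠ 1 → (∃ k : ℕ, orderOf t = p ^ k) → ∀ w : G,
      w ∈ centralizer ({t} : Set G) → (orderOf w).Coprime p → w ∈ K t)
    (hcov : ∀ x : G, ∃ t : G, t ≠ 1 ∧ (∃ k : ℕ, orderOf t = p ^ k) ∧ x ∈ centralizer ({t} : Set G)) :
    Nat.card (P : Subgroup G) + 2 ≤ 2 * Nat.card (ClP p G) := by
  classical
  have hp : p.Prime := Fact.out
  haveI := Fintype.ofFinite G
  haveI := Fintype.ofFinite (PElt p G)
  let T : Finset (PElt p G) := Finset.univ.filter (fun t => (t : G) ≠ 1)
  let Ω : Finset (Σ _ : PElt p G, G) := T.sigma (fun t => Finset.univ.filter (fun w => w ∈ K t))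
  have hΩcard : Ω.card = ∑ t ∈ T, Nat.card (K t) := by
    rw [Finset.card_sigma]
    refine Finset.sum_congr rfl (fun t _ => ?_)
    rw [Nat.card_eq_fintype_card, Fintype.card_subtype]
  -- the bound on the group
  choose y w hxyw hc hy hw _ using exists_part (G := G) p hp
  have hSing : (Finset.univ.filter (fun x : G => y x ≠ 1)).card ≤ Ω.card := by
    refine Finset.card_le_card_of_injOn
      (fun x => if h : y x ≠ 1 ∧ True then ⟨⟨y x, hy x⟩, w x⟩ else ⟨⟨1, 0, by simp⟩, 1⟩) ?_ ?_
    · intro x hx
      have h1 : y x ≠ 1 := (Finset.mem_filter.1 hx).2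
      simp only [ne_eq, and_true, h1, not_false_eq_true, dite_eq_ite, if_true]
      refine Finset.mem_sigma.2 ⟨Finset.mem_filter.2 ⟨Finset.mem_univ _, h1⟩, ?_⟩
      refine Finset.mem_filter.2 ⟨Finset.mem_univ _, ?_⟩
      refine hK2 (y x) h1 (hy x) (w x) ?_ (hw x)
      rw [mem_centralizer_singleton_iff]
      exact (hc x).eq.symm
    · intro x hx x' hx' he
      have h1 : y x ≠ 1 := (Finset.mem_filter.1 (Finset.mem_coe.1 hx)).2
      have h2 : y x' ≠ 1 := (Finset.mem_filter.1 (Finset.mem_coe.1 hx')).2
      simp only [ne_eq, and_true, h1, h2, not_false_eq_true, dite_eq_ite, if_true] at he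
      obtain ⟨h3, h4⟩ := Sigma.mk.inj_iff.1 he
      have h3' : y x = y x' := congrArg Subtype.val h3
      have h4' : w x = w x' := eq_of_heq h4
      rw [hxyw x, hxyw x', h3', h4']
  have hReg : (Finset.univ.filter (fun x : G => ¬ y x ≠ 1)).card ≤ Ω.card := by
    choose t ht1 ht2 ht3 using hcov
    refine Finset.card_le_card_of_injOn (fun x => ⟨⟨t x, ht2 x⟩, x⟩) ?_ ?_
    · intro x hx
      have h1 : y x = 1 := not_not.1 (Finset.mem_filter.1 hx).2
      refine Finset.mem_sigma.2 ⟨Finset.mem_filter.2 ⟨Finset.mem_univ _, ht1 x⟩, ?_⟩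
      refine Finset.mem_filter.2 ⟨Finset.mem_univ _, ?_⟩
      refine hK2 (t x) (ht1 x) (ht2 x) x (ht3 x) ?_
      have h2 : x = w x := by
        conv_lhs => rw [hxyw x, h1, one_mul]
      have h3 := hw x
      rwa [← h2] at h3
    · intro x _ x' _ he
      obtain ⟨_, h4⟩ := Sigma.mk.inj_iff.1 he
      exact eq_of_heq h4
  have hG : Nat.card G ≤ 2 * Ω.card := by
    have := Finset.card_filter_add_card_filter_not (s := (Finset.univ : Finset G)) (fun x : G => y x ≠ 1)
    rw [Nat.card_eq_fintype_card, ← Finset.card_univ]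
    omega
  -- the sum
  have hsum : Ω.card * Nat.card (P : Subgroup G) + Nat.card G = Nat.card G * Nat.card (ClP p G) := by
    rw [← sum_card_centralizer_pelt (p := p) (G := G), finsum_eq_sum_of_fintype, hΩcard, Finset.sum_mul]
    have h1 : ∀ t ∈ T, Nat.card (K t) * Nat.card (P : Subgroup G) =
        Nat.card (centralizer ({(t : G)} : Set G)) := fun t ht =>
      hK1 t (Finset.mem_filter.1 ht).2 t.2
    rw [Finset.sum_congr rfl h1]
    let one : PElt p G := ⟨1, 0, by simp⟩
    have hT : T = Finset.univ.erase one := by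
      ext t
      simp only [T, one, Finset.mem_filter, Finset.mem_univ, true_and, Finset.mem_erase, and_true,
        ne_eq, Subtype.ext_iff]
    rw [hT, ← Finset.add_sum_erase Finset.univ _ (Finset.mem_univ one), add_comm]
    congr 1
    have h2 : centralizer ({((one : PElt p G) : G)} : Set G) = ⊤ := by
      ext g
      simp [one, mem_centralizer_singleton_iff]
    rw [h2]
    exact Nat.card_congr Subgroup.topEquiv.toEquiv |>.symm
  have hpos : 0 < Nat.card G := Nat.card_pos
  refine Nat.le_of_mul_le_mul_left ?_ hpos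
  calc Nat.card G * (Nat.card (P : Subgroup G) + 2)
      = Nat.card G * Nat.card (P : Subgroup G) + 2 * Nat.card G := by ring
    _ ≤ (2 * Ω.card) * Nat.card (P : Subgroup G) + 2 * Nat.card G := by
        gcongr
    _ = 2 * (Ω.card * Nat.card (P : Subgroup G) + Nat.card G) := by ring
    _ = Nat.card G * (2 * Nat.card (ClP p G)) := by rw [hsum]; ring

theorem class_bound (P : Sylow p G) {v : G}
    (hv : v ∈ normalizer ((P : Subgroup G) : Set G)) (hodd : Odd (orderOf v)) :
    3 * Nat.card (ClP p G) ≤ Nat.card (P : Subgroup G) +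
      2 * Nat.card ((centralizer ({v} : Set G)).subgroupOf (P : Subgroup G)) := by
  classical
  set R := (centralizer ({v} : Set G)).subgroupOf (P : Subgroup G) with hR
  haveI := Fintype.ofFinite (ClP p G)
  haveI := Fintype.ofFinite (P : Subgroup G)
  haveI := Fintype.ofFinite R
  simp only [Nat.card_eq_fintype_card]
  have h1 : Fintype.card (P : Subgroup G) =
      ∑ c : ClP p G, (Finset.univ.filter (fun x => clOf P x = c)).card := by
    rw [← Finset.card_univ]
    exact Finset.card_eq_sum_card_fiberwise (fun x _ => Finset.mem_coe.2 (Finset.mem_univ _))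
  have h2 : Fintype.card R =
      ∑ c : ClP p G, (Finset.univ.filter (fun x : R => clOf P x.1 = c)).card := by
    rw [← Finset.card_univ]
    exact Finset.card_eq_sum_card_fiberwise (fun x _ => Finset.mem_coe.2 (Finset.mem_univ _))
  rw [h1, h2, Finset.mul_sum, ← Finset.sum_add_distrib]
  have h3 : 3 * Fintype.card (ClP p G) = ∑ _c : ClP p G, 3 := by
    rw [Finset.sum_const, Finset.card_univ, smul_eq_mul, mul_comm]
  rw [h3]
  refine Finset.sum_le_sum (fun c _ => ?_)
  obtain ⟨x, rfl⟩ := clOf_surjective P c
  have hx0 : 0 < (Finset.univ.filter (fun z => clOf P z = clOf P x)).card :=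
    Finset.card_pos.2 ⟨x, by simp⟩
  by_cases hu : x ∈ R
  · have h6 : 0 < (Finset.univ.filter (fun z : R => clOf P z.1 = clOf P x)).card :=
      Finset.card_pos.2 ⟨⟨x, hu⟩, by simp⟩
    omega
  · by_cases hu2 : ∃ z : R, clOf P z.1 = clOf P x
    · obtain ⟨z, hz⟩ := hu2
      have h6 : 0 < (Finset.univ.filter (fun z : R => clOf P z.1 = clOf P x)).card :=
        Finset.card_pos.2 ⟨z, by simp [hz]⟩
      omega
    · -- three elements in the fibre
      have hxc : ¬ (x : G) * v = v * x := fun h => hu (mem_subgroupOf.2 (by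
        rw [mem_centralizer_singleton_iff]; exact h))
      have hmem : ∀ y : (P : Subgroup G), v * y * v⁻¹ ∈ (P : Subgroup G) := fun y =>
        (mem_normalizer_iff.1 hv _).1 y.2
      let a1 : (P : Subgroup G) := ⟨v * x * v⁻¹, hmem x⟩
      let a2 : (P : Subgroup G) := ⟨v * a1 * v⁻¹, hmem a1⟩
      have hcl1 : clOf P a1 = clOf P x := by
        rw [clOf_eq_iff]
        exact (isConj_iff.2 ⟨v, rfl⟩).symm
      have hcl2 : clOf P a2 = clOf P x := by
        rw [← hcl1, clOf_eq_iff]
        exact (isConj_iff.2 ⟨v, rfl⟩).symm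
      have hne1 : x ≠ a1 := by
        intro h
        apply hxc
        have h' : (x : G) = v * x * v⁻¹ := congrArg Subtype.val h
        calc (x : G) * v = v * x * v⁻¹ * v := by rw [← h']
          _ = v * x := by group
      have hne2 : a1 ≠ a2 := by
        intro h
        apply hne1
        have h' : v * (x : G) * v⁻¹ = v * (v * x * v⁻¹) * v⁻¹ := congrArg Subtype.val h
        apply Subtype.ext
        have h'' := mul_left_cancel (a := v) (mul_right_cancel (b := v⁻¹) h')
        exact h''
      have hne3 : x ≠ a2 := by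
        intro h
        apply hxc
        have h' : (x : G) = v * (v * x * v⁻¹) * v⁻¹ := congrArg Subtype.val h
        have hv2 : Commute (x : G) (v ^ 2) := by
          show (x : G) * v ^ 2 = v ^ 2 * x
          calc (x : G) * v ^ 2 = v * (v * x * v⁻¹) * v⁻¹ * v ^ 2 := by rw [← h']
            _ = v ^ 2 * x := by rw [pow_two]; group
        have hcop : Nat.Coprime 2 (orderOf v) := (Nat.coprime_two_left).2 hodd
        obtain ⟨k, hk⟩ := exists_pow_eq_self_of_coprime hcop
        have := hv2.pow_right k
        rw [hk] at this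
        exact this
      have h3lt : 2 < (Finset.univ.filter (fun z => clOf P z = clOf P x)).card :=
        Finset.two_lt_card.2 ⟨x, by simp, a1, by simp [hcl1], a2, by simp [hcl2], hne1, hne3, hne2⟩
      omega

/-- `[a,v]` fixed by `v` and of order prime to `v` must vanish. -/
theorem comm_fixed_eq_one {a v b : G} (h : v * a * v⁻¹ = b * a) (hb : b * v = v * b)
    (hco : (orderOf b).Coprime (orderOf v)) : b = 1 := by
  have h1 : ∀ k : ℕ, v ^ k * a * (v ^ k)⁻¹ = b ^ k * a := by
    intro k
    induction k with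
    | zero => simp
    | succ k ih =>
      have hbv : Commute b v := hb
      calc v ^ (k + 1) * a * (v ^ (k + 1))⁻¹ = v * (v ^ k * a * (v ^ k)⁻¹) * v⁻¹ := by
            rw [pow_succ']; group
        _ = v * (b ^ k * a) * v⁻¹ := by rw [ih]
        _ = b ^ k * (v * a * v⁻¹) := by
            have := (hbv.pow_left k).eq
            calc v * (b ^ k * a) * v⁻¹ = (v * b ^ k) * a * v⁻¹ := by group
              _ = (b ^ k * v) * a * v⁻¹ := by rw [this]
              _ = _ := by group
        _ = b ^ (k + 1) * a := by rw [h, pow_succ]; group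
  have h2 := h1 (orderOf v)
  rw [pow_orderOf_eq_one] at h2
  simp only [one_mul, inv_one, mul_one] at h2
  have h3 : b ^ orderOf v = 1 := by
    have : b ^ orderOf v * a = 1 * a := by rw [← h2, one_mul]
    exact mul_right_cancel this
  have h4 := orderOf_dvd_of_pow_eq_one h3
  have h5 : orderOf b = 1 := Nat.eq_one_of_dvd_coprimes hco dvd_rfl h4
  exact orderOf_eq_one_iff.1 h5

end count

end Cfsg.Agent.H18
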