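import Mathlib
import Cfsg.Agent.Lib.H18.Sq2

/-!
Groups whose class sizes are not divisible by `p²`, for `p` the smallest prime, with abelian
Sylow `p`-subgroups, have normal `p`-complements.
-/

set_option autoImplicit false
set_option linter.unusedSectionVars false
set_option linter.style.haveILetI false

universe u

namespace Cfsg.Agent.H18

open Subgroup Cfsg

section key

/-- The hypotheses of the key lemma. -/
structure HypH (p : ℕ) (G : Type*) [Group G] : Prop where
  small : ∀ r : ℕ, r.Prime → r ∣ Nat.card G → p ≤ r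
  comm : ∀ Q : Subgroup G, IsPGroup p Q → ∀ a ∈ Q, ∀ b ∈ Q, a * b = b * a
  idx : ∀ x : G, ¬ p ^ 2 ∣ (centralizer ({x} : Set G)).index

variable {p : ℕ} [Fact p.Prime]

theorem HypH.of_surjective {G G' : Type*} [Group G] [Finite G] [Group G'] [Finite G']
    (f : G →* G') (hf : Function.Surjective f) (h : HypH p G) : HypH p G' := by
  refine ⟨fun r hr hd => h.small r hr (hd.trans (card_dvd_of_surjective f hf)), ?_, ?_⟩
  · intro Q hQ a ha b hb
    obtain ⟨S, hS⟩ := hQ.exists_le_sylow
    obtain ⟨P, rfl⟩ := Sylow.mapSurjective_surjective hf p S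
    have hS' : Q ≤ (P : Subgroup G).map f := hS
    obtain ⟨a', ha', rfl⟩ := hS' ha
    obtain ⟨b', hb', rfl⟩ := hS' hb
    rw [← map_mul, ← map_mul, h.comm P P.isPGroup' a' ha' b' hb']
  · intro x hx
    obtain ⟨x', rfl⟩ := hf x
    exact h.idx x' (hx.trans (centralizer_index_dvd_of_surjective f hf x'))

theorem HypH.idx_centralizer {G : Type*} [Group G] [Finite G] (h : HypH p G) (t : G)
    (ht : ∃ k : ℕ, orderOf t = p ^ k) (z : G) (hzA : z ∈ Subgroup.centralizer ({t} : Set G))
    (hz : p ^ 2 ∣ (Subgroup.centralizer ({z} : Set G)).relIndex (Subgroup.centralizer ({t} : Set G))) :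
    False := by
  classical
  have hp : p.Prime := Fact.out
  set A := Subgroup.centralizer ({t} : Set G) with hA
  obtain ⟨y, w, hzyw, hcomm, hy, hw, -⟩ := exists_part p hp z
  obtain ⟨ky, hky⟩ := hy
  have hco : (orderOf y).Coprime (orderOf w) := by
    rw [hky]
    exact (Nat.Coprime.pow_right ky hw).symm
  obtain ⟨hyz, hwz⟩ := mem_zpowers_of_commute_coprime hcomm hco
  rw [← hzyw] at hyz hwz
  have hyA : y ∈ A := (zpowers_le.2 hzA) hyz
  have hwA : w ∈ A := (zpowers_le.2 hzA) hwz
  obtain ⟨kt, hkt⟩ := ht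
  have htw : Commute t w := (mem_centralizer_singleton_iff.1 hwA).symm
  have hcotw : (orderOf t).Coprime (orderOf w) := by
    rw [hkt]
    exact (Nat.Coprime.pow_right kt hw).symm
  have h1 := centralizer_mul_le_of_coprime htw hcotw
  set E := Subgroup.centralizer ({w} : Set G) ⊓ A with hE
  set D := Subgroup.centralizer (({z} : Set G)) ⊓ A with hD
  have hDE : D ≤ E := by
    intro g hg
    refine Subgroup.mem_inf.2 ⟨?_, hg.2⟩
    have hg1 := mem_centralizer_singleton_iff.1 hg.1
    obtain ⟨i, hi⟩ := hwz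
    rw [mem_centralizer_singleton_iff, ← hi]
    exact (Commute.zpow_right hg1 i)
  have hEA : E ≤ A := inf_le_right
  have h2 : D.relIndex E * E.relIndex A = D.relIndex A := relIndex_mul_relIndex D E A hDE hEA
  have h3 : D.relIndex A = (Subgroup.centralizer (({z} : Set G))).relIndex A :=
    inf_relIndex_right _ _
  have h4 : ¬ p ∣ D.relIndex E := by
    -- `y` lies in a Sylow subgroup of `E`, which centralizes it
    have hyE : y ∈ E := by
      refine Subgroup.mem_inf.2 ⟨?_, hyA⟩
      rw [mem_centralizer_singleton_iff]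
      exact hcomm.eq
    have hpg : IsPGroup p (zpowers (⟨y, hyE⟩ : E)) := by
      rw [IsPGroup.iff_card, Nat.card_zpowers, Subgroup.orderOf_mk]
      exact ⟨ky, hky⟩
    obtain ⟨Q, hQ⟩ := hpg.exists_le_sylow
    have hle : (Q : Subgroup E) ≤ D.subgroupOf E := by
      intro q hq
      have hq1 := h.comm (Q.1.map E.subtype) (Q.isPGroup'.map _) q ⟨q, hq, rfl⟩ y
        ⟨⟨y, hyE⟩, hQ (mem_zpowers _), rfl⟩
      have hqw : (q : G) * w = w * q := mem_centralizer_singleton_iff.1 q.2.1
      refine mem_subgroupOf.2 (Subgroup.mem_inf.2 ⟨?_, q.2.2⟩)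
      rw [mem_centralizer_singleton_iff, hzyw]
      calc (q : G) * (y * w) = (q * y) * w := by group
        _ = (y * q) * w := by rw [hq1]
        _ = y * (q * w) := by group
        _ = y * (w * q) := by rw [hqw]
        _ = y * w * q := by group
    have h5 : (D.subgroupOf E).index ∣ (Q : Subgroup E).index := index_dvd_of_le hle
    exact fun h6 => Q.not_dvd_index (h6.trans h5)
  have h5 : p ^ 2 ∣ E.relIndex A := by
    have hc : (p ^ 2).Coprime (D.relIndex E) :=
      Nat.Coprime.pow_left _ ((Nat.Prime.coprime_iff_not_dvd hp).2 h4)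
    rw [← h3, ← h2] at hz
    exact hc.dvd_of_dvd_mul_left hz
  apply h.idx (t * w)
  have h6 : Subgroup.centralizer ({t * w} : Set G) ≤ E := by
    intro g hg
    exact Subgroup.mem_inf.2 ⟨(h1 hg).2, (h1 hg).1⟩
  have h7 := relIndex_mul_relIndex _ E A h6 hEA
  have h8 := relIndex_mul_index (H := Subgroup.centralizer ({t * w} : Set G)) (K := A)
    (h6.trans hEA)
  rw [← h8, ← h7]
  exact Dvd.dvd.mul_right (Dvd.dvd.mul_left h5 _) _

theorem HypH.centralizer {G : Type*} [Group G] [Finite G] (h : HypH p G) (t : G)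
    (ht : ∃ k : ℕ, orderOf t = p ^ k) : HypH p (centralizer ({t} : Set G)) := by
  refine ⟨fun r hr hd => h.small r hr (hd.trans (card_subgroup_dvd_card _)), ?_, ?_⟩
  · intro Q hQ a ha b hb
    have := h.comm (Q.map (Subgroup.subtype _)) (hQ.map _) a ⟨a, ha, rfl⟩ b ⟨b, hb, rfl⟩
    exact Subtype.ext this
  · intro z hz
    rw [centralizer_index_subtype] at hz
    exact h.idx_centralizer t ht z z.2 hz

theorem HypH.exists_K {G : Type*} [Group G] [Finite G] (h : HypH p G) (t : G)
    (ht : ∃ k : ℕ, orderOf t = p ^ k)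
    (hN : HasNormalPComplement p (Subgroup.centralizer ({t} : Set G))) (P : Sylow p G) :
    ∃ K : Subgroup G, Nat.card K * Nat.card (P : Subgroup G) = Nat.card (Subgroup.centralizer ({t} : Set G)) ∧
      ∀ w ∈ Subgroup.centralizer ({t} : Set G), (orderOf w).Coprime p → w ∈ K := by
  classical
  have hp : p.Prime := Fact.out
  set A := Subgroup.centralizer ({t} : Set G) with hA
  obtain ⟨N, hNn, hc, k, hk⟩ := H14.npc_iff.1 hN
  refine ⟨N.map A.subtype, ?_, ?_⟩
  · have h1 : Nat.card (N.map A.subtype) = Nat.card N :=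
      Nat.card_congr (N.equivMapOfInjective _ A.subtype_injective).toEquiv.symm
    have h2 : Nat.card N * p ^ k = Nat.card A := by rw [← hk]; exact N.card_mul_index
    have h3 : ¬ p ∣ A.index := by
      have hpg : IsPGroup p (zpowers t) := by
        rw [IsPGroup.iff_card, Nat.card_zpowers]
        exact ht
      obtain ⟨Q, hQ⟩ := hpg.exists_le_sylow
      have hle : (Q : Subgroup G) ≤ A := by
        intro q hq
        rw [hA, mem_centralizer_singleton_iff]
        exact h.comm Q Q.isPGroup' q hq t (hQ (mem_zpowers _))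
      exact fun h6 => Q.not_dvd_index (h6.trans (index_dvd_of_le hle))
    have h4 : Nat.card A * A.index = Nat.card G := A.card_mul_index
    have h5 : Nat.card (P : Subgroup G) = p ^ k := by
      rw [P.card_eq_multiplicity, ← h4, ← h2]
      have hNpos : Nat.card N ≠ 0 := Nat.card_pos.ne'
      have hIpos : A.index ≠ 0 := index_ne_zero_of_finite
      have hppos : p ^ k ≠ 0 := pow_ne_zero _ hp.ne_zero
      rw [Nat.factorization_mul (mul_ne_zero hNpos hppos) hIpos,
        Nat.factorization_mul hNpos hppos, hp.factorization_pow]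
      have h6 : (Nat.card N).factorization p = 0 :=
        Nat.factorization_eq_zero_of_not_dvd (fun hd => by
          have := Nat.Coprime.eq_one_of_dvd hc.symm hd
          exact hp.ne_one this)
      have h7 : A.index.factorization p = 0 := Nat.factorization_eq_zero_of_not_dvd h3
      simp [h6, h7]
    rw [h1, h5, h2]
  · intro w hw hwc
    refine ⟨⟨w, hw⟩, ?_, rfl⟩
    show (⟨w, hw⟩ : A) ∈ N
    rw [← QuotientGroup.eq_one_iff]
    have h1 : orderOf ((⟨w, hw⟩ : A) : A ⧸ N) ∣ orderOf w := by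
      have := orderOf_map_dvd (QuotientGroup.mk' N) (⟨w, hw⟩ : A)
      rwa [Subgroup.orderOf_mk] at this
    have h2 : orderOf ((⟨w, hw⟩ : A) : A ⧸ N) ∣ p ^ k := by
      rw [← hk]
      exact orderOf_dvd_natCard _
    have h3 : orderOf ((⟨w, hw⟩ : A) : A ⧸ N) = 1 :=
      Nat.eq_one_of_dvd_coprimes (Nat.Coprime.pow_right k hwc) h1 h2
    exact orderOf_eq_one_iff.1 h3

/-- Conjugation by an element of the normalizer. -/
def conjRestr {G : Type*} [Group G] (P : Subgroup G) {v : G} (hv : v ∈ normalizer (P : Set G)) :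
    P ≃* P where
  toFun x := ⟨v * x * v⁻¹, (mem_normalizer_iff.1 hv x).1 x.2⟩
  invFun x := ⟨v⁻¹ * x * v, by
    have h1 := (mem_normalizer_iff.1 hv (v⁻¹ * x * v)).2
    apply h1
    have : v * (v⁻¹ * x * v) * v⁻¹ = x := by group
    rw [this]
    exact x.2⟩
  left_inv x := by
    apply Subtype.ext
    show v⁻¹ * (v * x * v⁻¹) * v = x
    group
  right_inv x := by
    apply Subtype.ext
    show v * (v⁻¹ * x * v) * v⁻¹ = x
    group
  map_mul' x y := by
    apply Subtype.ext
    show v * (x * y : G) * v⁻¹ = (v * x * v⁻¹) * (v * y * v⁻¹)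
    group

theorem relIndex_ne_prime {G : Type*} [Group G] [Finite G] (P : Subgroup G) (hPp : IsPGroup p P)
    (hcomm : ∀ a ∈ P, ∀ b ∈ P, a * b = b * a) {v : G} (hv : v ∈ normalizer (P : Set G))
    (hr : ∀ r : ℕ, r.Prime → r ∣ orderOf v → p < r)
    (hd : (Subgroup.centralizer ({v} : Set G)).relIndex P = p) : False := by
  classical
  have hp : p.Prime := Fact.out
  set B := (Subgroup.centralizer ({v} : Set G)).subgroupOf P with hB
  have hcommP : ∀ x y : P, x * y = y * x := fun x y => Subtype.ext (hcomm x x.2 y y.2)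
  haveI hBn : B.Normal := ⟨fun x hx g => by
    have : g * x * g⁻¹ = x := by rw [hcommP g x]; group
    rwa [this]⟩
  have hcardq : Nat.card (P ⧸ B) = p := hd
  haveI : IsCyclic (P ⧸ B) := isCyclic_of_prime_card hcardq
  let σ : P ≃* P := conjRestr P hv
  have hσB : ∀ x ∈ B, σ x = x := by
    intro x hx
    apply Subtype.ext
    show v * (x : G) * v⁻¹ = x
    have h1 : (x : G) * v = v * x := mem_centralizer_singleton_iff.1 (mem_subgroupOf.1 hx)
    rw [← h1]
    group
  have hmap : map (σ : P →* P) B = B := by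
    ext y
    constructor
    · rintro ⟨x, hx, rfl⟩
      have : (σ : P →* P) x = x := hσB x hx
      rwa [this]
    · intro hy
      exact ⟨y, hy, hσB y hy⟩
  let π : (P ⧸ B) ≃* (P ⧸ B) := QuotientGroup.congr B B σ hmap
  have hvk : ∀ k : ℕ, v ^ k ∈ normalizer (P : Set G) := fun k => Subgroup.pow_mem _ hv k
  have hpow : ∀ (k : ℕ) (a b : P), (b : G) = v ^ k * a * (v ^ k)⁻¹ →
      (π ^ k) ((a : P) : P ⧸ B) = ((b : P) : P ⧸ B) := by
    intro k
    induction k with
    | zero =>
      intro a b h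
      have : a = b := Subtype.ext (by rw [h]; simp)
      rw [this]
      rfl
    | succ k ih =>
      intro a b h
      let b' : P := ⟨v ^ k * a * (v ^ k)⁻¹, (mem_normalizer_iff.1 (hvk k) a).1 a.2⟩
      have h1 := ih a b' rfl
      rw [pow_succ', MulAut.mul_apply, h1]
      show π ((b' : P) : P ⧸ B) = _
      rw [QuotientGroup.congr_mk]
      congr 1
      apply Subtype.ext
      show v * (v ^ k * a * (v ^ k)⁻¹) * v⁻¹ = b
      rw [h, pow_succ']
      group
  have hπn : π ^ orderOf v = 1 := by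
    ext x
    induction x using QuotientGroup.induction_on with
    | H a =>
      rw [hpow (orderOf v) a a (by rw [pow_orderOf_eq_one]; simp)]
      rfl
  have hπ1 : π = 1 := by
    have h1 := orderOf_dvd_of_pow_eq_one hπn
    have h2 : orderOf π ∣ p - 1 := by
      have := _root_.orderOf_dvd_natCard π
      rwa [IsCyclic.card_mulAut, hcardq, Nat.totient_prime hp] at this
    rw [← orderOf_eq_one_iff]
    by_contra hne
    obtain ⟨r, hrp, hrd⟩ := Nat.exists_prime_and_dvd hne
    have h3 := hr r hrp (hrd.trans h1)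
    have h4 : r ≤ p - 1 := Nat.le_of_dvd (by have := hp.two_le; omega) (hrd.trans h2)
    omega
  apply hp.ne_one
  rw [← hd, relIndex_eq_one]
  intro a ha
  have h1 : π ((⟨a, ha⟩ : P) : P ⧸ B) = ((⟨a, ha⟩ : P) : P ⧸ B) := by
    rw [hπ1]
    rfl
  rw [QuotientGroup.congr_mk, QuotientGroup.eq] at h1
  set x : P := ⟨a, ha⟩ with hx
  set c := (σ x)⁻¹ * x with hc
  have hc1 : (c : G) * v = v * c := mem_centralizer_singleton_iff.1 (mem_subgroupOf.1 h1)
  have h2 : v * a * v⁻¹ = (c⁻¹ : P) * a := by
    have h3 : σ x = c⁻¹ * x := by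
      rw [hc, mul_inv_rev, inv_inv, hcommP x⁻¹ (σ x)]
      group
    have h4 := congrArg Subtype.val h3
    exact h4
  have hcop : (orderOf ((c⁻¹ : P) : G)).Coprime (orderOf v) := by
    have h5 : orderOf ((c⁻¹ : P) : G) = orderOf (c⁻¹ : P) := Subgroup.orderOf_coe _
    rw [h5]
    obtain ⟨k, hk⟩ := (IsPGroup.iff_orderOf.1 hPp) c⁻¹
    rw [hk]
    refine Nat.Coprime.pow_left _ ((Nat.Prime.coprime_iff_not_dvd hp).2 ?_)
    intro hpd
    exact lt_irrefl _ (hr p hp hpd)
  have hb1 := comm_fixed_eq_one h2 (by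
    show ((c : G))⁻¹ * v = v * ((c : G))⁻¹
    calc ((c : G))⁻¹ * v = (c : G)⁻¹ * (v * c) * (c : G)⁻¹ := by group
      _ = (c : G)⁻¹ * (c * v) * (c : G)⁻¹ := by rw [hc1]
      _ = _ := by group) hcop
  rw [hb1, one_mul] at h2
  rw [mem_centralizer_singleton_iff]
  calc a * v = (v * a * v⁻¹) * v := by rw [h2]
    _ = v * a := by group

end key

end Cfsg.Agent.H18
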