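import Mathlib
import Cfsg.Agent.Lib.H18.Sq3

/-!
The key lemma, and the solvability of groups with square-free class sizes.
-/

set_option autoImplicit false
set_option linter.unusedSectionVars false
set_option linter.style.haveILetI false

universe u

namespace Cfsg.Agent.H18

open Subgroup Cfsg
open scoped commutatorElement

section key

variable {p : ℕ} [Fact p.Prime]

theorem key_H_aux : ∀ (n : ℕ) (G : Type u) [Group G] [Finite G], Nat.card G = n → HypH p G →
    HasNormalPComplement p G := by
  intro n
  induction n using Nat.strong_induction_on with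
  | _ n ih =>
  intro G _ _ hn h
  classical
  have hp : p.Prime := Fact.out
  by_cases hZ : ∃ t : G, t ≠ 1 ∧ (∃ k : ℕ, orderOf t = p ^ k) ∧ ∀ g : G, t * g = g * t
  · obtain ⟨t, ht1, ⟨k, hk⟩, htc⟩ := hZ
    let Z : Subgroup G := zpowers t
    have hcen : ∀ z ∈ Z, ∀ g : G, z * g = g * z := by
      rintro _ ⟨i, rfl⟩ g
      have : Commute t g := htc g
      exact (this.zpow_left i).eq
    haveI hZn : Z.Normal := ⟨fun z hz g => by
      have : g * z * g⁻¹ = z := by rw [← hcen z hz g]; group
      rwa [this]⟩
    have hQ : HypH p (G ⧸ Z) := h.of_surjective (QuotientGroup.mk' Z) (QuotientGroup.mk'_surjective Z)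
    have hlt : Nat.card (G ⧸ Z) < n := by
      have h1 : Nat.card Z * Z.index = Nat.card G := Z.card_mul_index
      have h2 : Nat.card Z = p ^ k := by
        show Nat.card (zpowers t) = _
        rw [Nat.card_zpowers, hk]
      have h3 : 1 < Nat.card Z := by
        rw [Nat.card_zpowers]
        have h5 : orderOf t ≠ 1 := fun h6 => ht1 (orderOf_eq_one_iff.1 h6)
        have h6 := orderOf_pos t
        omega
      have h4 : 0 < Z.index := Nat.pos_of_ne_zero index_ne_zero_of_finite
      rw [← hn, ← h1]
      show Z.index < _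
      nlinarith
    have hnpc := ih _ hlt (G ⧸ Z) rfl hQ
    have hZp : IsPGroup p Z := by
      rw [IsPGroup.iff_card]
      refine ⟨k, ?_⟩
      show Nat.card (zpowers t) = _
      rw [Nat.card_zpowers, hk]
    exact H13.hasNormalPComplement_of_frobCond
      (H14.frobCond_lift_central hZp hcen (H13.frobCond_of_hasNormalPComplement hnpc))
  · push Not at hZ
    have hKex : ∀ t : G, t ≠ 1 → (∃ k : ℕ, orderOf t = p ^ k) → ∃ K : Subgroup G,
        Nat.card K * Nat.card ((default : Sylow p G) : Subgroup G) =
          Nat.card (Subgroup.centralizer ({t} : Set G)) ∧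
        ∀ w ∈ Subgroup.centralizer ({t} : Set G), (orderOf w).Coprime p → w ∈ K := by
      intro t ht1 ht
      refine h.exists_K t ht ?_ _
      refine ih _ ?_ _ rfl (h.centralizer t ht)
      obtain ⟨g, hg⟩ := hZ t ht1 ht
      have h1 : (Subgroup.centralizer ({t} : Set G)).index ≠ 1 := by
        intro h2
        rw [index_eq_one] at h2
        have h3 : g ∈ Subgroup.centralizer ({t} : Set G) := by rw [h2]; trivial
        rw [mem_centralizer_singleton_iff] at h3
        exact hg h3.symm
      have h2 := (Subgroup.centralizer ({t} : Set G)).card_mul_index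
      have h3 : (Subgroup.centralizer ({t} : Set G)).index ≠ 0 := index_ne_zero_of_finite
      have h4 : 0 < Nat.card (Subgroup.centralizer ({t} : Set G)) := Nat.card_pos
      rw [← hn, ← h2]
      have h5 : 2 ≤ (Subgroup.centralizer ({t} : Set G)).index := by omega
      nlinarith
    choose! K hK1 hK2 using hKex
    let P : Sylow p G := default
    by_cases hNC : normalizer ((P : Subgroup G) : Set G) ≤ Subgroup.centralizer ((P : Subgroup G) : Set G)
    · obtain ⟨R, hR, hc⟩ := H19.burnside_complement P hNC
      exact ⟨P, R, hR, hc⟩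
    · exfalso
      obtain ⟨y, hyN, hyC⟩ := SetLike.not_le_iff_exists.1 hNC
      obtain ⟨y₁, v, hy, hcomm, ⟨k₁, hk₁⟩, hvco, -⟩ := exists_part p hp y
      have hco : (orderOf y₁).Coprime (orderOf v) := by
        rw [hk₁]
        exact (Nat.Coprime.pow_right k₁ hvco).symm
      obtain ⟨hy₁z, hvz⟩ := mem_zpowers_of_commute_coprime hcomm hco
      rw [← hy] at hy₁z hvz
      have hy₁N : y₁ ∈ normalizer ((P : Subgroup G) : Set G) := (zpowers_le.2 hyN) hy₁z
      have hvN : v ∈ normalizer ((P : Subgroup G) : Set G) := (zpowers_le.2 hyN) hvz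
      have hy₁P : y₁ ∈ (P : Subgroup G) := by
        have hpg : IsPGroup p (zpowers y₁) := by
          rw [IsPGroup.iff_card, Nat.card_zpowers]
          exact ⟨k₁, hk₁⟩
        have h2 := (IsPGroup.inf_normalizer_sylow hpg P).le ⟨mem_zpowers y₁, hy₁N⟩
        exact h2.2
      have hvC : ¬ (P : Subgroup G) ≤ Subgroup.centralizer ({v} : Set G) := by
        intro hle
        apply hyC
        rw [mem_centralizer_iff]
        intro a ha
        have h1 : a * y₁ = y₁ * a := h.comm P P.isPGroup' a ha y₁ hy₁P
        have h2 : a * v = v * a := mem_centralizer_singleton_iff.1 (hle ha)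
        rw [hy]
        calc a * (y₁ * v) = (a * y₁) * v := by group
          _ = (y₁ * a) * v := by rw [h1]
          _ = y₁ * (a * v) := by group
          _ = y₁ * (v * a) := by rw [h2]
          _ = y₁ * v * a := by group
      have hr : ∀ r : ℕ, r.Prime → r ∣ orderOf v → p < r := by
        intro r hrp hrd
        have h1 := h.small r hrp (hrd.trans (_root_.orderOf_dvd_natCard v))
        refine lt_of_le_of_ne h1 ?_
        rintro rfl
        have := Nat.eq_one_of_dvd_coprimes hvco hrd dvd_rfl
        exact hp.ne_one this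
      have hodd : Odd (orderOf v) := by
        rw [← Nat.not_even_iff_odd, even_iff_two_dvd]
        intro h2
        have := hr 2 Nat.prime_two h2
        have := hp.two_le
        omega
      set R := (Subgroup.centralizer ({v} : Set G)).subgroupOf (P : Subgroup G) with hR
      have hd : R.index = (Subgroup.centralizer ({v} : Set G)).relIndex (P : Subgroup G) := rfl
      have hmul : Nat.card R * R.index = Nat.card (P : Subgroup G) := R.card_mul_index
      have hd1 : R.index ≠ 1 := by
        intro h1
        rw [hd, relIndex_eq_one] at h1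
        exact hvC h1
      have hd2 : R.index ≠ p := fun h1 =>
        relIndex_ne_prime (P : Subgroup G) P.isPGroup' (h.comm P P.isPGroup') hvN hr (hd ▸ h1)
      obtain ⟨a, ha⟩ := IsPGroup.iff_card.1 P.isPGroup'
      have hdvd : R.index ∣ p ^ a := by
        rw [← ha, ← hmul]
        exact Dvd.intro_left _ rfl
      obtain ⟨i, -, hi⟩ := (Nat.dvd_prime_pow hp).1 hdvd
      have hi2 : 2 ≤ i := by
        by_contra hlt
        have : i = 0 ∨ i = 1 := by omega
        rcases this with rfl | rfl
        · exact hd1 (by rw [hi, pow_zero])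
        · exact hd2 (by rw [hi, pow_one])
      have hp2 : p ^ 2 ∣ R.index := by
        rw [hi]
        exact pow_dvd_pow p hi2
      have hp2le : p ^ 2 ≤ R.index := Nat.le_of_dvd (Nat.pos_of_ne_zero index_ne_zero_of_finite) hp2
      have h4le : 4 ≤ p ^ 2 := by
        have := hp.two_le
        nlinarith
      have hRpos : 0 < Nat.card R := Nat.card_pos
      have hfour : 4 * Nat.card R ≤ Nat.card (P : Subgroup G) := by
        rw [← hmul]
        nlinarith
      have hPge : p ^ 2 ≤ Nat.card (P : Subgroup G) := by
        rw [← hmul]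
        nlinarith
      have h3 : 3 * Nat.card (ClP p G) ≤ Nat.card (P : Subgroup G) + 2 * Nat.card R :=
        class_bound P hvN hodd
      have hcov : ∀ x : G, ∃ t : G, t ≠ 1 ∧ (∃ k : ℕ, orderOf t = p ^ k) ∧
          x ∈ Subgroup.centralizer ({t} : Set G) := by
        intro x
        obtain ⟨g, hg⟩ := exists_conj_relIndex P x (h.idx x)
        set R' := (Subgroup.centralizer ({g * x * g⁻¹} : Set G)).subgroupOf (P : Subgroup G) with hR'
        have hg' : R'.index ∣ p := hg
        have hmul' : Nat.card R' * R'.index = Nat.card (P : Subgroup G) := R'.card_mul_index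
        have hle : R'.index ≤ p := Nat.le_of_dvd hp.pos hg'
        have hcard : 1 < Nat.card R' := by
          by_contra hlt
          have h1 : Nat.card R' ≤ 1 := by omega
          have h2 : Nat.card R' * R'.index ≤ 1 * p := Nat.mul_le_mul h1 hle
          rw [hmul'] at h2
          have := hp.two_le
          nlinarith
        haveI : Nontrivial R' := Finite.one_lt_card_iff_nontrivial.1 hcard
        obtain ⟨t', ht'⟩ := exists_ne (1 : R')
        have ht0 : ((t' : (P : Subgroup G)) : G) ≠ 1 := by
          intro h0
          apply ht'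
          apply Subtype.ext
          apply Subtype.ext
          exact h0
        have hc0 : ((t' : (P : Subgroup G)) : G) * (g * x * g⁻¹) = (g * x * g⁻¹) * ((t' : (P : Subgroup G)) : G) :=
          mem_centralizer_singleton_iff.1 (mem_subgroupOf.1 t'.2)
        obtain ⟨k, hk⟩ := exists_order_of_mem_sylow P (t' : (P : Subgroup G)).2
        refine ⟨g⁻¹ * ((t' : (P : Subgroup G)) : G) * g, ?_, ⟨k, ?_⟩, ?_⟩
        · intro h0
          apply ht0
          have : ((t' : (P : Subgroup G)) : G) = g * (g⁻¹ * ((t' : (P : Subgroup G)) : G) * g) * g⁻¹ := by group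
          rw [this, h0]
          group
        · have := H14.orderOf_conj_eq g⁻¹ ((t' : (P : Subgroup G)) : G)
          rw [inv_inv] at this
          rw [this, hk]
        · rw [mem_centralizer_singleton_iff]
          set t0 := ((t' : (P : Subgroup G)) : G) with ht0def
          calc x * (g⁻¹ * t0 * g) = g⁻¹ * ((g * x * g⁻¹) * t0) * g := by group
            _ = g⁻¹ * (t0 * (g * x * g⁻¹)) * g := by rw [hc0]
            _ = _ := by group
      have h5 := count_main P K hK1 hK2 hcov
      omega

/-- **The key lemma.** -/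
theorem key_H {G : Type u} [Group G] [Finite G] (h : HypH p G) : HasNormalPComplement p G :=
  key_H_aux _ G rfl h

end key

section sq

/-- All class sizes are square-free. -/
def SqCl (G : Type*) [Group G] : Prop :=
  ∀ x : G, Squarefree (Subgroup.centralizer ({x} : Set G)).index

theorem SqCl.of_surjective {G H : Type*} [Group G] [Finite G] [Group H] (h : SqCl G) (f : G →* H)
    (hf : Function.Surjective f) : SqCl H := by
  intro x
  obtain ⟨x', rfl⟩ := hf x
  exact (h x').squarefree_of_dvd (centralizer_index_dvd_of_surjective f hf x')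

theorem SqCl.normal {G : Type*} [Group G] [Finite G] (h : SqCl G) (N : Subgroup G) [N.Normal] :
    SqCl N := by
  intro x
  rw [centralizer_index_subtype]
  exact (h x).squarefree_of_dvd (relIndex_dvd_index_of_normal' _ N)

theorem SqCl.not_sq_dvd {G : Type*} [Group G] (h : SqCl G) (x : G) {p : ℕ} (hp : p.Prime) :
    ¬ p ^ 2 ∣ (Subgroup.centralizer ({x} : Set G)).index := by
  intro hd
  rw [pow_two] at hd
  exact hp.not_isUnit (h x p hd)

/-- In a `p`-group a subgroup of index dividing `p` contains the commutator subgroup. -/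
theorem commutator_le_of_index_dvd_prime {Q : Type*} [Group Q] [Finite Q] {p : ℕ} [Fact p.Prime]
    (hQ : IsPGroup p Q) (R : Subgroup Q) (h : R.index ∣ p) : commutator Q ≤ R := by
  have hp : p.Prime := Fact.out
  rcases (Nat.dvd_prime hp).1 h with h1 | h1
  · rw [index_eq_one] at h1
    rw [h1]
    exact le_top
  · obtain ⟨a, ha⟩ := IsPGroup.iff_card.1 hQ
    have hd : p ∣ Nat.card Q := by
      rw [← h1]
      exact R.index_dvd_card
    have ha0 : a ≠ 0 := by
      rintro rfl
      rw [ha, pow_zero] at hd
      exact hp.one_lt.ne' (Nat.dvd_one.1 hd)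
    have hmin : (Nat.card Q).minFac = p := by
      rw [ha]
      exact (Nat.Prime.pow_minFac hp ha0)
    haveI hn : R.Normal := normal_of_index_eq_minFac_card (by rw [h1, hmin])
    have hcard : Nat.card (Q ⧸ R) = p := h1
    haveI : IsCyclic (Q ⧸ R) := isCyclic_of_prime_card hcard
    have : IsMulCommutative (Q ⧸ R) := inferInstance
    exact Normal.quotient_commutative_iff_commutator_le.1 this

/-- Commutators of a Sylow subgroup are central. -/
theorem commutator_sylow_central {G : Type*} [Group G] [Finite G] {p : ℕ} [Fact p.Prime]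
    (hidx : ∀ x : G, ¬ p ^ 2 ∣ (Subgroup.centralizer ({x} : Set G)).index) (P : Sylow p G) {a b : G}
    (ha : a ∈ (P : Subgroup G)) (hb : b ∈ (P : Subgroup G)) : ⁅a, b⁆ ∈ center G := by
  classical
  have hp : p.Prime := Fact.out
  set D : Subgroup G := ⁅(P : Subgroup G), (P : Subgroup G)⁆ with hD
  have hall : ∀ x : G, ∃ g : G, g * x * g⁻¹ ∈ Subgroup.centralizer (D : Set G) := by
    intro x
    obtain ⟨g, hg⟩ := exists_conj_relIndex P x (hidx x)
    refine ⟨g, ?_⟩
    have h1 := commutator_le_of_index_dvd_prime P.isPGroup'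
      ((Subgroup.centralizer ({g * x * g⁻¹} : Set G)).subgroupOf (P : Subgroup G)) hg
    have h2 : D ≤ Subgroup.centralizer ({g * x * g⁻¹} : Set G) := by
      rw [hD, ← map_subtype_commutator, map_le_iff_le_comap]
      exact h1
    rw [mem_centralizer_iff]
    intro d hd
    exact (mem_centralizer_singleton_iff.1 (h2 hd))
  have htop : Subgroup.centralizer (D : Set G) = ⊤ := by
    by_contra hne
    obtain ⟨x, hx⟩ := exists_not_conj _ hne
    obtain ⟨g, hg⟩ := hall x
    exact hx g hg
  have hmem : ⁅a, b⁆ ∈ D := commutator_mem_commutator ha hb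
  rw [mem_center_iff]
  intro g
  have hg : g ∈ Subgroup.centralizer (D : Set G) := by rw [htop]; trivial
  exact (mem_centralizer_iff.1 hg _ hmem).symm

/-- Lifting a normal complement through a central quotient. -/
theorem frobCond_lift_center {G : Type*} [Group G] [Finite G] {p : ℕ} [Fact p.Prime]
    (h : H13.FrobCond p (G ⧸ center G)) : H13.FrobCond p G := by
  have hp : p.Prime := Fact.out
  intro T hT g hg hgc
  let π := QuotientGroup.mk' (center G)
  have h1 : IsPGroup p (T.map π) := hT.map π
  have h2 : π g ∈ normalizer ((T.map π : Subgroup _) : Set _) := by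
    exact Subgroup.le_normalizer_map π ⟨g, hg, rfl⟩
  have h3 : (orderOf (π g)).Coprime p := Nat.Coprime.coprime_dvd_left (orderOf_map_dvd π g) hgc
  have h4 := h _ h1 _ h2 h3
  rw [mem_centralizer_iff]
  intro t ht
  have h5 : π t * π g = π g * π t := (mem_centralizer_iff.1 h4) _ ⟨t, ht, rfl⟩
  have h6 : g * t * g⁻¹ * t⁻¹ ∈ center G := by
    rw [← QuotientGroup.eq_one_iff]
    show π (g * t * g⁻¹ * t⁻¹) = 1
    simp only [map_mul, map_inv]
    rw [← h5]
    group
  have h7 : g * t * g⁻¹ * t⁻¹ ∈ T := by
    have h8 := (mem_normalizer_iff.1 hg t).1 ht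
    exact T.mul_mem h8 (T.inv_mem ht)
  set c := g * t * g⁻¹ * t⁻¹ with hc
  have h8 : g * t * g⁻¹ = c * t := by
    rw [hc]
    group
  have h9 : c * g = g * c := (mem_center_iff.1 h6 g).symm
  have hcop : (orderOf c).Coprime (orderOf g) := by
    obtain ⟨k, hk⟩ := (IsPGroup.iff_orderOf.1 hT) ⟨c, h7⟩
    rw [Subgroup.orderOf_mk] at hk
    rw [hk]
    exact Nat.Coprime.pow_left _ hgc.symm
  have hc1 := comm_fixed_eq_one h8 h9 hcop
  rw [hc1, one_mul] at h8
  calc t * g = (g * t * g⁻¹) * g := by rw [h8]
    _ = g * t := by group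

theorem npc_of_sqCl {G : Type u} [Group G] [Finite G] (h : SqCl G) {p : ℕ} [Fact p.Prime]
    (hsmall : ∀ r : ℕ, r.Prime → r ∣ Nat.card G → p ≤ r) : HasNormalPComplement p G := by
  have hp : p.Prime := Fact.out
  have hidx : ∀ x : G, ¬ p ^ 2 ∣ (Subgroup.centralizer ({x} : Set G)).index :=
    fun x => h.not_sq_dvd x hp
  let π := QuotientGroup.mk' (center G)
  have hπ : Function.Surjective π := QuotientGroup.mk'_surjective _
  have hH : HypH p (G ⧸ center G) := by
    refine ⟨fun r hr hd => hsmall r hr (hd.trans (card_dvd_of_surjective π hπ)), ?_, ?_⟩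
    · intro Q hQ a ha b hb
      obtain ⟨S, hS⟩ := hQ.exists_le_sylow
      obtain ⟨P, rfl⟩ := Sylow.mapSurjective_surjective hπ p S
      have hS' : Q ≤ (P : Subgroup G).map π := hS
      obtain ⟨a', ha', rfl⟩ := hS' ha
      obtain ⟨b', hb', rfl⟩ := hS' hb
      have h1 := commutator_sylow_central hidx P ha' hb'
      have h2 : π ⁅a', b'⁆ = 1 := (QuotientGroup.eq_one_iff _).2 h1
      rw [commutatorElement_def] at h2
      simp only [map_mul, map_inv] at h2
      have h3 : π a' * π b' * (π a')⁻¹ = π b' := by
        calc π a' * π b' * (π a')⁻¹ = (π a' * π b' * (π a')⁻¹ * (π b')⁻¹) * π b' := by group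
          _ = π b' := by rw [h2, one_mul]
      calc π a' * π b' = (π a' * π b' * (π a')⁻¹) * π a' := by group
        _ = π b' * π a' := by rw [h3]
    · intro x hx
      obtain ⟨x', rfl⟩ := hπ x
      exact hidx x' (hx.trans (centralizer_index_dvd_of_surjective π hπ x'))
  exact H13.hasNormalPComplement_of_frobCond
    (frobCond_lift_center (H13.frobCond_of_hasNormalPComplement (key_H hH)))

theorem isSolvable_of_sqCl_aux : ∀ (n : ℕ) (G : Type u) [Group G] [Finite G], Nat.card G = n → SqCl G →
    Group.IsSolvable G := by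
  intro n
  induction n using Nat.strong_induction_on with
  | _ n ih =>
  intro G _ _ hn h
  by_cases h1 : Nat.card G = 1
  · haveI : Subsingleton G := (Nat.card_eq_one_iff_unique.1 h1).1
    infer_instance
  · have hp : (Nat.card G).minFac.Prime := Nat.minFac_prime h1
    haveI : Fact (Nat.card G).minFac.Prime := ⟨hp⟩
    have hsmall : ∀ r : ℕ, r.Prime → r ∣ Nat.card G → (Nat.card G).minFac ≤ r :=
      fun r hr hd => Nat.minFac_le_of_dvd hr.two_le hd
    have hnpc := npc_of_sqCl h hsmall
    obtain ⟨N, hNn, hc, k, hk⟩ := H14.npc_iff.1 hnpc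
    have hlt : Nat.card N < n := by
      have h2 := N.card_mul_index
      rw [hk] at h2
      have hk0 : k ≠ 0 := by
        rintro rfl
        rw [pow_zero, mul_one] at h2
        have h3 : (Nat.card G).minFac ∣ Nat.card N := by
          rw [h2]
          exact Nat.minFac_dvd _
        have := Nat.Coprime.eq_one_of_dvd hc.symm h3
        exact hp.ne_one this
      have h3 : 2 ≤ (Nat.card G).minFac ^ k := by
        calc 2 ≤ (Nat.card G).minFac := hp.two_le
          _ = (Nat.card G).minFac ^ 1 := (pow_one _).symm
          _ ≤ _ := Nat.pow_le_pow_right hp.pos (by omega)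
      have h4 : 0 < Nat.card N := Nat.card_pos
      rw [← hn, ← h2]
      nlinarith
    haveI : Group.IsSolvable N := ih _ hlt N rfl (h.normal N)
    haveI : Group.IsNilpotent (G ⧸ N) := by
      refine IsPGroup.isNilpotent (p := (Nat.card G).minFac) (IsPGroup.iff_card.2 ⟨k, hk⟩)
    have hker : (QuotientGroup.mk' N).ker ≤ N.subtype.range := by
      rw [QuotientGroup.ker_mk', range_subtype]
    exact Group.isSolvable_of_ker_le_range N.subtype (QuotientGroup.mk' N) hker

theorem isSolvable_of_sqCl {G : Type u} [Group G] [Finite G] (h : SqCl G) : Group.IsSolvable G :=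
  isSolvable_of_sqCl_aux _ G rfl h

end sq

end Cfsg.Agent.H18
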