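import Mathlib
import Cfsg.Agent.Lib.H18.Sq4
import Cfsg.Agent.Lib.H02.SuperSolv2
import Cfsg.Agent.Lib.H02.SuperSolv5

/-!
Groups with square-free class sizes: abelian normal `q`-subgroups have rank one behaviour;
supersolvability.
-/

set_option autoImplicit false
set_option linter.unusedSectionVars false
set_option linter.style.haveILetI false

universe u

namespace Cfsg.Agent.H18

open Subgroup Cfsg

section grid

variable {G : Type*} [Group G]

/-- The commutator map on an abelian normal subgroup. -/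
def commHom (R : Subgroup G) [hn : R.Normal] (hc : ∀ a ∈ R, ∀ b ∈ R, a * b = b * a) (y : G) : R →* R where
  toFun x := ⟨y * x * y⁻¹ * x⁻¹, R.mul_mem (hn.conj_mem x x.2 y) (R.inv_mem x.2)⟩
  map_one' := by
    apply Subtype.ext
    simp
  map_mul' a b := by
    apply Subtype.ext
    have h := hc (y * b * y⁻¹) (hn.conj_mem _ b.2 y) (a⁻¹) (R.inv_mem a.2)
    show y * (a * b : G) * y⁻¹ * (a * b : G)⁻¹ = (y * a * y⁻¹ * (a : G)⁻¹) * (y * b * y⁻¹ * (b : G)⁻¹)
    have hab : (a * b : G)⁻¹ = (a : G)⁻¹ * (b : G)⁻¹ := by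
      rw [hc a a.2 b b.2]
      group
    rw [hab]
    calc y * (a * b : G) * y⁻¹ * ((a : G)⁻¹ * (b : G)⁻¹)
        = (y * a * y⁻¹) * ((y * b * y⁻¹) * (a : G)⁻¹) * (b : G)⁻¹ := by group
      _ = (y * a * y⁻¹) * ((a : G)⁻¹ * (y * b * y⁻¹)) * (b : G)⁻¹ := by rw [h]
      _ = _ := by group

/-- The image of the commutator map. -/
def Lr (R : Subgroup G) [R.Normal] (hc : ∀ a ∈ R, ∀ b ∈ R, a * b = b * a) (y : G) : Subgroup G :=
  (commHom R hc y).range.map R.subtype

variable (R : Subgroup G) [hn : R.Normal] (hc : ∀ a ∈ R, ∀ b ∈ R, a * b = b * a)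

theorem mem_Lr {y z : G} : z ∈ Lr R hc y ↔ ∃ x ∈ R, y * x * y⁻¹ * x⁻¹ = z := by
  constructor
  · rintro ⟨_, ⟨x, rfl⟩, rfl⟩
    exact ⟨x, x.2, rfl⟩
  · rintro ⟨x, hx, rfl⟩
    exact ⟨commHom R hc y ⟨x, hx⟩, ⟨⟨x, hx⟩, rfl⟩, rfl⟩

theorem Lr_le (y : G) : Lr R hc y ≤ R := by
  rintro _ ⟨x, _, rfl⟩
  exact x.2

theorem mem_Lr_conj {y g z : G} (h : z ∈ Lr R hc y) : g * z * g⁻¹ ∈ Lr R hc (g * y * g⁻¹) := by
  obtain ⟨x, hx, rfl⟩ := (mem_Lr R hc).1 h
  refine (mem_Lr R hc).2 ⟨g * x * g⁻¹, hn.conj_mem x hx g, ?_⟩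
  group

theorem mem_Lr_of_conj {y g z : G} (h : g * z * g⁻¹ ∈ Lr R hc (g * y * g⁻¹)) : z ∈ Lr R hc y := by
  have h1 := mem_Lr_conj R hc (g := g⁻¹) h
  have h2 : g⁻¹ * (g * z * g⁻¹) * g⁻¹⁻¹ = z := by group
  have h3 : g⁻¹ * (g * y * g⁻¹) * g⁻¹⁻¹ = y := by group
  rwa [h2, h3] at h1

theorem commHom_ker (y : G) :
    (commHom R hc y).ker = (Subgroup.centralizer ({y} : Set G)).subgroupOf R := by
  ext x
  rw [MonoidHom.mem_ker, mem_subgroupOf, mem_centralizer_singleton_iff]
  constructor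
  · intro h
    have h1 : y * (x : G) * y⁻¹ * (x : G)⁻¹ = 1 := congrArg Subtype.val h
    have h2 : y * (x : G) * y⁻¹ = x := by
      calc y * (x : G) * y⁻¹ = (y * (x : G) * y⁻¹ * (x : G)⁻¹) * x := by group
        _ = x := by rw [h1, one_mul]
    calc (x : G) * y = (y * (x : G) * y⁻¹) * y := by rw [h2]
      _ = y * x := by group
  · intro h
    apply Subtype.ext
    show y * (x : G) * y⁻¹ * (x : G)⁻¹ = 1
    rw [← h]
    group

theorem card_Lr [Finite G] (y : G) :
    Nat.card (Lr R hc y) = (Subgroup.centralizer ({y} : Set G)).relIndex R := by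
  have h1 : Nat.card (Lr R hc y) = Nat.card (commHom R hc y).range :=
    Nat.card_congr ((commHom R hc y).range.equivMapOfInjective _ R.subtype_injective).toEquiv.symm
  rw [h1, ← Subgroup.index_ker, commHom_ker]
  rfl

theorem card_Lr_ne_one [Finite G] {y : G} (h : ¬ R ≤ Subgroup.centralizer ({y} : Set G)) :
    Nat.card (Lr R hc y) ≠ 1 := by
  rw [card_Lr, Ne, relIndex_eq_one]
  exact h

theorem card_inf_mul_relIndex₂ [Finite G] (A B : Subgroup G) :
    Nat.card (A ⊓ B : Subgroup G) * A.relIndex B = Nat.card B := by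
  have h1 : Nat.card (A.subgroupOf B) * (A.subgroupOf B).index = Nat.card B :=
    (A.subgroupOf B).card_mul_index
  have h2 : Nat.card (A ⊓ B : Subgroup G) = Nat.card (A.subgroupOf B) := by
    rw [← inf_subgroupOf_right A B]
    exact Nat.card_congr (subgroupOfEquivOfLe inf_le_right).toEquiv.symm
  rw [h2]
  exact h1

/-- Squarefree class sizes: the commutator image on an abelian normal `q`-subgroup is small. -/
theorem card_Lr_dvd [Finite G] (hSq : SqCl G) {q : ℕ} (hq : q.Prime) (hR : IsPGroup q R) (y : G) :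
    Nat.card (Lr R hc y) ∣ q := by
  haveI : Fact q.Prime := ⟨hq⟩
  have h1 : (Subgroup.centralizer ({y} : Set G)).relIndex R ∣
      (Subgroup.centralizer ({y} : Set G)).index := relIndex_dvd_index_of_normal' _ R
  rw [card_Lr]
  have h2 : (Subgroup.centralizer ({y} : Set G)).relIndex R ∣ Nat.card R :=
    ((Subgroup.centralizer ({y} : Set G)).subgroupOf R).index_dvd_card
  obtain ⟨a, ha⟩ := IsPGroup.iff_card.1 hR
  rw [ha] at h2
  obtain ⟨i, -, hi⟩ := (Nat.dvd_prime_pow hq).1 h2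
  rw [hi] at h1 ⊢
  have hi1 : i ≤ 1 := by
    by_contra hlt
    exact hSq.not_sq_dvd y hq ((pow_dvd_pow q (by omega)).trans h1)
  exact (pow_dvd_pow q hi1).trans (by simp)

/-- A subgroup of prime order is generated by any nontrivial element. -/
theorem eq_zpowers_of_card_dvd_prime [Finite G] {X : Subgroup G} {q : ℕ} (hq : q.Prime)
    (hX : Nat.card X ∣ q) {e : G} (he : e ∈ X) (he1 : e ≠ 1) : X = zpowers e := by
  have h1 : zpowers e ≤ X := zpowers_le.2 he
  have h2 : Nat.card (zpowers e) ∣ Nat.card X := card_dvd_of_le h1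
  have h3 : Nat.card (zpowers e) ≠ 1 := by
    rw [Nat.card_zpowers]
    exact fun h => he1 (orderOf_eq_one_iff.1 h)
  have h4 : Nat.card (zpowers e) = q := by
    rcases (Nat.dvd_prime hq).1 (h2.trans hX) with h | h
    · exact absurd h h3
    · exact h
  have h5 : Nat.card X = q := by
    rcases (Nat.dvd_prime hq).1 hX with h | h
    · rw [h, h4] at h2
      exact absurd (Nat.dvd_one.1 h2) hq.ne_one
    · exact h
  exact (Subgroup.eq_of_le_of_card_ge h1 (by rw [h5, h4])).symm

theorem eq_of_mem_card_dvd_prime [Finite G] {X Y : Subgroup G} {q : ℕ} (hq : q.Prime)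
    (hX : Nat.card X ∣ q) (hY : Nat.card Y ∣ q) {e : G} (he : e ∈ X) (he' : e ∈ Y) (he1 : e ≠ 1) : X = Y := by
  rw [eq_zpowers_of_card_dvd_prime hq hX he he1, eq_zpowers_of_card_dvd_prime hq hY he' he1]

/-- The grid lemma. -/
theorem grid [Finite G] (hSq : SqCl G) {q : ℕ} (hq : q.Prime) (hR : IsPGroup q R) {y h : G}
    (hy : ¬ R ≤ Subgroup.centralizer ({y} : Set G)) (hh : ¬ R ≤ Subgroup.centralizer ({h} : Set G))
    (hL : Lr R hc y ≠ Lr R hc h)
    (hK : Subgroup.centralizer ({y} : Set G) ⊓ R ≠ Subgroup.centralizer ({h} : Set G) ⊓ R) : False := by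
  have hcy : Nat.card (Lr R hc y) = q := by
    rcases (Nat.dvd_prime hq).1 (card_Lr_dvd R hc hSq hq hR y) with h1 | h1
    · exact absurd h1 (card_Lr_ne_one R hc hy)
    · exact h1
  have hch : Nat.card (Lr R hc h) = q := by
    rcases (Nat.dvd_prime hq).1 (card_Lr_dvd R hc hSq hq hR h) with h1 | h1
    · exact absurd h1 (card_Lr_ne_one R hc hh)
    · exact h1
  have hcard : Nat.card (Subgroup.centralizer ({y} : Set G) ⊓ R : Subgroup G) =
      Nat.card (Subgroup.centralizer ({h} : Set G) ⊓ R : Subgroup G) := by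
    have h1 := card_inf_mul_relIndex₂ (Subgroup.centralizer ({y} : Set G)) R
    have h2 := card_inf_mul_relIndex₂ (Subgroup.centralizer ({h} : Set G)) R
    rw [← card_Lr R hc, hcy] at h1
    rw [← card_Lr R hc, hch] at h2
    exact Nat.eq_of_mul_eq_mul_right hq.pos (h1.trans h2.symm)
  obtain ⟨v, hv, hv2⟩ : ∃ v, v ∈ Subgroup.centralizer ({h} : Set G) ⊓ R ∧
      v ∉ Subgroup.centralizer ({y} : Set G) ⊓ R := by
    by_contra hcon
    push Not at hcon
    exact hK (Subgroup.eq_of_le_of_card_ge hcon hcard.le).symm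
  obtain ⟨v', hv', hv2'⟩ : ∃ v, v ∈ Subgroup.centralizer ({y} : Set G) ⊓ R ∧
      v ∉ Subgroup.centralizer ({h} : Set G) ⊓ R := by
    by_contra hcon
    push Not at hcon
    exact hK (Subgroup.eq_of_le_of_card_ge hcon hcard.ge)
  have hvR : v ∈ R := hv.2
  have hv'R : v' ∈ R := hv'.2
  have hvh : v * h = h * v := mem_centralizer_singleton_iff.1 hv.1
  have hvy : ¬ v * y = y * v := fun h0 =>
    hv2 (Subgroup.mem_inf.2 ⟨mem_centralizer_singleton_iff.2 h0, hvR⟩)
  have hv'y : v' * y = y * v' := mem_centralizer_singleton_iff.1 hv'.1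
  have hv'h : ¬ v' * h = h * v' := fun h0 =>
    hv2' (Subgroup.mem_inf.2 ⟨mem_centralizer_singleton_iff.2 h0, hv'R⟩)
  set w := y * h with hw
  set e := y * v * y⁻¹ * v⁻¹ with he
  have he1 : e ≠ 1 := by
    intro h0
    apply hvy
    have h1 : y * v * y⁻¹ = v := by
      calc y * v * y⁻¹ = (y * v * y⁻¹ * v⁻¹) * v := by group
        _ = v := by rw [← he, h0, one_mul]
    calc v * y = (y * v * y⁻¹) * y := by rw [h1]
      _ = y * v := by group
  have heL : e ∈ Lr R hc y := (mem_Lr R hc).2 ⟨v, hvR, rfl⟩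
  have heLw : e ∈ Lr R hc w := by
    refine (mem_Lr R hc).2 ⟨v, hvR, ?_⟩
    rw [hw, he]
    calc y * h * v * (y * h)⁻¹ * v⁻¹ = y * (h * v) * h⁻¹ * y⁻¹ * v⁻¹ := by group
      _ = y * (v * h) * h⁻¹ * y⁻¹ * v⁻¹ := by rw [hvh]
      _ = _ := by group
  set e' := h * v' * h⁻¹ * v'⁻¹ with he'
  have he'1 : e' ≠ 1 := by
    intro h0
    apply hv'h
    have h1 : h * v' * h⁻¹ = v' := by
      calc h * v' * h⁻¹ = (h * v' * h⁻¹ * v'⁻¹) * v' := by group
        _ = v' := by rw [← he', h0, one_mul]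
    calc v' * h = (h * v' * h⁻¹) * h := by rw [h1]
      _ = h * v' := by group
  have he'L : e' ∈ Lr R hc h := (mem_Lr R hc).2 ⟨v', hv'R, rfl⟩
  have he'R : e' ∈ R := Lr_le R hc h he'L
  have he2Lw : y * e' * y⁻¹ ∈ Lr R hc w := by
    refine (mem_Lr R hc).2 ⟨v', hv'R, ?_⟩
    rw [hw, he']
    have h1 : y * v' * y⁻¹ = v' := by
      rw [← hv'y]
      group
    calc y * h * v' * (y * h)⁻¹ * v'⁻¹
        = y * (h * v' * h⁻¹ * v'⁻¹) * y⁻¹ * (y * v' * y⁻¹) * v'⁻¹ := by group
      _ = y * (h * v' * h⁻¹ * v'⁻¹) * y⁻¹ * v' * v'⁻¹ := by rw [h1]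
      _ = _ := by group
  have hXw := card_Lr_dvd R hc hSq hq hR w
  have hXy := card_Lr_dvd R hc hSq hq hR y
  have hLw : Lr R hc w = Lr R hc y := eq_of_mem_card_dvd_prime hq hXw hXy heLw heL he1
  rw [hLw] at he2Lw
  have he'Ly : e' ∈ Lr R hc y := by
    have h1 : y * e' * y⁻¹ * e'⁻¹ ∈ Lr R hc y := (mem_Lr R hc).2 ⟨e', he'R, rfl⟩
    have h2 : e' = (y * e' * y⁻¹ * e'⁻¹)⁻¹ * (y * e' * y⁻¹) := by group
    rw [h2]
    exact (Lr R hc y).mul_mem ((Lr R hc y).inv_mem h1) he2Lw
  exact hL (eq_of_mem_card_dvd_prime hq hXy (card_Lr_dvd R hc hSq hq hR h) he'Ly he'L he'1)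

theorem moves_conj {y : G} (g : G) (h : ¬ R ≤ Subgroup.centralizer ({y} : Set G)) :
    ¬ R ≤ Subgroup.centralizer ({g * y * g⁻¹} : Set G) := by
  intro hle
  apply h
  intro x hx
  have h1 := mem_centralizer_singleton_iff.1 (hle (hn.conj_mem x hx g))
  rw [mem_centralizer_singleton_iff]
  have h2 : g * (x * y) * g⁻¹ = g * (y * x) * g⁻¹ := by
    calc g * (x * y) * g⁻¹ = g * x * g⁻¹ * (g * y * g⁻¹) := by group
      _ = g * y * g⁻¹ * (g * x * g⁻¹) := h1
      _ = _ := by group
  exact mul_left_cancel (mul_right_cancel h2)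

end grid

section rlemma

variable {G : Type*} [Group G] [Finite G]

/-- A nontrivial abelian normal `q`-subgroup contains a normal subgroup of order `q`. -/
theorem exists_normal_prime_aux (hSq : SqCl G) {q : ℕ} [Fact q.Prime] :
    ∀ (n : ℕ) (R : Subgroup G), Nat.card R = n → R.Normal → (∀ a ∈ R, ∀ b ∈ R, a * b = b * a) →
      IsPGroup q R → R ≠ ⊥ → ∃ N : Subgroup G, N ≤ R ∧ N.Normal ∧ Nat.card N = q := by
  have hq : q.Prime := Fact.out
  intro n
  induction n using Nat.strong_induction_on with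
  | _ n ih =>
  intro R hRn hnR hc hRp hR1
  classical
  haveI := hnR
  have hRcard : Nat.card R ≠ 1 := by
    intro h
    apply hR1
    exact (Subgroup.eq_bot_iff_card R).2 h
  by_cases hcen : ∃ y : G, ¬ R ≤ Subgroup.centralizer ({y} : Set G)
  · obtain ⟨y, hy⟩ := hcen
    set A := Lr R hc y with hA
    have hAcard : Nat.card A = q := by
      rcases (Nat.dvd_prime hq).1 (card_Lr_dvd R hc hSq hq hRp y) with h1 | h1
      · exact absurd h1 (card_Lr_ne_one R hc hy)
      · exact h1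
    by_cases hAn : A.Normal
    · exact ⟨A, Lr_le R hc y, hAn, hAcard⟩
    · obtain ⟨a, ha, g₀, hg₀⟩ : ∃ a ∈ A, ∃ g₀ : G, g₀ * a * g₀⁻¹ ∉ A := by
        by_contra hcon
        push Not at hcon
        exact hAn ⟨fun a ha g => hcon a ha g⟩
      have hne : ∀ g : G, Lr R hc (g * y * g⁻¹) ≠ A →
          Subgroup.centralizer ({g * y * g⁻¹} : Set G) ⊓ R = Subgroup.centralizer ({y} : Set G) ⊓ R := by
        intro g hg
        by_contra hK
        exact grid R hc hSq hq hRp hy (moves_conj R g hy) hg.symm (Ne.symm hK)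
      set K := Subgroup.centralizer ({y} : Set G) ⊓ R with hK
      have hKconj : ∀ (g u z : G), z ∈ Subgroup.centralizer ({u} : Set G) ⊓ R →
          g * z * g⁻¹ ∈ Subgroup.centralizer ({g * u * g⁻¹} : Set G) ⊓ R := by
        intro g u z hz
        refine Subgroup.mem_inf.2 ⟨?_, hnR.conj_mem z hz.2 g⟩
        have h1 : z * u = u * z := mem_centralizer_singleton_iff.1 hz.1
        rw [mem_centralizer_singleton_iff]
        calc g * z * g⁻¹ * (g * u * g⁻¹) = g * (z * u) * g⁻¹ := by group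
          _ = g * (u * z) * g⁻¹ := by rw [h1]
          _ = _ := by group
      have hKn : K.Normal := by
        refine ⟨fun z hz g => ?_⟩
        by_cases h1 : Lr R hc (g * y * g⁻¹) = A
        · have h2 : Lr R hc ((g * g₀) * y * (g * g₀)⁻¹) ≠ A := by
            intro h3
            have h4 : g₀ * a * g₀⁻¹ ∈ Lr R hc (g₀ * y * g₀⁻¹) := mem_Lr_conj R hc ha
            have h5 := mem_Lr_conj R hc (g := g) h4
            have h6 : g * (g₀ * y * g₀⁻¹) * g⁻¹ = (g * g₀) * y * (g * g₀)⁻¹ := by group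
            rw [h6, h3, ← h1] at h5
            exact hg₀ (mem_Lr_of_conj R hc h5)
          have h3 := hne _ h2
          have h4 : Lr R hc (g₀ * y * g₀⁻¹) ≠ A := by
            intro h5
            apply hg₀
            rw [← h5]
            exact mem_Lr_conj R hc ha
          have h5 := hne _ h4
          have h6 : z ∈ Subgroup.centralizer ({g₀ * y * g₀⁻¹} : Set G) ⊓ R := by
            rw [h5]
            exact hz
          have h7 := hKconj g _ z h6
          have h8 : g * (g₀ * y * g₀⁻¹) * g⁻¹ = (g * g₀) * y * (g * g₀)⁻¹ := by group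
          rw [h8, h3] at h7
          exact h7
        · have h3 := hne g h1
          have h7 := hKconj g y z hz
          rw [h3] at h7
          exact h7
      by_cases hK1 : K = ⊥
      · have h1 := card_inf_mul_relIndex₂ (Subgroup.centralizer ({y} : Set G)) R
        rw [← hK, hK1, ← card_Lr R hc, hAcard] at h1
        simp only [Subgroup.card_bot, one_mul] at h1
        exact ⟨R, le_rfl, hnR, h1.symm⟩
      · have hlt : Nat.card K < n := by
          have h1 := card_inf_mul_relIndex₂ (Subgroup.centralizer ({y} : Set G)) R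
          rw [← hK, ← card_Lr R hc, hAcard] at h1
          have h2 : 0 < Nat.card K := Nat.card_pos
          have h3 := hq.two_le
          rw [← hRn, ← h1]
          nlinarith
        obtain ⟨N, hN1, hN2, hN3⟩ := ih _ hlt K rfl hKn
          (fun a ha b hb => hc a ha.2 b hb.2) (hRp.to_le inf_le_right) hK1
        exact ⟨N, hN1.trans inf_le_right, hN2, hN3⟩
  · push Not at hcen
    have hd : q ∣ Nat.card R := by
      obtain ⟨a, ha⟩ := IsPGroup.iff_card.1 hRp
      rw [ha]
      refine dvd_pow_self q ?_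
      rintro rfl
      rw [pow_zero] at ha
      exact hRcard ha
    obtain ⟨x, hx⟩ := exists_prime_orderOf_dvd_card' q hd
    refine ⟨zpowers (x : G), ?_, ?_, ?_⟩
    · rw [zpowers_le]
      exact x.2
    · refine ⟨fun z hz g => ?_⟩
      have h1 : (x : G) ∈ Subgroup.centralizer ({g} : Set G) := hcen g x.2
      have h2 : z * g = g * z := by
        obtain ⟨i, rfl⟩ := hz
        have : Commute (x : G) g := mem_centralizer_singleton_iff.1 h1
        exact (this.zpow_left i).eq
      have h3 : g * z * g⁻¹ = z := by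
        rw [← h2]
        group
      rwa [h3]
    · rw [Nat.card_zpowers, ← hx]
      exact Subgroup.orderOf_coe x

theorem exists_normal_prime (hSq : SqCl G) {q : ℕ} [Fact q.Prime] (R : Subgroup G) (hn : R.Normal)
    (hc : ∀ a ∈ R, ∀ b ∈ R, a * b = b * a) (hp : IsPGroup q R) (h1 : R ≠ ⊥) :
    ∃ N : Subgroup G, N ≤ R ∧ N.Normal ∧ Nat.card N = q :=
  exists_normal_prime_aux hSq _ R rfl hn hc hp h1

/-- Elements of exponent `q` in an abelian normal subgroup. -/
def omegaSub (A : Subgroup G) (hc : ∀ a ∈ A, ∀ b ∈ A, a * b = b * a) (q : ℕ) : Subgroup G where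
  carrier := {a | a ∈ A ∧ a ^ q = 1}
  one_mem' := ⟨A.one_mem, one_pow q⟩
  mul_mem' := by
    intro a b ha hb
    refine ⟨A.mul_mem ha.1 hb.1, ?_⟩
    have h : Commute a b := hc a ha.1 b hb.1
    rw [h.mul_pow, ha.2, hb.2, one_mul]
  inv_mem' := by
    intro a ha
    exact ⟨A.inv_mem ha.1, by rw [inv_pow, ha.2, inv_one]⟩

theorem exists_normal_prime_of_mem (hSq : SqCl G) {q : ℕ} [Fact q.Prime] (A : Subgroup G) (hn : A.Normal)
    (hc : ∀ a ∈ A, ∀ b ∈ A, a * b = b * a) {x : G} (hx : x ∈ A) (hxo : orderOf x = q) :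
    ∃ N : Subgroup G, N ≤ A ∧ N.Normal ∧ Nat.card N = q := by
  have hq : q.Prime := Fact.out
  let R := omegaSub A hc q
  have hRn : R.Normal := ⟨fun a ha g => ⟨hn.conj_mem a ha.1 g, by
    rw [conj_pow, ha.2]; group⟩⟩
  have hRp : IsPGroup q R := by
    intro a
    refine ⟨1, ?_⟩
    apply Subtype.ext
    simpa using a.2.2
  have hR1 : R ≠ ⊥ := by
    intro h
    have h1 : x ∈ R := ⟨hx, by rw [← hxo]; exact pow_orderOf_eq_one x⟩
    rw [h, Subgroup.mem_bot] at h1
    rw [h1, orderOf_one] at hxo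
    exact hq.ne_one hxo.symm
  obtain ⟨N, hN1, hN2, hN3⟩ := exists_normal_prime hSq R hRn
    (fun a ha b hb => hc a ha.1 b hb.1) hRp hR1
  exact ⟨N, fun y hy => (hN1 hy).1, hN2, hN3⟩

end rlemma

section solv

/-- A nontrivial solvable group has a nontrivial abelian normal subgroup. -/
theorem exists_abelian_normal {G : Type*} [Group G] [Nontrivial G] [Group.IsSolvable G] :
    ∃ A : Subgroup G, A.Normal ∧ A ≠ ⊥ ∧ ∀ a ∈ A, ∀ b ∈ A, a * b = b * a := by
  classical
  have hex : ∃ n : ℕ, derivedSeries G n = ⊥ := Group.IsSolvable.solvable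
  have hne : Nat.find hex ≠ 0 := by
    intro h
    have h1 := Nat.find_spec hex
    rw [h, derivedSeries_zero] at h1
    exact top_ne_bot h1
  obtain ⟨m, hm⟩ := Nat.exists_eq_succ_of_ne_zero hne
  have h1 := Nat.find_spec hex
  have h2 : derivedSeries G m ≠ ⊥ := Nat.find_min hex (by omega)
  refine ⟨derivedSeries G m, derivedSeries_normal G m, h2, ?_⟩
  rw [hm, derivedSeries_succ] at h1
  intro a ha b hb
  have h3 := commutator_mem_commutator ha hb
  rw [h1, Subgroup.mem_bot, commutatorElement_eq_one_iff_mul_comm] at h3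
  exact h3

theorem exists_normal_prime_of_sqCl {G : Type*} [Group G] [Finite G] [Nontrivial G] (hSq : SqCl G) :
    ∃ N : Subgroup G, N.Normal ∧ (Nat.card N).Prime := by
  haveI := isSolvable_of_sqCl hSq
  obtain ⟨A, hAn, hA1, hAc⟩ := exists_abelian_normal (G := G)
  have hcard : Nat.card A ≠ 1 := fun h => hA1 ((Subgroup.eq_bot_iff_card A).2 h)
  obtain ⟨q, hq, hqd⟩ := Nat.exists_prime_and_dvd hcard
  haveI : Fact q.Prime := ⟨hq⟩
  obtain ⟨x, hx⟩ := exists_prime_orderOf_dvd_card' q hqd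
  obtain ⟨N, -, hN2, hN3⟩ := exists_normal_prime_of_mem hSq A hAn hAc x.2
    ((Subgroup.orderOf_coe x).trans hx)
  exact ⟨N, hN2, by rw [hN3]; exact hq⟩

theorem isSupersolvable_of_sqCl_aux : ∀ (n : ℕ) (G : Type u) [Group G] [Finite G], Nat.card G = n →
    SqCl G → IsSupersolvable G := by
  intro n
  induction n using Nat.strong_induction_on with
  | _ n ih =>
  intro G _ _ hn h
  by_cases h1 : Subsingleton G
  · exact H02.isSupersolvable_of_trivial
  · rw [not_subsingleton_iff_nontrivial] at h1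
    obtain ⟨N, hN, hp⟩ := exists_normal_prime_of_sqCl h
    haveI : Fact (Nat.card N).Prime := ⟨hp⟩
    haveI := hN
    haveI : IsCyclic N := isCyclic_of_prime_card rfl
    have hlt : Nat.card (G ⧸ N) < n := by
      have h2 := N.card_mul_index
      have h3 := hp.two_le
      have h4 : 0 < N.index := Nat.pos_of_ne_zero index_ne_zero_of_finite
      rw [← hn, ← h2]
      show N.index < _
      nlinarith
    have h5 := ih _ hlt (G ⧸ N) rfl (h.of_surjective (QuotientGroup.mk' N) (QuotientGroup.mk'_surjective N))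
    exact H02.isSupersolvable_of_cyclic_normal N h5

theorem isSupersolvable_of_sqCl {G : Type u} [Group G] [Finite G] (h : SqCl G) : IsSupersolvable G :=
  isSupersolvable_of_sqCl_aux _ G rfl h

end solv

end Cfsg.Agent.H18
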