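import Mathlib
import Cfsg.Agent.Lib.H18.Sq5
import Cfsg.Agent.Lib.H02.SuperSolv3
import Cfsg.Agent.Lib.H01.Fitting
import Cfsg.Agent.Lib.H01.Solv2

/-!
Groups with square-free class sizes: the derived subgroup has square-free order.
-/

set_option autoImplicit false
set_option linter.unusedSectionVars false
set_option linter.style.haveILetI false

universe u

namespace Cfsg.Agent.H18

open Subgroup Cfsg
open scoped commutatorElement

section nilp

/-- A nontrivial normal subgroup of a nilpotent group meets the centre. -/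
theorem exists_mem_normal_center {H : Type*} [Group H] [hnil : Group.IsNilpotent H] (N : Subgroup H)
    [hN : N.Normal] (h : N ≠ ⊥) : ∃ x ∈ N, x ≠ 1 ∧ x ∈ center H := by
  classical
  obtain ⟨n, hn⟩ := hnil.nilpotent'
  obtain ⟨x₀, hx₀, hx₀1⟩ : ∃ x ∈ N, x ≠ 1 := by
    by_contra hcon
    push Not at hcon
    exact h ((Subgroup.eq_bot_iff_forall N).2 hcon)
  have hex : ∃ m : ℕ, ∃ x ∈ N, x ≠ 1 ∧ x ∈ Subgroup.upperCentralSeries H m :=
    ⟨n, x₀, hx₀, hx₀1, by rw [hn]; trivial⟩
  have hne : Nat.find hex ≠ 0 := by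
    intro h0
    obtain ⟨x, _, hx1, hx2⟩ := Nat.find_spec hex
    rw [h0, Subgroup.upperCentralSeries_zero, Subgroup.mem_bot] at hx2
    exact hx1 hx2
  obtain ⟨m, hm⟩ := Nat.exists_eq_succ_of_ne_zero hne
  obtain ⟨x, hxN, hx1, hx2⟩ := Nat.find_spec hex
  rw [hm] at hx2
  refine ⟨x, hxN, hx1, ?_⟩
  rw [mem_center_iff]
  intro g
  have h1 := Subgroup.mem_upperCentralSeries_succ_iff.1 hx2 g
  have h2 : ⁅x, g⁆ ∈ N := by
    rw [commutatorElement_def]
    exact N.mul_mem hxN (hN.conj_mem _ (N.inv_mem hxN) g |> fun h3 => by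
      have : g * x⁻¹ * g⁻¹ = x * g * x⁻¹ * g⁻¹ * (x * g * x⁻¹ * g⁻¹)⁻¹ * (g * x⁻¹ * g⁻¹) := by group
      exact h3) |> fun h3 => by
        have : x * g * x⁻¹ * g⁻¹ = x * (g * x⁻¹ * g⁻¹) := by group
        rw [this]
        exact h3
  have h3 : ⁅x, g⁆ = 1 := by
    by_contra h4
    have h5 : Nat.find hex ≤ m := Nat.find_min' hex ⟨_, h2, h4, h1⟩
    omega
  have h4 := commutatorElement_eq_one_iff_mul_comm.1 h3
  exact h4.symm

/-- An element of prime order in the centre of a nilpotent group. -/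
theorem exists_central_of_dvd {H : Type*} [Group H] [Finite H] [hnil : Group.IsNilpotent H] {t : ℕ}
    [Fact t.Prime] (ht : t ∣ Nat.card H) : ∃ z : H, orderOf z = t ∧ z ∈ center H := by
  have htp : t.Prime := Fact.out
  have hT : ∀ T : Sylow t H, (T : Subgroup H).Normal := by
    have := (Group.isNilpotent_of_finite_tfae (G := H)).out 0 3
    exact this.1 hnil t inferInstance
  obtain ⟨T⟩ : Nonempty (Sylow t H) := inferInstance
  haveI := hT T
  have hT1 : (T : Subgroup H) ≠ ⊥ := by
    intro h0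
    have h1 := T.card_eq_multiplicity
    rw [h0, Subgroup.card_bot] at h1
    have h2 : (Nat.card H).factorization t ≠ 0 := by
      rw [← Nat.pos_iff_ne_zero]
      exact htp.factorization_pos_of_dvd Nat.card_pos.ne' ht
    have h3 : 1 < t ^ (Nat.card H).factorization t := Nat.one_lt_pow h2 htp.one_lt
    omega
  obtain ⟨x, hx1, hx2, hx3⟩ := exists_mem_normal_center (T : Subgroup H) hT1
  obtain ⟨k, hk⟩ := exists_order_of_mem_sylow T hx1
  have hk0 : k ≠ 0 := by
    rintro rfl
    rw [pow_zero] at hk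
    exact hx2 (orderOf_eq_one_iff.1 hk)
  have hd : t ∣ orderOf x := by
    rw [hk]
    exact dvd_pow_self t hk0
  refine ⟨x ^ (orderOf x / t), orderOf_pow_orderOf_div (orderOf_pos x).ne' hd, ?_⟩
  exact Subgroup.pow_mem _ hx3 _

end nilp

section main

variable {G : Type*} [Group G] [Finite G]

theorem exists_normal_prime_commutator (hSq : SqCl G) (hnil : Group.IsNilpotent (commutator G)) {t : ℕ}
    [Fact t.Prime] (ht : t ∣ Nat.card (commutator G)) :
    ∃ N : Subgroup G, N ≤ commutator G ∧ N.Normal ∧ Nat.card N = t := by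
  set X := commutator G with hX
  obtain ⟨z, hz, hzc⟩ := exists_central_of_dvd ht
  have hXn : X.Normal := by
    rw [hX]
    infer_instance
  have hCn : (Subgroup.centralizer (X : Set G)).Normal := H01.centralizer_normal hXn
  let A : Subgroup G := X ⊓ Subgroup.centralizer (X : Set G)
  have hAn : A.Normal := Subgroup.normal_inf_normal _ _
  have hAc : ∀ a ∈ A, ∀ b ∈ A, a * b = b * a := by
    intro a ha b hb
    exact mem_centralizer_iff.1 hb.2 a ha.1
  have hzA : (z : G) ∈ A := by
    refine ⟨z.2, mem_centralizer_iff.2 (fun x hx => ?_)⟩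
    have h1 := mem_center_iff.1 hzc ⟨x, hx⟩
    exact congrArg Subtype.val h1
  obtain ⟨N, hN1, hN2, hN3⟩ := exists_normal_prime_of_mem hSq A hAn hAc hzA
    ((Subgroup.orderOf_coe z).trans hz)
  exact ⟨N, hN1.trans inf_le_left, hN2, hN3⟩

/-- The order of a quotient of the derived subgroup. -/
theorem card_commutator_quotient (N : Subgroup G) [hN : N.Normal] (hNX : N ≤ commutator G) :
    Nat.card (commutator (G ⧸ N)) * Nat.card N = Nat.card (commutator G) := by
  set X := commutator G with hX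
  let π := QuotientGroup.mk' N
  have hπ : Function.Surjective π := QuotientGroup.mk'_surjective N
  have h1 : commutator (G ⧸ N) = X.map π := by
    rw [hX, _root_.commutator_def, _root_.commutator_def, map_commutator, map_top_of_surjective π hπ]
  let φ : X →* G ⧸ N := π.comp X.subtype
  have h2 : φ.range = X.map π := by
    rw [MonoidHom.range_comp, range_subtype]
  have h3 : φ.ker = N.subgroupOf X := by
    ext x
    rw [MonoidHom.mem_ker, mem_subgroupOf]
    exact QuotientGroup.eq_one_iff _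
  have h4 := φ.ker.card_mul_index
  rw [Subgroup.index_ker, h2, ← h1, h3] at h4
  have h5 : Nat.card (N.subgroupOf X) = Nat.card N :=
    Nat.card_congr (subgroupOfEquivOfLe hNX).toEquiv
  rw [h5] at h4
  rw [mul_comm]
  exact h4

theorem relIndex_centralizer_dvd (hSq : SqCl G) {q : ℕ} [Fact q.Prime] (P : Subgroup G) [P.Normal]
    (hP : IsPGroup q P) (u : G) : (Subgroup.centralizer ({u} : Set G)).relIndex P ∣ q := by
  have hq : q.Prime := Fact.out
  have h1 : (Subgroup.centralizer ({u} : Set G)).relIndex P ∣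
      (Subgroup.centralizer ({u} : Set G)).index := relIndex_dvd_index_of_normal' _ P
  have h2 : (Subgroup.centralizer ({u} : Set G)).relIndex P ∣ Nat.card P :=
    ((Subgroup.centralizer ({u} : Set G)).subgroupOf P).index_dvd_card
  obtain ⟨a, ha⟩ := IsPGroup.iff_card.1 hP
  rw [ha] at h2
  obtain ⟨i, -, hi⟩ := (Nat.dvd_prime_pow hq).1 h2
  rw [hi] at h1 ⊢
  have hi1 : i ≤ 1 := by
    by_contra hlt
    exact hSq.not_sq_dvd u hq ((pow_dvd_pow q (by omega)).trans h1)
  exact (pow_dvd_pow q hi1).trans (by simp)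

theorem le_of_relIndex_prime {B U P : Subgroup G} {q : ℕ} (hq : q.Prime) (hB : B.relIndex P = q)
    (hBU : B ≤ U ⊓ P) {d : G} (hd : d ∈ U ⊓ P) (hdB : d ∉ B) : P ≤ U := by
  have h1 := relIndex_mul_relIndex B (U ⊓ P) P hBU inf_le_right
  rw [hB] at h1
  have h2 : B.relIndex (U ⊓ P) ≠ 1 := by
    rw [Ne, relIndex_eq_one]
    exact fun h3 => hdB (h3 hd)
  have h3 : (U ⊓ P).relIndex P = 1 := by
    have h4 : B.relIndex (U ⊓ P) ∣ q := ⟨_, h1.symm⟩
    rcases (Nat.dvd_prime hq).1 h4 with h5 | h5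
    · exact absurd h5 h2
    · rw [h5] at h1
      exact Nat.eq_of_mul_eq_mul_left hq.pos (h1.trans (mul_one q).symm)
  rw [relIndex_eq_one] at h3
  exact fun x hx => (h3 hx).1

/-- A normal `q`-subgroup moved by a `q'`-element is abelian. -/
theorem comm_of_moved (hSq : SqCl G) {q : ℕ} [Fact q.Prime] (P : Subgroup G) [hPn : P.Normal]
    (hP : IsPGroup q P) {y : G} (hy : (orderOf y).Coprime q)
    (hmv : ¬ P ≤ Subgroup.centralizer ({y} : Set G)) : ∀ a ∈ P, ∀ b ∈ P, a * b = b * a := by
  classical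
  have hq : q.Prime := Fact.out
  set B := Subgroup.centralizer ({y} : Set G) ⊓ P with hB
  have hBidx : B.relIndex P = q := by
    rw [hB, inf_relIndex_right]
    rcases (Nat.dvd_prime hq).1 (relIndex_centralizer_dvd hSq P hP y) with h1 | h1
    · rw [relIndex_eq_one] at h1
      exact absurd h1 hmv
    · exact h1
  have hBP : B ≤ P := inf_le_right
  -- `B` is abelian
  have hBab : ∀ a ∈ B, ∀ b ∈ B, a * b = b * a := by
    intro a ha b hb
    obtain ⟨k, hk⟩ := (IsPGroup.iff_orderOf.1 hP) ⟨a, ha.2⟩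
    have hk' : orderOf a = q ^ k := by rwa [Subgroup.orderOf_mk] at hk
    have hya : Commute y a := (mem_centralizer_singleton_iff.1 ha.1).symm
    have hco : (orderOf y).Coprime (orderOf a) := by
      rw [hk']
      exact Nat.Coprime.pow_right k hy
    have h1 := centralizer_mul_le_of_coprime hya hco
    set B₂ := Subgroup.centralizer ({a} : Set G) ⊓ B with hB₂
    set D := Subgroup.centralizer ({y * a} : Set G) ⊓ P with hD
    have hDB₂ : D ≤ B₂ := by
      intro x hx
      exact Subgroup.mem_inf.2 ⟨(h1 hx.1).2, Subgroup.mem_inf.2 ⟨(h1 hx.1).1, hx.2⟩⟩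
    have hB₂B : B₂ ≤ B := inf_le_right
    have h2 := relIndex_mul_relIndex D B₂ P hDB₂ (hB₂B.trans hBP)
    have h3 := relIndex_mul_relIndex B₂ B P hB₂B hBP
    have h4 : D.relIndex P ∣ q := by
      rw [hD, inf_relIndex_right]
      exact relIndex_centralizer_dvd hSq P hP _
    rw [← h2, ← h3, hBidx] at h4
    have h5 : B₂.relIndex B = 1 := by
      have h6 : B₂.relIndex B * q ∣ q := (Dvd.intro_left _ rfl).trans h4
      have h7 : B₂.relIndex B ∣ 1 := by
        have : B₂.relIndex B * q ∣ 1 * q := by simpa using h6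
        exact Nat.dvd_of_mul_dvd_mul_right hq.pos this
      exact Nat.dvd_one.1 h7
    rw [relIndex_eq_one] at h5
    have h6 := h5 hb
    exact (mem_centralizer_singleton_iff.1 h6.1).symm
  -- `B` is normal in `P`
  have hBnP : ∀ c ∈ P, ∀ x ∈ B, c⁻¹ * x * c ∈ B := by
    intro c hc x hx
    let B₀ : Subgroup P := (Subgroup.centralizer ({y} : Set G)).subgroupOf P
    have hidx : B₀.index = q := by
      show (Subgroup.centralizer ({y} : Set G)).relIndex P = q
      rw [← inf_relIndex_right]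
      exact hBidx
    obtain ⟨e, he⟩ := IsPGroup.iff_card.1 hP
    have hd : q ∣ Nat.card P := by
      rw [← hidx]
      exact B₀.index_dvd_card
    have he0 : e ≠ 0 := by
      rintro rfl
      rw [he, pow_zero] at hd
      exact hq.one_lt.ne' (Nat.dvd_one.1 hd)
    have hmin : (Nat.card P).minFac = q := by
      rw [he]
      exact Nat.Prime.pow_minFac hq he0
    haveI hn0 : B₀.Normal := normal_of_index_eq_minFac_card (by rw [hidx, hmin])
    have h1 : (⟨x, hx.2⟩ : P) ∈ B₀ := mem_subgroupOf.2 hx.1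
    have h2 := hn0.conj_mem _ h1 (⟨c, hc⟩ : P)⁻¹
    refine Subgroup.mem_inf.2 ⟨mem_subgroupOf.1 h2 |> fun h3 => ?_, P.mul_mem (P.mul_mem (P.inv_mem hc) hx.2) hc⟩
    have : c⁻¹ * x * c = (((⟨c, hc⟩ : P)⁻¹ * (⟨x, hx.2⟩ : P) * (⟨c, hc⟩ : P)⁻¹⁻¹ : P) : G) := by
      simp
    rw [this]
    exact h3
  -- the element `d`
  obtain ⟨c, hcP, hcy⟩ := SetLike.not_le_iff_exists.1 hmv
  set d := y * c * y⁻¹ * c⁻¹ with hd
  have hdP : d ∈ P := P.mul_mem (hPn.conj_mem c hcP y) (P.inv_mem hcP)
  have hdB : d ∉ B := by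
    intro hdB
    have h1 : d * y = y * d := mem_centralizer_singleton_iff.1 hdB.1
    have h2 : y * c * y⁻¹ = d * c := by
      rw [hd]
      group
    have hco : (orderOf d).Coprime (orderOf y) := by
      obtain ⟨k, hk⟩ := (IsPGroup.iff_orderOf.1 hP) ⟨d, hdP⟩
      rw [Subgroup.orderOf_mk] at hk
      rw [hk]
      exact Nat.Coprime.pow_left k hy.symm
    have h3 := comm_fixed_eq_one h2 h1 hco
    rw [h3, one_mul] at h2
    apply hcy
    rw [mem_centralizer_singleton_iff]
    calc c * y = (y * c * y⁻¹) * y := by rw [h2]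
      _ = y * c := by group
  have hdBc : ∀ x ∈ B, x * d = d * x := by
    intro x hx
    have hxy : x * y = y * x := mem_centralizer_singleton_iff.1 hx.1
    have h1 := hBnP c hcP x hx
    have h2 : (c⁻¹ * x * c) * y = y * (c⁻¹ * x * c) := mem_centralizer_singleton_iff.1 h1.1
    have h3 : x * (c * y⁻¹ * c⁻¹) = (c * y⁻¹ * c⁻¹) * x := by
      have h4 : (c⁻¹ * x * c) * y⁻¹ = y⁻¹ * (c⁻¹ * x * c) := by
        have : Commute (c⁻¹ * x * c) y := h2
        exact (this.inv_right).eq
      calc x * (c * y⁻¹ * c⁻¹) = c * ((c⁻¹ * x * c) * y⁻¹) * c⁻¹ := by group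
        _ = c * (y⁻¹ * (c⁻¹ * x * c)) * c⁻¹ := by rw [h4]
        _ = _ := by group
    have h5 : d = y * (c * y⁻¹ * c⁻¹) := by
      rw [hd]
      group
    rw [h5]
    calc x * (y * (c * y⁻¹ * c⁻¹)) = (x * y) * (c * y⁻¹ * c⁻¹) := by group
      _ = (y * x) * (c * y⁻¹ * c⁻¹) := by rw [hxy]
      _ = y * (x * (c * y⁻¹ * c⁻¹)) := by group
      _ = y * ((c * y⁻¹ * c⁻¹) * x) := by rw [h3]
      _ = _ := by group
  have hPd : P ≤ Subgroup.centralizer ({d} : Set G) := by
    refine le_of_relIndex_prime hq hBidx (fun x hx => Subgroup.mem_inf.2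
      ⟨mem_centralizer_singleton_iff.2 (hdBc x hx), hx.2⟩) (d := d) (Subgroup.mem_inf.2
      ⟨mem_centralizer_singleton_iff.2 rfl, hdP⟩) hdB
  have hBcen : ∀ x ∈ B, P ≤ Subgroup.centralizer ({x} : Set G) := by
    intro x hx
    refine le_of_relIndex_prime hq hBidx (fun b hb => Subgroup.mem_inf.2
      ⟨mem_centralizer_singleton_iff.2 (hBab b hb x hx), hb.2⟩) (d := d) (Subgroup.mem_inf.2
      ⟨mem_centralizer_singleton_iff.2 (hdBc x hx).symm, hdP⟩) hdB
  intro a ha b hb
  have hPa : P ≤ Subgroup.centralizer ({a} : Set G) := by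
    refine le_of_relIndex_prime hq hBidx (fun x hx => Subgroup.mem_inf.2
      ⟨mem_centralizer_singleton_iff.2 (mem_centralizer_singleton_iff.1 (hBcen x hx ha)).symm, hx.2⟩)
      (d := d) (Subgroup.mem_inf.2
      ⟨mem_centralizer_singleton_iff.2 (mem_centralizer_singleton_iff.1 (hPd ha)).symm, hdP⟩) hdB
  exact (mem_centralizer_singleton_iff.1 (hPa hb)).symm

/-- `q`-groups all of whose classes have size at most `q` have derived subgroup of order at most `q`. -/
theorem card_commutator_dvd_of_small_classes {Q : Type*} [Group Q] [Finite Q] {q : ℕ} [Fact q.Prime]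
    (hQ : IsPGroup q Q) (hidx : ∀ x : Q, (Subgroup.centralizer ({x} : Set Q)).index ∣ q) :
    Nat.card (commutator Q) ∣ q := by
  classical
  have hq : q.Prime := Fact.out
  have hcen : ∀ a b x : Q, ⁅a, b⁆ * x = x * ⁅a, b⁆ := by
    intro a b x
    have h1 := commutator_le_of_index_dvd_prime hQ _ (hidx x)
    have h2 : ⁅a, b⁆ ∈ commutator Q := by
      rw [_root_.commutator_def]
      exact commutator_mem_commutator (mem_top a) (mem_top b)
    exact mem_centralizer_singleton_iff.1 (h1 h2)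
  -- the commutator homomorphisms
  let ψ : Q → Q →* Q := fun a =>
    { toFun := fun x => ⁅a, x⁆
      map_one' := by simp
      map_mul' := fun x y => by
        have h1 := hcen a y x
        have h2 : ⁅a, x * y⁆ = ⁅a, x⁆ * (x * ⁅a, y⁆ * x⁻¹) := by
          simp only [commutatorElement_def]
          group
        rw [h2, ← h1]
        group }
  have hψ : ∀ a x, ψ a x = ⁅a, x⁆ := fun _ _ => rfl
  have hker : ∀ a, (ψ a).ker = Subgroup.centralizer ({a} : Set Q) := by
    intro a
    ext x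
    rw [MonoidHom.mem_ker, hψ, commutatorElement_eq_one_iff_mul_comm, mem_centralizer_singleton_iff]
    exact eq_comm
  have hW : ∀ a, Nat.card (ψ a).range ∣ q := by
    intro a
    rw [← Subgroup.index_ker, hker]
    exact hidx a
  have hadd : ∀ a b x : Q, ⁅a * b, x⁆ = ⁅b, x⁆ * ⁅a, x⁆ := by
    intro a b x
    have h1 : ⁅a * b, x⁆ = a * ⁅b, x⁆ * a⁻¹ * ⁅a, x⁆ := by
      simp only [commutatorElement_def]
      group
    rw [h1, ← hcen b x a]
    group
  have hinv : ∀ a x : Q, ⁅a, x⁆⁻¹ = ⁅x, a⁆ := fun a x => commutatorElement_inv a x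
  have hne : ∀ a x : Q, ⁅a, x⁆ ≠ 1 → x ∉ Subgroup.centralizer ({a} : Set Q) := by
    intro a x h1 h2
    apply h1
    rw [commutatorElement_eq_one_iff_mul_comm]
    exact (mem_centralizer_singleton_iff.1 h2).symm
  have hmem : ∀ a x : Q, ⁅a, x⁆ ∈ (ψ a).range := fun a x => ⟨x, rfl⟩
  have hidxeq : ∀ a x : Q, ⁅a, x⁆ ≠ 1 → (Subgroup.centralizer ({a} : Set Q)).index = q := by
    intro a x h1
    rcases (Nat.dvd_prime hq).1 (hidx a) with h2 | h2
    · rw [index_eq_one] at h2
      exact absurd (by rw [h2]; trivial) (hne a x h1)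
    · exact h2
  have hWeq : ∀ a b x y : Q, ⁅a, x⁆ ≠ 1 → ⁅b, y⁆ ≠ 1 → (ψ a).range = (ψ b).range := by
    intro a b x y hax hby
    by_cases hcc : Subgroup.centralizer ({a} : Set Q) = Subgroup.centralizer ({b} : Set Q)
    · have hbx : ⁅b, x⁆ ≠ 1 := by
        intro h0
        apply hne a x hax
        rw [hcc, mem_centralizer_singleton_iff]
        exact (commutatorElement_eq_one_iff_mul_comm.1 h0).symm
      have h1 : ⁅a, x⁆ ∈ (ψ x).range := by
        have := (ψ x).range.inv_mem (hmem x a)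
        rwa [hinv] at this
      have h2 : ⁅b, x⁆ ∈ (ψ x).range := by
        have := (ψ x).range.inv_mem (hmem x b)
        rwa [hinv] at this
      rw [eq_of_mem_card_dvd_prime hq (hW a) (hW x) (hmem a x) h1 hax,
        eq_of_mem_card_dvd_prime hq (hW b) (hW x) (hmem b x) h2 hbx]
    · have hcard : Nat.card (Subgroup.centralizer ({a} : Set Q)) =
          Nat.card (Subgroup.centralizer ({b} : Set Q)) := by
        have h1 := (Subgroup.centralizer ({a} : Set Q)).card_mul_index
        have h2 := (Subgroup.centralizer ({b} : Set Q)).card_mul_index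
        rw [hidxeq a x hax] at h1
        rw [hidxeq b y hby] at h2
        exact Nat.eq_of_mul_eq_mul_right hq.pos (h1.trans h2.symm)
      obtain ⟨x', hx', hx'2⟩ : ∃ v, v ∈ Subgroup.centralizer ({b} : Set Q) ∧
          v ∉ Subgroup.centralizer ({a} : Set Q) := by
        by_contra hcon
        push Not at hcon
        exact hcc (Subgroup.eq_of_le_of_card_ge hcon hcard.le).symm
      obtain ⟨y', hy', hy'2⟩ : ∃ v, v ∈ Subgroup.centralizer ({a} : Set Q) ∧
          v ∉ Subgroup.centralizer ({b} : Set Q) := by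
        by_contra hcon
        push Not at hcon
        exact hcc (Subgroup.eq_of_le_of_card_ge hcon hcard.ge)
      have h1 : ⁅b, x'⁆ = 1 := by
        rw [commutatorElement_eq_one_iff_mul_comm]
        exact (mem_centralizer_singleton_iff.1 hx').symm
      have h2 : ⁅a, y'⁆ = 1 := by
        rw [commutatorElement_eq_one_iff_mul_comm]
        exact (mem_centralizer_singleton_iff.1 hy').symm
      have h3 : ⁅a, x'⁆ ≠ 1 := by
        intro h0
        apply hx'2
        rw [mem_centralizer_singleton_iff]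
        exact (commutatorElement_eq_one_iff_mul_comm.1 h0).symm
      have h4 : ⁅b, y'⁆ ≠ 1 := by
        intro h0
        apply hy'2
        rw [mem_centralizer_singleton_iff]
        exact (commutatorElement_eq_one_iff_mul_comm.1 h0).symm
      have h5 : ⁅a, x'⁆ ∈ (ψ (a * b)).range := by
        have := hmem (a * b) x'
        rwa [hadd, h1, one_mul] at this
      have h6 : ⁅b, y'⁆ ∈ (ψ (a * b)).range := by
        have := hmem (a * b) y'
        rwa [hadd, h2, mul_one] at this
      rw [eq_of_mem_card_dvd_prime hq (hW a) (hW (a * b)) (hmem a x') h5 h3,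
        eq_of_mem_card_dvd_prime hq (hW b) (hW (a * b)) (hmem b y') h6 h4]
  by_cases hall : ∀ a x : Q, ⁅a, x⁆ = 1
  · have h1 : commutator Q = ⊥ := by
      rw [eq_bot_iff, _root_.commutator_def, commutator_le]
      intro a _ x _
      rw [hall a x]
      exact Subgroup.one_mem _
    rw [h1, Subgroup.card_bot]
    exact one_dvd _
  · push Not at hall
    obtain ⟨a₀, x₀, h₀⟩ := hall
    have h1 : commutator Q ≤ (ψ a₀).range := by
      rw [_root_.commutator_def, commutator_le]
      intro a _ x _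
      by_cases h2 : ⁅a, x⁆ = 1
      · rw [h2]
        exact Subgroup.one_mem _
      · rw [hWeq a₀ a x₀ x h₀ h2]
        exact hmem a x
    exact (card_dvd_of_le h1).trans (hW a₀)

/-- The central reduction. -/
theorem commutator_le_of_central_mod {q : ℕ} [Fact q.Prime] (P W : Subgroup G) [hWn : W.Normal]
    (hPq : IsPGroup q P) (hXP : commutator G ≤ P)
    (hall : ∀ x : G, (∃ k : ℕ, orderOf x = q ^ k) → x ∈ P)
    (h1 : ∀ a ∈ P, ∀ b ∈ P, a * b * a⁻¹ * b⁻¹ ∈ W)
    (h2 : ∀ a ∈ P, ∀ y : G, (orderOf y).Coprime q → a * y * a⁻¹ * y⁻¹ ∈ W) : commutator G ≤ W := by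
  have hq : q.Prime := Fact.out
  let π := QuotientGroup.mk' W
  have hc : ∀ a g : G, a * g * a⁻¹ * g⁻¹ ∈ W → π a * π g = π g * π a := by
    intro a g h
    have h3 : π (a * g * a⁻¹ * g⁻¹) = 1 := (QuotientGroup.eq_one_iff _).2 h
    simp only [map_mul, map_inv] at h3
    calc π a * π g = (π a * π g * (π a)⁻¹ * (π g)⁻¹) * (π g * π a) := by group
      _ = π g * π a := by rw [h3, one_mul]
  have hcen : ∀ a ∈ P, ∀ g : G, π a * π g = π g * π a := by
    intro a ha g
    obtain ⟨b, u, hg, -, hb, hu, -⟩ := exists_part q hq g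
    rw [hg, map_mul, ← mul_assoc, hc a b (h1 a ha b (hall b hb)), mul_assoc,
      hc a u (h2 a ha u hu), mul_assoc]
  have hcomm : ∀ g₁ g₂ : G, π g₁ * π g₂ = π g₂ * π g₁ := by
    intro g₁ g₂
    obtain ⟨a₁, u₁, hg₁, -, ha₁, hu₁, -⟩ := exists_part q hq g₁
    obtain ⟨a₂, u₂, hg₂, -, ha₂, hu₂, -⟩ := exists_part q hq g₂
    have hu : π u₁ * π u₂ = π u₂ * π u₁ := by
      set c := u₁ * u₂ * u₁⁻¹ * u₂⁻¹ with hcdef
      have hcP : c ∈ P := hXP (by
        rw [_root_.commutator_def]
        exact commutator_mem_commutator (mem_top u₁) (mem_top u₂))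
      have h3 : π u₁ * π u₂ * (π u₁)⁻¹ = π c * π u₂ := by
        rw [hcdef]
        simp only [map_mul, map_inv]
        group
      have h4 : π c * π u₁ = π u₁ * π c := hcen c hcP u₁
      have hcop : (orderOf (π c)).Coprime (orderOf (π u₁)) := by
        obtain ⟨k, hk⟩ := (IsPGroup.iff_orderOf.1 hPq) ⟨c, hcP⟩
        rw [Subgroup.orderOf_mk] at hk
        refine Nat.Coprime.coprime_dvd_left ((orderOf_map_dvd π c).trans (by rw [hk]))
          (Nat.Coprime.coprime_dvd_right (orderOf_map_dvd π u₁) ?_)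
        exact Nat.Coprime.pow_left k hu₁.symm
      have h5 := comm_fixed_eq_one h3 h4 hcop
      rw [h5, one_mul] at h3
      calc π u₁ * π u₂ = (π u₁ * π u₂ * (π u₁)⁻¹) * π u₁ := by group
        _ = π u₂ * π u₁ := by rw [h3]
    have hA₁ := hall a₁ ha₁
    have hA₂ := hall a₂ ha₂
    rw [hg₁, hg₂]
    simp only [map_mul]
    calc π a₁ * π u₁ * (π a₂ * π u₂) = π a₁ * (π u₁ * π a₂) * π u₂ := by group
      _ = π a₁ * (π a₂ * π u₁) * π u₂ := by rw [hcen a₂ hA₂ u₁]
      _ = (π a₁ * π a₂) * (π u₁ * π u₂) := by group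
      _ = (π a₂ * π a₁) * (π u₂ * π u₁) := by rw [hcen a₁ hA₁ a₂, hu]
      _ = π a₂ * (π a₁ * π u₂) * π u₁ := by group
      _ = π a₂ * (π u₂ * π a₁) * π u₁ := by rw [hcen a₁ hA₁ u₂]
      _ = π a₂ * π u₂ * (π a₁ * π u₁) := by group
  rw [_root_.commutator_def, commutator_le]
  intro g₁ _ g₂ _
  rw [← QuotientGroup.eq_one_iff, commutatorElement_def]
  show π (g₁ * g₂ * g₁⁻¹ * g₂⁻¹) = 1
  simp only [map_mul, map_inv]
  rw [hcomm g₁ g₂]
  group

end main

end Cfsg.Agent.H18
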