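import Mathlib
import Cfsg.Agent.Lib.H18.Sq6

/-!
Groups with square-free class sizes: the derived subgroup has square-free order.
-/

set_option autoImplicit false
set_option linter.unusedSectionVars false
set_option linter.style.haveILetI false

universe u

namespace Cfsg.Agent.H18

open Subgroup Cfsg
open scoped commutatorElement

section main

variable {G : Type*} [Group G] [Finite G]

theorem card_comm_dvd (hSq : SqCl G) {q : ℕ} [Fact q.Prime] (S : Subgroup G) [hSn : S.Normal]
    (hSp : IsPGroup q S) (hXS : commutator G ≤ S)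
    (hall : ∀ x : G, (∃ k : ℕ, orderOf x = q ^ k) → x ∈ S) : Nat.card (commutator G) ∣ q := by
  classical
  have hq : q.Prime := Fact.out
  by_cases hmov : ∃ y : G, (orderOf y).Coprime q ∧ ¬ S ≤ Subgroup.centralizer ({y} : Set G)
  · obtain ⟨y₀, hy₀, hm₀⟩ := hmov
    have hcP := comm_of_moved hSq S hSp hy₀ hm₀
    set W := Lr S hcP y₀ with hW
    have hWcard : Nat.card W ∣ q := card_Lr_dvd S hcP hSq hq hSp y₀
    have hLy : ∀ y : G, (orderOf y).Coprime q → Lr S hcP y ≤ W := by
      intro y hy z hz
      by_cases hm : S ≤ Subgroup.centralizer ({y} : Set G)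
      · obtain ⟨x, hx, rfl⟩ := (mem_Lr S hcP).1 hz
        have h1 : x * y = y * x := mem_centralizer_singleton_iff.1 (hm hx)
        have h2 : y * x * y⁻¹ * x⁻¹ = 1 := by
          rw [← h1]
          group
        rw [h2]
        exact W.one_mem
      · have hEq : Lr S hcP y = W := by
          by_contra hne
          obtain ⟨c, hcS, hcy⟩ := SetLike.not_le_iff_exists.1 hm₀
          set d := y₀ * c * y₀⁻¹ * c⁻¹ with hd
          have hdW : d ∈ W := (mem_Lr S hcP).2 ⟨c, hcS, rfl⟩
          have hdS : d ∈ S := Lr_le S hcP y₀ hdW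
          have hdy₀ : ¬ d * y₀ = y₀ * d := by
            intro h1
            have h2 : y₀ * c * y₀⁻¹ = d * c := by
              rw [hd]
              group
            have hco : (orderOf d).Coprime (orderOf y₀) := by
              obtain ⟨k, hk⟩ := (IsPGroup.iff_orderOf.1 hSp) ⟨d, hdS⟩
              rw [Subgroup.orderOf_mk] at hk
              rw [hk]
              exact Nat.Coprime.pow_left k hy₀.symm
            have h3 := comm_fixed_eq_one h2 h1 hco
            rw [h3, one_mul] at h2
            apply hcy
            rw [mem_centralizer_singleton_iff]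
            calc c * y₀ = (y₀ * c * y₀⁻¹) * y₀ := by rw [h2]
              _ = y₀ * c := by group
          set c' := y * c * y⁻¹ with hc'
          have hc'S : c' ∈ S := hSn.conj_mem c hcS y
          set z₀ := y * y₀ * y⁻¹ * y₀⁻¹ with hz₀
          have hz₀S : z₀ ∈ S := hXS (by
            rw [_root_.commutator_def]
            exact commutator_mem_commutator (mem_top y) (mem_top y₀))
          have h1 : y * d * y⁻¹ = y₀ * c' * y₀⁻¹ * c'⁻¹ := by
            have h2 : y * y₀ * y⁻¹ = z₀ * y₀ := by
              rw [hz₀]
              group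
            have h3 : y₀ * c' * y₀⁻¹ ∈ S := hSn.conj_mem c' hc'S y₀
            have h4 := hcP z₀ hz₀S _ h3
            calc y * d * y⁻¹ = (y * y₀ * y⁻¹) * c' * (y * y₀ * y⁻¹)⁻¹ * c'⁻¹ := by
                  rw [hd, hc']
                  group
              _ = (z₀ * y₀) * c' * (z₀ * y₀)⁻¹ * c'⁻¹ := by rw [h2]
              _ = (z₀ * (y₀ * c' * y₀⁻¹)) * z₀⁻¹ * c'⁻¹ := by group
              _ = ((y₀ * c' * y₀⁻¹) * z₀) * z₀⁻¹ * c'⁻¹ := by rw [h4]
              _ = _ := by group
          have he1 : y * d * y⁻¹ * d⁻¹ ∈ Lr S hcP y := (mem_Lr S hcP).2 ⟨d, hdS, rfl⟩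
          have he2 : y * d * y⁻¹ * d⁻¹ ∈ W := by
            refine W.mul_mem ?_ (W.inv_mem hdW)
            rw [h1]
            exact (mem_Lr S hcP).2 ⟨c', hc'S, rfl⟩
          have he3 : y * d * y⁻¹ * d⁻¹ = 1 := by
            by_contra h2
            exact hne (eq_of_mem_card_dvd_prime hq (card_Lr_dvd S hcP hSq hq hSp y) hWcard he1 he2 h2)
          have hdy : d * y = y * d := by
            have h2 : y * d * y⁻¹ = d := by
              calc y * d * y⁻¹ = (y * d * y⁻¹ * d⁻¹) * d := by group
                _ = d := by rw [he3, one_mul]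
            calc d * y = (y * d * y⁻¹) * y := by rw [h2]
              _ = y * d := by group
          have hKne : Subgroup.centralizer ({y₀} : Set G) ⊓ S ≠ Subgroup.centralizer ({y} : Set G) ⊓ S := by
            intro h2
            have h3 : d ∈ Subgroup.centralizer ({y} : Set G) ⊓ S :=
              Subgroup.mem_inf.2 ⟨mem_centralizer_singleton_iff.2 hdy, hdS⟩
            rw [← h2] at h3
            exact hdy₀ (mem_centralizer_singleton_iff.1 h3.1)
          exact grid S hcP hSq hq hSp hm₀ hm (Ne.symm hne) hKne
        rw [hEq] at hz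
        exact hz
    haveI hWn : W.Normal := ⟨fun z hz g => hLy (g * y₀ * g⁻¹)
      (by rw [H14.orderOf_conj_eq]; exact hy₀) (mem_Lr_conj S hcP hz)⟩
    have hXW : commutator G ≤ W := by
      refine commutator_le_of_central_mod S W hSp hXS hall ?_ ?_
      · intro a ha b hb
        have h1 : a * b * a⁻¹ * b⁻¹ = 1 := by
          rw [hcP a ha b hb]
          group
        rw [h1]
        exact W.one_mem
      · intro a ha y hy
        have h1 : y * a * y⁻¹ * a⁻¹ ∈ W := hLy y hy ((mem_Lr S hcP).2 ⟨a, ha, rfl⟩)
        have h2 : a * y * a⁻¹ * y⁻¹ = (y * a * y⁻¹ * a⁻¹)⁻¹ := by group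
        rw [h2]
        exact W.inv_mem h1
    exact (card_dvd_of_le hXW).trans hWcard
  · push Not at hmov
    haveI hWn : (⁅S, S⁆ : Subgroup G).Normal := commutator_normal S S
    have hXW : commutator G ≤ ⁅S, S⁆ := by
      refine commutator_le_of_central_mod S ⁅S, S⁆ hSp hXS hall ?_ ?_
      · intro a ha b hb
        exact commutator_mem_commutator ha hb
      · intro a ha y hy
        have h1 : a * y = y * a := mem_centralizer_singleton_iff.1 (hmov y hy ha)
        have h2 : a * y * a⁻¹ * y⁻¹ = 1 := by
          rw [h1]
          group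
        rw [h2]
        exact Subgroup.one_mem _
    have h1 : Nat.card (⁅S, S⁆ : Subgroup G) = Nat.card (commutator S) := by
      rw [← map_subtype_commutator]
      exact Nat.card_congr ((commutator S).equivMapOfInjective _ S.subtype_injective).toEquiv.symm
    have h2 : Nat.card (commutator S) ∣ q := by
      refine card_commutator_dvd_of_small_classes hSp (fun x => ?_)
      rw [centralizer_index_subtype]
      exact relIndex_centralizer_dvd hSq S hSp x
    rw [← h1] at h2
    exact (card_dvd_of_le hXW).trans h2

end main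

theorem squarefree_card_commutator_aux : ∀ (n : ℕ) (G : Type u) [Group G] [Finite G], Nat.card G = n →
    SqCl G → Squarefree (Nat.card (commutator G)) := by
  intro n
  induction n using Nat.strong_induction_on with
  | _ n ih =>
  intro G _ _ hn h
  classical
  have hnil : Group.IsNilpotent (commutator G) := H02.commutator_isNilpotent (isSupersolvable_of_sqCl h)
  by_contra hns
  rw [Nat.squarefree_iff_prime_squarefree] at hns
  push Not at hns
  obtain ⟨q, hq, hqq⟩ := hns
  haveI : Fact q.Prime := ⟨hq⟩
  have hquot : ∀ t : ℕ, t.Prime → t ∣ Nat.card (commutator G) →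
      ∃ m : ℕ, Nat.card (commutator G) = m * t ∧ Squarefree m := by
    intro t ht hd
    haveI : Fact t.Prime := ⟨ht⟩
    obtain ⟨N, hN1, hN2, hN3⟩ := exists_normal_prime_commutator h hnil hd
    haveI := hN2
    have hlt : Nat.card (G ⧸ N) < n := by
      have h2 := N.card_mul_index
      have h3 := ht.two_le
      have h4 : 0 < N.index := Nat.pos_of_ne_zero index_ne_zero_of_finite
      rw [← hn, ← h2, hN3]
      show N.index < _
      nlinarith
    have hsf := ih _ hlt (G ⧸ N) rfl (h.of_surjective (QuotientGroup.mk' N) (QuotientGroup.mk'_surjective N))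
    refine ⟨_, ?_, hsf⟩
    rw [← card_commutator_quotient N hN1, hN3]
  have hXcard : Nat.card (commutator G) = q * q := by
    obtain ⟨m, hm, hmsf⟩ := hquot q hq (dvd_of_mul_right_dvd hqq)
    rw [hm] at hqq
    have hqm : q ∣ m := Nat.dvd_of_mul_dvd_mul_right hq.pos hqq
    obtain ⟨m₂, rfl⟩ := hqm
    have hm₂ : m₂ = 1 := by
      by_contra hne
      obtain ⟨r, hr, hrd⟩ := Nat.exists_prime_and_dvd hne
      by_cases hrq : r = q
      · subst hrq
        exact hr.not_isUnit (hmsf r (Nat.mul_dvd_mul_left r hrd))
      · have hrX : r ∣ Nat.card (commutator G) := by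
          rw [hm]
          exact Dvd.dvd.mul_right (Dvd.dvd.mul_left hrd _) _
        obtain ⟨m', hm', hm'sf⟩ := hquot r hr hrX
        have h1 : q * q ∣ m' * r := by
          rw [← hm', hm]
          exact ⟨m₂, by ring⟩
        have h2 : (q * q).Coprime r := by
          have h3 : q.Coprime r := (Nat.coprime_primes hq hr).2 (Ne.symm hrq)
          exact Nat.Coprime.mul_left h3 h3
        exact hq.not_isUnit (hm'sf q (h2.dvd_of_dvd_mul_right h1))
    rw [hm, hm₂, mul_one]
  have hXq : IsPGroup q (commutator G) := IsPGroup.iff_card.2 ⟨2, by rw [hXcard]; ring⟩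
  have hXn : (commutator G).Normal := inferInstance
  obtain ⟨P⟩ : Nonempty (Sylow q G) := inferInstance
  have hXS : commutator G ≤ (P : Subgroup G) :=
    (H01.le_pCore hXn hXq).trans (H01.pCore_le_sylow q P)
  have hSn : (P : Subgroup G).Normal := by
    refine ⟨fun a ha g => ?_⟩
    have h1 : g * a * g⁻¹ * a⁻¹ ∈ (P : Subgroup G) := hXS (by
      rw [_root_.commutator_def]
      exact commutator_mem_commutator (mem_top g) (mem_top a))
    have h2 : g * a * g⁻¹ = (g * a * g⁻¹ * a⁻¹) * a := by group
    rw [h2]
    exact Subgroup.mul_mem _ h1 ha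
  have hall : ∀ x : G, (∃ k : ℕ, orderOf x = q ^ k) → x ∈ (P : Subgroup G) := by
    intro x hx
    obtain ⟨g, hg⟩ := H22.exists_conj_mem_sylow P hx
    have h1 := hSn.conj_mem _ hg g⁻¹
    have h2 : g⁻¹ * (g * x * g⁻¹) * g⁻¹⁻¹ = x := by group
    rwa [h2] at h1
  have h3 := @card_comm_dvd G _ _ h q _ (P : Subgroup G) hSn P.isPGroup' hXS hall
  rw [hXcard] at h3
  have h4 : q ∣ 1 := Nat.dvd_of_mul_dvd_mul_left hq.pos (by simpa using h3)
  exact hq.one_lt.ne' (Nat.dvd_one.1 h4)

theorem squarefree_card_commutator {G : Type u} [Group G] [Finite G] (h : SqCl G) :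
    Squarefree (Nat.card (commutator G)) :=
  squarefree_card_commutator_aux _ G rfl h

/-- A normal subgroup of square-free order in a nilpotent group is central. -/
theorem central_of_squarefree {F : Type*} [Group F] [Finite F] [hnil : Group.IsNilpotent F]
    (N : Subgroup F) [hN : N.Normal] (hsf : Squarefree (Nat.card N)) : N ≤ center F := by
  classical
  have key : ∀ (n : ℕ) (x : F), orderOf x = n → x ∈ N → x ∈ center F := by
    intro n
    induction n using Nat.strong_induction_on with
    | _ n ih =>
    intro x hxn hxN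
    by_cases hx1 : orderOf x = 1
    · rw [orderOf_eq_one_iff.1 hx1]
      exact Subgroup.one_mem _
    · have hr : (orderOf x).minFac.Prime := Nat.minFac_prime hx1
      set r := (orderOf x).minFac with hrdef
      haveI : Fact r.Prime := ⟨hr⟩
      obtain ⟨y, w, hxyw, hcomm, ⟨k, hk⟩, hw, hwd⟩ := exists_part r hr x
      have hco : (orderOf y).Coprime (orderOf w) := by
        rw [hk]
        exact (Nat.Coprime.pow_right k hw).symm
      obtain ⟨hyz, hwz⟩ := mem_zpowers_of_commute_coprime hcomm hco
      rw [← hxyw] at hyz hwz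
      have hyN : y ∈ N := (zpowers_le.2 hxN) hyz
      have hwN : w ∈ N := (zpowers_le.2 hxN) hwz
      have hwlt : orderOf w < n := by
        rw [← hxn]
        refine lt_of_le_of_ne (Nat.le_of_dvd (orderOf_pos x) hwd) ?_
        intro h1
        rw [h1] at hw
        have h2 : r ∣ orderOf x := Nat.minFac_dvd _
        have := Nat.eq_one_of_dvd_coprimes hw h2 dvd_rfl
        exact hr.ne_one this
      have hwc := ih _ hwlt w rfl hwN
      have hyc : y ∈ center F := by
        by_cases hy1 : y = 1
        · rw [hy1]
          exact Subgroup.one_mem _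
        · have hT : ∀ T : Sylow r F, (T : Subgroup F).Normal := by
            have := (Group.isNilpotent_of_finite_tfae (G := F)).out 0 3
            exact this.1 hnil r inferInstance
          have hpg : IsPGroup r (zpowers y) := by
            rw [IsPGroup.iff_card, Nat.card_zpowers]
            exact ⟨k, hk⟩
          obtain ⟨T, hTy⟩ := hpg.exists_le_sylow
          have hyT : y ∈ Cfsg.pCore r F :=
            H01.le_pCore (hT T) T.isPGroup' (hTy (mem_zpowers y))
          let M : Subgroup F := N ⊓ Cfsg.pCore r F
          haveI hM : M.Normal := @Subgroup.normal_inf_normal _ _ _ _ hN (H01.pCore_normal r)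
          have hM1 : M ≠ ⊥ := by
            intro h0
            have h1 : y ∈ M := ⟨hyN, hyT⟩
            rw [h0, Subgroup.mem_bot] at h1
            exact hy1 h1
          obtain ⟨z, hzM, hz1, hzc⟩ := exists_mem_normal_center M hM1
          have hMp : IsPGroup r M := (H01.pCore_isPGroup r).to_le inf_le_right
          obtain ⟨a, ha⟩ := IsPGroup.iff_card.1 hMp
          have hMd : Nat.card M ∣ Nat.card N := card_dvd_of_le inf_le_left
          have hMr : Nat.card M ∣ r := by
            rw [ha] at hMd ⊢
            have ha1 : a ≤ 1 := by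
              by_contra hlt
              have h2 : r * r ∣ Nat.card N := by
                refine Dvd.dvd.trans ?_ hMd
                rw [← pow_two]
                exact pow_dvd_pow r (by omega)
              exact hr.not_isUnit (hsf r h2)
            exact (pow_dvd_pow r ha1).trans (by simp)
          have h3 := eq_zpowers_of_card_dvd_prime hr hMr hzM hz1
          have h4 : y ∈ zpowers z := by
            rw [← h3]
            exact ⟨hyN, hyT⟩
          exact (zpowers_le.2 hzc) h4
      rw [hxyw]
      exact Subgroup.mul_mem _ hyc hwc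
  exact fun x hx => key _ x rfl hx

end Cfsg.Agent.H18
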